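import Mathlib
import Cfsg.Agent.Lib.AltSec.E7a
import Cfsg.Agent.Lib.AltSec.Mono
import Cfsg.Agent.Lib.Chev.CertE7

/-!
Alternating sections of the groups of type `E₇`.
-/

set_option autoImplicit false

namespace CfsgLib.AltSec

open Subgroup CfsgLib.RGD CfsgLib.Twist CfsgLib.Weyl CfsgLib.Chev CfsgLib.Stein Cfsg.Lie Multiplicative Finset
  Equiv.Perm

theorem mulLeft_pow {R : Type*} [Monoid R] (u : Rˣ) (n : ℕ) : (u ^ n).mulLeft = u.mulLeft ^ n := by
  induction n with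
  | zero => ext; simp
  | succ n ih => rw [pow_succ, pow_succ, ← ih]; ext; simp [mul_assoc]

theorem no49 {μ : ZMod 7 → ZMod 7 → ℕ} {u v : Fin 7 → Multiplicative (ZMod 7)}
    (hμ : ∀ s t, #{r | (Φ7.chr u r).toAdd = s ∧ (Φ7.chr v r).toAdd = t} = μ s t) {x : Equiv.Perm (Fin 126)}
    (hx : x ∈ Φ7.W) (h : ∀ r, (Φ7.chr u (x r)).toAdd = val7 7 0 0 0 1 0 1 0 r) (h0 : μ 0 0 = 6)
    (h1 : ∀ t, t ≠ 0 → μ 0 t = 1) (h2 : μ 1 0 = 1) (h3 : ∀ t, t ≠ 0 → μ 1 t = 3) : False := by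
  let z : Fin 7 → ℕ := fun j => (Φ7.chr v (x (Φ7.simple j))).toAdd.val
  have hz : ∀ j, z j < 7 := fun j => ZMod.val_lt _
  have h4 : ∀ r, (Φ7.chr v (x r)).toAdd = val7 7 (z 0) (z 1) (z 2) (z 3) (z 4) (z 5) (z 6) r := fun r => by
    rw [val7_eq (by decide), ← Φ7.chr_apply hx, chr_eq]
  have h5 : ∀ s t : ZMod 7, μ s t = ((List.range 126).filter (val7 7 0 0 0 1 0 1 0 · == s.val)).countP
      (val7 7 (z 0) (z 1) (z 2) (z 3) (z 4) (z 5) (z 6) · == t.val) := fun s t => by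
    have e : ∀ (a : ℕ) (s : ZMod 7), a < 7 → ((a : ZMod 7) = s ↔ a = s.val) := fun a s ha =>
      ⟨fun e => by rw [← e, ZMod.val_natCast_of_lt ha], fun e => by rw [e, ZMod.natCast_zmod_val]⟩
    rw [← hμ, ← card_equiv (s := {r : Fin 126 | val7 7 (z 0) (z 1) (z 2) (z 3) (z 4) (z 5) (z 6) r = t.val ∧
      val7 7 0 0 0 1 0 1 0 r = s.val}) x fun r => by
        simp only [mem_filter, mem_univ, true_and, h, h4, e _ _ (val7_lt (by decide) _ _ _ _ _ _ _ _), and_comm],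
      card_filter, List.countP_filter, Fin.sum_univ_eq_sum_range fun r => if val7 7 (z 0) (z 1) (z 2) (z 3) (z 4) (z 5)
        (z 6) r = t.val ∧ val7 7 0 0 0 1 0 1 0 r = s.val then 1 else 0, ← card_filter, List.countP_eq_length_filter]
    simp only [Bool.decide_and, Finset.card, Finset.filter_val, Finset.range_val, Multiset.range, Multiset.filter_coe,
      Multiset.coe_card]
    rfl
  have h6 : ∀ t : ZMod 7, μ 0 t = (lis0 (z 0) (z 1) (z 2) (z 4) (z 6)).count t.val := fun t => by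
    rw [h5, ZMod.val_zero, fil0, ← map_lis0 _ _ _ (z 3) _ (z 5), List.count, List.countP_map]
    rfl
  have h7 := chk49 _ (hz 0) _ (hz 1) _ (hz 2) _ (hz 4) _ (hz 6)
  simp only [tst49, Bool.or_eq_true, bne_iff_ne, allLt_iff, Bool.not_eq_true', ← Bool.not_eq_true, beq_iff_eq] at h7
  rcases h7 with (((h7 | h7) | h7) | h7) | h7
  exacts [h7 ((h6 0).symm.trans h0), h7 ((h6 1).symm.trans (h1 1 (by decide))),
    h7 ((h6 2).symm.trans (h1 2 (by decide))), h7 ((h6 3).symm.trans (h1 3 (by decide))),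
    h7 _ (hz 3) _ (hz 5) fun t ht => by
      have := h5 1 t
      rw [show (1 : ZMod 7).val = 1 from rfl, fil1, ZMod.val_natCast_of_lt ht] at this
      rw [← this]
      split_ifs with e
      · simpa [e] using h2
      · exact h3 _ fun h => e (by rw [← ZMod.val_natCast_of_lt ht, h, ZMod.val_zero])]

instance factPrime7 : Fact (Nat.Prime 7) := ⟨by norm_num⟩

instance factPrime5 : Fact (Nat.Prime 5) := ⟨by norm_num⟩

/-- a generator of the units modulo seven -/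
def t7 : (ZMod 7)ˣ := ⟨3, 5, by decide, by decide⟩

/-- a generator of the units modulo five -/
def t5 : (ZMod 5)ˣ := ⟨2, 3, by decide, by decide⟩

theorem sign_t7 : sign t7.mulLeft = -1 := by decide +kernel

theorem sign_t5 : sign t5.mulLeft = -1 := by decide +kernel

theorem real_pow {k l : ℕ} [Fact l.Prime] (h2 : l ≠ 2) {t : (ZMod l)ˣ} (ht : sign t.mulLeft = -1)
    (σ : Equiv.Perm (Fin k)) (n : Fin k → ℕ) (h : sign σ * (-1) ^ ∑ i, n i = 1) :
    Real (trA k h2) (monoMap σ fun i => t ^ n i) :=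
  real_mono h2 σ _ (by simp only [mulLeft_pow, map_pow, ht, prod_pow_eq_pow_sum, h])

theorem toral7 (y : Multiplicative (Fin 2 → ZMod 7) →* (Fin 7 → Multiplicative (ZMod 7)))
    (hy : Function.Injective y) (h : ∀ γ, Real (trA 2 (l := 7) (by decide)) γ →
      ∃ w : Equiv.Perm (Fin 126), ∀ a r, Φ7.chr (y a) r = Φ7.chr (y (γ a)) (w r)) : False := by
  let e₁ : Multiplicative (Fin 2 → ZMod 7) := ofAdd ![1, 0]
  let e₂ : Multiplicative (Fin 2 → ZMod 7) := ofAdd ![0, 1]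
  obtain ⟨μ, hμ⟩ : ∃ μ : ZMod 7 → ZMod 7 → ℕ, ∀ s t,
    #{r | (Φ7.chr (y e₁) r).toAdd = s ∧ (Φ7.chr (y e₂) r).toAdd = t} = μ s t := ⟨_, fun _ _ => rfl⟩
  obtain ⟨w₁, g₁⟩ := h _ (real_pow (by decide) sign_t7 1 ![1, 1] (by decide))
  obtain ⟨w₂, g₂⟩ := h _ (real_pow (by decide) sign_t7 1 ![0, 2] (by decide))
  obtain ⟨w₃, g₃⟩ := h _ (real_pow (by decide) sign_t7 (Equiv.swap 0 1) ![1, 0] (by decide))
  obtain ⟨w₄, g₄⟩ := h _ (real_pow (by decide) sign_t7 1 ![2, 2] (by decide))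
  have c3 : ∀ a b : ZMod 7, 3 • a = 3 * b ↔ a = b := by decide
  have c2 : ∀ a b : ZMod 7, 2 • a = 2 * b ↔ a = b := by decide
  have k₁ : ∀ s t, μ (3 * s) (3 * t) = μ s t := fun s t => by
    rw [← hμ, ← hμ]
    refine card_equiv w₁ fun r => ?_
    simp only [mem_filter, mem_univ, true_and]
    rw [g₁ e₁, g₁ e₂, show monoMap 1 _ e₁ = e₁ ^ 3 by decide, show monoMap 1 _ e₂ = e₂ ^ 3 by decide]
    simp only [map_pow, Φ7.chr_pow, toAdd_pow, c3]
  have k₂ : ∀ s t, μ s (2 * t) = μ s t := fun s t => by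
    rw [← hμ, ← hμ]
    refine card_equiv w₂ fun r => ?_
    simp only [mem_filter, mem_univ, true_and]
    rw [g₂ e₁, g₂ e₂, show monoMap 1 _ e₁ = e₁ by decide, show monoMap 1 _ e₂ = e₂ ^ 2 by decide]
    simp only [map_pow, Φ7.chr_pow, toAdd_pow, c2]
  have k₃ : ∀ s t, μ (3 * s) t = μ t s := fun s t => by
    rw [← hμ, ← hμ]
    refine card_equiv w₃ fun r => ?_
    simp only [mem_filter, mem_univ, true_and]
    rw [g₃ e₁, g₃ e₂, show monoMap (Equiv.swap 0 1) _ e₁ = e₂ ^ 3 by decide,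
      show monoMap (Equiv.swap 0 1) _ e₂ = e₁ by decide]
    simp only [map_pow, Φ7.chr_pow, toAdd_pow, c3, and_comm]
  have k₄ := fun a (ha : a ≠ 1) => rat7 (y := y a) (w := w₄) (fun e => ha (hy (e.trans (map_one y).symm))) fun r => by
    rw [g₄ a, ← map_pow, show monoMap 1 _ a = a ^ 2 by revert a; decide +kernel]
  have s₁ : ∀ s, #{r | (Φ7.chr (y e₁) r).toAdd = s} = μ s 0 + μ s 1 + μ s 2 + μ s 3 + μ s 4 + μ s 5 + μ s 6 :=
    fun s => by
    rw [card_eq_sum_card_fiberwise (f := fun r => (Φ7.chr (y e₂) r).toAdd) (t := univ) fun _ _ => mem_univ _]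
    simp only [filter_filter, hμ]
    exact Fin.sum_univ_seven (μ s)
  have s₂ : #{r | (Φ7.chr (y (e₁ * e₂)) r).toAdd = 0} = μ 0 0 + μ 1 6 + μ 2 5 + μ 3 4 + μ 4 3 + μ 5 2 + μ 6 1 := by
    rw [card_eq_sum_card_fiberwise (f := fun r => (Φ7.chr (y e₁) r).toAdd) (t := univ) fun _ _ => mem_univ _]
    refine (sum_congr rfl fun s _ => ?_).trans (Fin.sum_univ_seven fun s : ZMod 7 => μ s (-s))
    rw [filter_filter, ← hμ]
    simp only [map_mul, Φ7.chr_mul, toAdd_mul]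
    exact congrArg card (filter_congr fun r _ => ⟨fun h => ⟨h.2, h.2 ▸ eq_neg_of_add_eq_zero_right h.1⟩,
      fun h => ⟨by rw [h.1, h.2, add_neg_cancel], h.1⟩⟩)
  have a1 : μ 0 3 = μ 0 1 := k₁ 0 1
  have a2 : μ 0 2 = μ 0 3 := k₁ 0 3
  have a3 : μ 0 6 = μ 0 2 := k₁ 0 2
  have a4 : μ 0 4 = μ 0 6 := k₁ 0 6
  have a5 : μ 0 5 = μ 0 4 := k₁ 0 4
  have b1 : μ 1 2 = μ 1 1 := k₂ 1 1
  have b2 : μ 1 4 = μ 1 2 := k₂ 1 2
  have b3 : μ 1 6 = μ 1 3 := k₂ 1 3
  have b4 : μ 1 5 = μ 1 6 := k₂ 1 6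
  have b5 : μ 1 1 = μ 1 5 := k₃ 5 1
  have b6 : μ 1 0 = μ 0 5 := k₃ 5 0
  have d1 : μ 3 4 = μ 1 6 := k₁ 1 6
  have d2 : μ 2 5 = μ 3 4 := k₁ 3 4
  have d3 : μ 6 1 = μ 2 5 := k₁ 2 5
  have d4 : μ 4 3 = μ 6 1 := k₁ 6 1
  have d5 : μ 5 2 = μ 4 3 := k₁ 4 3
  have f1 := k₄ e₁ (by decide)
  have f2 := k₄ (e₁ * e₂) (by decide)
  rw [s₂] at f2
  rw [s₁, s₁] at f1
  rcases f1 with f1 | f1 | ⟨f1, f3, x, hx, f4⟩
  · omega
  · omega
  · refine no49 hμ hx f4 (by omega) (fun t ht => ?_) (by omega) fun t ht => ?_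
    all_goals
      obtain rfl | rfl | rfl | rfl | rfl | rfl : t = 1 ∨ t = 2 ∨ t = 3 ∨ t = 4 ∨ t = 5 ∨ t = 6 := by revert t; decide
      all_goals omega

theorem real_sq5 (v : Multiplicative (Fin 3 → ZMod 5)) :
    ∃ γ, Real (trA 3 (l := 5) (by decide)) γ ∧ γ v = v ^ 2 := by
  obtain ⟨σ, -, n, h1, h2⟩ : ∃ σ ∈ [1, Equiv.swap (0 : Fin 3) 1], ∃ n : Fin 3 → Fin 4,
      sign σ * (-1) ^ ∑ i, (n i : ℕ) = 1 ∧ monoMap σ (fun i => t5 ^ (n i : ℕ)) v = v ^ 2 := by
    revert v; decide +kernel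
  exact ⟨_, real_pow _ sign_t5 σ _ h1, h2⟩

open _root_.Classical in
theorem count5 {A : Type*} [Group A] [Fintype A] (χ : Fin 126 → A →* Multiplicative (ZMod 5))
    (h : ∀ a, a ≠ 1 → ∀ t, #{r | χ r a = t} = 25 + if t = 1 then 1 else 0) (ψ : A →* Multiplicative (ZMod 5)) :
    5 * (25 * Fintype.card A + #{a | ψ a = 1} + 100) = Fintype.card A * (126 + 4 * #{r | χ r = ψ}) := by
  have := sum_card_eq χ ψ
  rw [Fintype.card_fin, sum_congr rfl (g := fun a => 25 + (if ψ a = 1 then 1 else 0) + if a = 1 then 100 else 0)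
    fun a _ => by
      by_cases e : a = 1
      · simp [e]
      · rw [h a e, if_neg e, add_zero]] at this
  rw [← this, sum_add_distrib, sum_add_distrib, ← card_filter, sum_ite_eq', if_pos (mem_univ _), sum_const, card_univ,
    smul_eq_mul, mul_comm _ 25]

theorem bound_E7 {F : Type*} [Field F] [Fintype F] (p : ℕ) [hp : Fact p.Prime] [CharP F p] {r : ℕ}
    (h : Sec (alternatingGroup (Fin r)) (chevE7.group F)) : r ≤ 13 + (if p = 7 then 1 else 0) := by
  classical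
  have := goodE7
  have hW : ∀ (K : Type) [Field K], Nat.card (twId (stSys rtOKE7 K)).W1 = 2903040 := fun K _ => by
    rw [twId_W1]; exact card_W7
  by_contra hr
  split_ifs at hr with h7
  · obtain ⟨K, _, _, h1, h2⟩ := chev_ext rtOKE7 p (m := 5 * 5) (by decide) (by rw [h7]; decide)
      (h.alt_le (r := 3 * 5) (by omega))
    have hS := sharp_stSys rtOKE7 K
    have hM := isTw_id hS
    obtain ⟨ε, e1, e2⟩ := exists_eps K (l := 5) (h1.of_dvd (by decide))
    obtain ⟨A, y, y1, y2, y3⟩ | ⟨h3, -⟩ := exists_real (ι := Fin 126) (κ := Fin 7) (Φ := Φ7) hM (not_dvd_N hM (fun b => (twId_card hS b).symm ▸ h1)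
      (by rw [hW]; norm_num) (by rw [hW]; norm_num)) (fun h => absurd (hW K ▸ h) (by norm_num)) ε e1 e2 (Sec.prod (k := 3) h2) _
      (trA_injective 3 (by decide)) (pow_eq_one_mult 3 5) (trA_index 3 _ (by decide))
      (irr_mono _ (t5 ^ 2) (by decide) (by rw [mulLeft_pow, map_pow, sign_t5]; rfl) t5 sign_t5)
    swap
    · simp at h3
    let χ : Fin 126 → A →* Multiplicative (ZMod 5) := fun r => MonoidHom.mk' (fun a => Φ7.chr (y a) r) fun a b => by
      rw [map_mul, Φ7.chr_mul]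
    have h4 := count5 χ fun a ha => by
      obtain ⟨γ, g1, g2⟩ := real_sq5 a
      obtain ⟨w, -, hw⟩ := y2 γ g1
      exact rat5 (y := y a) (w := w) (fun e => ha (y1 (e.trans (map_one y).symm))) fun r =>
        (hw a (a ^ 2) g2.symm r).trans (by rw [map_pow])
    have h5 := h4 1
    have h6 := card_mul_index A
    rw [Nat.card_eq_fintype_card, Nat.card_eq_fintype_card (α := Multiplicative _), show Fintype.card
      (Multiplicative (Fin 3 → ZMod 5)) = 125 by simp] at h6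
    simp only [MonoidHom.one_apply, filter_true, card_univ] at h5
    rcases y3 with rfl | ⟨h8, w, hw, w1, w2⟩
    · rw [index_top] at h6
      obtain ⟨r, hr⟩ : (univ.filter fun r => χ r = 1).Nonempty := card_pos.1 (by rw [mul_one] at h6; rw [h6] at h5; omega)
      obtain ⟨s, hs, k, hk, n1, n2, n3, e⟩ := sum_root r r.2
      have h9 : χ ⟨k, hk⟩ = χ ⟨s, hs⟩ := MonoidHom.ext fun a =>
        (chr_add Φ7 (y a) (r := r) (s := ⟨s, hs⟩) (k := ⟨k, hk⟩) fun j => e j j.2).trans (by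
          rw [show Φ7.chr (y a) r = 1 from DFunLike.congr_fun (mem_filter.1 hr).2 a, one_mul]; rfl)
      rw [mul_one] at h6
      by_cases h10 : χ ⟨s, hs⟩ = 1
      · have := (card_le_card (s := {r, ⟨s, hs⟩, ⟨k, hk⟩}) (t := univ.filter fun r => χ r = 1) (by
          simpa [insert_subset_iff, h9, h10] using hr))
        rw [card_eq_three.2 ⟨_, _, _, Fin.ne_of_val_ne n1, Fin.ne_of_val_ne n2, Fin.ne_of_val_ne n3, rfl⟩] at this
        rw [h6] at h5
        omega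
      · have h11 := ker_card _ h10
        have h12 := h4 (χ ⟨s, hs⟩)
        have := (card_le_card (s := {⟨s, hs⟩, ⟨k, hk⟩}) (t := univ.filter fun r => χ r = χ ⟨s, hs⟩) (by
          simp [insert_subset_iff, h9]))
        rw [card_pair (Fin.ne_of_val_ne n3)] at this
        rw [h6] at h11 h12
        omega
    · obtain ⟨s, s1, s2⟩ := kill5 hw w1
      have := card_le_card (s := s) (t := univ.filter fun r => χ r = 1) fun r hr =>
        mem_filter.2 ⟨mem_univ _, MonoidHom.ext fun a => s2 _ (w2 a) r hr⟩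
      rw [show Fintype.card A = 25 by rw [h8] at h6; omega] at h5
      omega
  · obtain ⟨K, _, _, h1, h2⟩ := chev_ext rtOKE7 p (m := 7 * 7) (by decide)
      (Nat.Coprime.mul_right ((Nat.coprime_primes hp.out (by norm_num)).2 h7)
        ((Nat.coprime_primes hp.out (by norm_num)).2 h7)) (h.alt_le (r := 2 * 7) (by omega))
    have hS := sharp_stSys rtOKE7 K
    have hM := isTw_id hS
    obtain ⟨ε, e1, e2⟩ := exists_eps K (l := 7) (h1.of_dvd (by decide))
    have hr : ∀ c : ℕ, Real (trA 2 (l := 7) (by decide)) (· ^ 3 ^ c) := fun c => by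
      convert real_pow (l := 7) (by decide) sign_t7 (1 : Equiv.Perm (Fin 2)) (fun _ => c) (by
        simp [pow_mul]) with v
      ext j
      simp [monoMap, t7]
    obtain ⟨A, y, y1, y2, rfl | ⟨h8, w, hw, w1, w2⟩⟩ | ⟨-, z, z1, ⟨w, hw, w1, w2⟩, z2⟩ := exists_real (ι := Fin 126) (κ := Fin 7) (Φ := Φ7) hM
      (not_dvd_N hM (fun b => (twId_card hS b).symm ▸ h1)
      (by rw [hW]; norm_num) (by rw [hW]; norm_num)) (fun h => absurd (hW K ▸ h) (by norm_num)) ε e1 e2 (Sec.prod (k := 2) h2) _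
      (trA_injective 2 (by decide)) (pow_eq_one_mult 2 7) (trA_index 2 _ (by decide))
      (irr_mono _ (t7 ^ 2) (by decide) (by rw [mulLeft_pow, map_pow, sign_t7]; rfl) t7 sign_t7)
    · refine toral7 (y.comp (topEquiv (G := Multiplicative _)).symm.toMonoidHom) (y1.comp topEquiv.symm.injective) fun γ hγ => ?_
      obtain ⟨w, -, hw⟩ := y2 γ hγ
      exact ⟨w, fun a => hw _ _ rfl⟩
    · obtain ⟨a, ha⟩ := (ne_bot_iff_exists_ne_one (H := A)).1 (by
        rintro rfl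
        simp at h8)
      obtain ⟨u, -, hu⟩ := y2 _ (hr 2)
      refine not_fix7 (y := y a) (u := u) (fun e => ha (y1 (e.trans (map_one y).symm)))
        (fun r => (hu a (a ^ 2) ?_ r).trans (by rw [map_pow])) hw w1 (w2 a)
      rw [show 3 ^ 2 = 7 + 2 from rfl, pow_add, pow_eq_one_mult, one_mul]; rfl
    · obtain ⟨u, -, hu⟩ := z2 _ (hr 1)
      refine not_fix7 (u := u) z1 (fun r => (hu r).trans ?_) hw w1 w2
      rw [show (3 ^ 1) ^ 2 = 7 + 2 from rfl, pow_add, show z ^ 7 = 1 from funext fun i => by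
        rw [Pi.pow_apply, Pi.one_apply]; generalize z i = t; revert t; decide, one_mul]

end CfsgLib.AltSec
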