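import Mathlib
import Cfsg.Agent.Lib.AltSec.E7

/-!
`A₁₃` is not a section of a group of type `E₆` in characteristic different from eleven.
-/

set_option autoImplicit false

namespace CfsgLib.AltSec

open Subgroup CfsgLib.RGD CfsgLib.Twist CfsgLib.Weyl CfsgLib.Chev CfsgLib.Stein Cfsg.Lie Finset Multiplicative

/-- the root system of type `E₆` -/
abbrev Φ6 : RootSys (Fin 72) (Fin 6) := rootSys rtOKE6

/-- a coefficient of three times a weight of the 27-dimensional module, plus eleven -/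
def om6 (a j : ℕ) : ℕ := 0x9ab9b79a86879ab9ba67898767565767898a97898797565797898a6426579756876756879abc8acdecba9decba6456579786876786879ab98a6423579a898a9aecba6456879abcba9ab9876423549a8987 >>> (4 * (6 * a + j)) % 16 + 3

/-- the action of the fundamental reflections on the weights -/
def sig6 (i : Fin 6) (a : Fin 27) : Fin 27 := Fin.ofNat 27 (0x359c5272bdab17c1cc6ad2a41cc520c4106958baea099a30239a5b65283c98f18834d6717b569392d497359183cc740c850045a00d36aaa723c1e86b174bba26293020e45945df5a42519d86d61149c1cc55bb410633aadaf29d2307b9ac5a922080a41a0e6 >>> (5 * (27 * i.val + a.val)) % 32)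

theorem sig6_spec : ∀ i a, sig6 i (sig6 i a) = a ∧ ∀ k : Fin 6,
    ∑ j : Fin 6, ((om6 a j : ℤ) - 11) * Φ6.rt (Φ6.s i (Φ6.simple j)) k = (om6 (sig6 i a) k : ℤ) - 11 := by
  decide +kernel

theorem exists_sig6 {w : Equiv.Perm (Fin 72)} (hw : w ∈ Φ6.W) : ∃ σ : Equiv.Perm (Fin 27), ∀ a : Fin 27, ∀ k : Fin 6,
    ∑ j : Fin 6, ((om6 a j : ℤ) - 11) * Φ6.rt (w (Φ6.simple j)) k = (om6 (σ a) k : ℤ) - 11 := by
  obtain ⟨L, rfl⟩ := Φ6.mem_W_iff.1 hw
  clear hw
  induction L with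
  | nil => exact ⟨1, fun a k => by simp [RootSys.wprod, Φ6.rt_simple]⟩
  | cons i L ih =>
    obtain ⟨σ, h⟩ := ih
    have hi : Function.Involutive (sig6 i) := fun a => (sig6_spec i a).1
    refine ⟨hi.toPerm (sig6 i) * σ, fun a k => ?_⟩
    rw [Φ6.wprod_cons, Equiv.Perm.mul_apply, Function.Involutive.coe_toPerm, ← (sig6_spec i _).2]
    simp only [Equiv.Perm.mul_apply, ← h, sum_mul]
    rw [sum_comm]
    refine sum_congr rfl fun j _ => ?_
    rw [Φ6.rt_apply_eq_sum (Φ6.s_mem_W i), mul_sum]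
    exact sum_congr rfl fun _ _ => (mul_assoc _ _ _).symm

/-- the value of a coweight on a weight -/
def val6 (a b c d e f r : ℕ) : ℕ :=
  (om6 r 0 * a + om6 r 1 * b + om6 r 2 * c + om6 r 3 * d + om6 r 4 * e + om6 r 5 * f) % 11

/-- the test for order eleven -/
noncomputable def tst11 (a b c d e f : ℕ) : Bool :=
  sm (fun r => 32 ^ val6 a b c d e f r) 27 != sm (fun r => 32 ^ (2 * val6 a b c d e f r % 11)) 27 ||
    a % 11 + b + c + d + e + f % 11 == 0

set_option synthInstance.maxSize 2000 in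
theorem chk11 : ∀ d < 4, ∀ b < 6, ∀ c < 6, ∀ e < 6, 3 * d + 2 * b + 2 * c + 2 * e ≤ 11 →
    ∀ a < 12 - (3 * d + 2 * b + 2 * c + 2 * e), ∀ f < 12 - (3 * d + 2 * b + 2 * c + 2 * e + a), tst11 a b c d e f := by
  decide +kernel

theorem rat11 {y : Fin 6 → Multiplicative (ZMod 11)} {w : Equiv.Perm (Fin 72)} (hw : w ∈ Φ6.W)
    (h : ∀ r, Φ6.chr y r = Φ6.chr (y ^ 2) (w r)) : y = 1 := by
  let V (Y : Fin 6 → ZMod 11) (a : Fin 27) : ZMod 11 := ∑ j : Fin 6, (om6 a j : ZMod 11) * Y j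
  have key : ∀ {u}, u ∈ Φ6.W → ∃ σ : Equiv.Perm (Fin 27), ∀ Y Z : Fin 6 → ZMod 11,
      (∀ j, Z j = ∑ k, (Φ6.rt (u (Φ6.simple j)) k : ZMod 11) * Y k) → ∀ a, V Z a = V Y (σ a) := fun hu => by
    obtain ⟨σ, hσ⟩ := exists_sig6 hu
    refine ⟨σ, fun Y Z e a => ?_⟩
    simp only [V, e, mul_sum]
    rw [sum_comm]
    refine sum_congr rfl fun k _ => ?_
    have := congrArg (Int.cast (R := ZMod 11)) (hσ a k)
    simp only [Int.cast_sum, Int.cast_mul, Int.cast_sub, Int.cast_natCast, show ((11 : ℤ) : ZMod 11) = 0 from rfl,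
      sub_zero] at this
    simp only [← this, sum_mul, mul_assoc]
  let Y : Fin 6 → ZMod 11 := fun j => (y j).toAdd
  obtain ⟨x, hx, z, h1, h2⟩ := Semi.exists_alcove Φ6 (N := 11) (by decide) fun j => (Y j).val
  have h3 : ∀ r, ∑ k, (Φ6.rt r k : ZMod 11) * z k = ∑ k, (Φ6.rt (x r) k : ZMod 11) * Y k := fun r => by
    simpa [RootSys.ip] using (ZMod.intCast_eq_intCast_iff _ _ 11).2 (h1 r)
  obtain ⟨σ, hσ⟩ := key hw
  obtain ⟨τ, hτ⟩ := key hx
  have h4 := hτ Y (fun j => z j) fun j => by rw [← h3]; simp [Φ6.rt_simple]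
  have h5 := hσ (2 • Y) Y fun j => by
    have := congrArg toAdd (h (Φ6.simple j))
    rw [Φ6.chr_simple] at this
    simpa [RootSys.chr, toAdd_prod, Y] using this
  have h6 : ∀ a : Fin 27, (val6 (z 0) (z 1) (z 2) (z 3) (z 4) (z 5) a : ZMod 11) = V (fun j => z j) a := fun a => by
    simp [V, val6, Fin.sum_univ_six]
  have h7 := h2 71
  rw [RootSys.ip, show Φ6.rt 71 = ![1, 2, 2, 3, 2, 1] by decide +kernel] at h7
  simp [Fin.sum_univ_six] at h7
  have h8 := chk11 (z 3) (by omega) (z 1) (by omega) (z 2) (by omega) (z 4) (by omega) (by omega) (z 0) (by omega) (z 5)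
    (by omega)
  rw [tst11, Bool.or_eq_true, bne_iff_ne, beq_iff_eq] at h8
  replace h8 := h8.resolve_left (not_not.2 (by
      rw [sm_eq, sm_eq, ← Equiv.sum_comp (τ⁻¹ * σ * τ) fun r => 32 ^ (2 * val6 _ _ _ _ _ _ r % 11)]
      refine sum_congr rfl fun r _ => ?_
      rw [← Nat.mod_eq_of_lt (show val6 (z 0) (z 1) (z 2) (z 3) (z 4) (z 5) r < 11 from Nat.mod_lt _ (by decide)),
        (ZMod.natCast_eq_natCast_iff' _ _ 11).1 ?_]
      rw [Nat.cast_mul, h6, h6, h4, h4, h5]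
      simp [V, mul_sum, mul_left_comm]))
  have h9 : ∀ j, (z j : ZMod 11) = 0 := fun j => (ZMod.natCast_eq_zero_iff _ _).2 (by
    fin_cases j <;> simp <;> omega)
  funext j
  have := h3 (x⁻¹ (Φ6.simple j))
  simpa [h9, Φ6.rt_simple, Pi.single_apply, Y] using this.symm

theorem alt13_eleven : ∃ a b : alternatingGroup (Fin 13), orderOf a = 11 ∧ b * a * b⁻¹ = a ^ 2 :=
  have : Fact (Nat.Prime 11) := ⟨by norm_num⟩
  ⟨(ev [(0, 10), (0, 9), (0, 8), (0, 7), (0, 6), (0, 5), (0, 4), (0, 3), (0, 2), (0, 1)] (by decide +kernel)),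
    (ev [(1, 6), (1, 3), (1, 7), (1, 9), (1, 10), (1, 5), (1, 8), (1, 4), (1, 2), (11, 12)] (by decide +kernel)),
    orderOf_eq_prime (by decide +kernel) (by decide +kernel), by decide +kernel⟩

theorem not_sec13_E6 {F : Type*} [Field F] [Fintype F] (p : ℕ) [hp : Fact p.Prime] [CharP F p] (h11 : p ≠ 11) :
    ¬ Sec (alternatingGroup (Fin 13)) (chevE6.group F) := fun h => by
  have : Fact (Nat.Prime 11) := ⟨by norm_num⟩
  have hW : ∀ (K : Type) [Field K], Nat.card (twId (stSys rtOKE6 K)).W1 = 51840 := fun K _ => by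
    rw [twId_W1, card_W _ hasChainE6]; rfl
  obtain ⟨K, _, _, h1, h2⟩ := chev_ext rtOKE6 p (m := 11) (by decide) ((Nat.coprime_primes hp.out (by norm_num)).2 h11) h
  have hS := sharp_stSys rtOKE6 K
  have hM := isTw_id hS
  obtain ⟨ε, e1, e2⟩ := exists_eps K (l := 11) h1
  obtain ⟨a, b, ha, hb⟩ := alt13_eleven
  let τ : Multiplicative (ZMod 11) →* alternatingGroup (Fin 13) := MonoidHom.mk' (fun v => a ^ v.toAdd.val) fun u v => by
    rw [← pow_add, toAdd_mul, ZMod.val_add, pow_eq_pow_iff_modEq, ha]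
    exact Nat.mod_modEq _ _
  have t1 : Function.Injective τ := fun u v e => toAdd.injective (ZMod.val_injective _
    (pow_injOn_Iio_orderOf ((ZMod.val_lt _).trans_eq ha.symm) ((ZMod.val_lt _).trans_eq ha.symm) e))
  have t2 : Real τ (· ^ 2) := ⟨b, fun e => by
    rw [map_pow]
    change b * a ^ _ * b⁻¹ = (a ^ _) ^ 2
    rw [← conj_pow, hb, ← pow_mul, ← pow_mul, mul_comm]⟩
  have t3 : Nat.card (Multiplicative (ZMod 11)) = 11 := by simp
  have hw : ∀ w ∈ Φ6.W, orderOf w ≠ 11 := fun w hw e => by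
    have := orderOf_dvd_natCard (⟨w, hw⟩ : Φ6.W)
    rw [← orderOf_coe, e, show Nat.card Φ6.W = 51840 from card_W _ hasChainE6] at this
    exact absurd this (by decide)
  obtain ⟨A, y, y1, y2, rfl | ⟨-, w, w0, w1, -⟩⟩ | ⟨-, -, -, ⟨w, w0, w1, -⟩, -⟩ := exists_real (ι := Fin 72) (κ := Fin 6)
    (Φ := Φ6) hM (fun h => not_dvd_H hM (fun b => (twId_card hS b).symm ▸ h1) (by rw [hW]; norm_num)
      (h.trans (relIndex_dvd_of_le_left _ (inf_le_inf_right _ (stSys rtOKE6 K).H_le_N))))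
    (fun h => absurd (hW K ▸ h) (by norm_num)) ε e1 e2 h2 τ t1 (fun e => (congrArg (e ^ ·) t3.symm).trans pow_card_eq_one') (fun h => by
      have h3 := card_mul_index τ.range
      rw [← Nat.card_congr (MonoidHom.ofInjective t1).toEquiv, t3] at h3
      have h4 := card_subgroup_dvd_card (alternatingGroup (Fin 13))
      rw [← h3, Nat.card_perm, Nat.card_eq_fintype_card, Fintype.card_fin] at h4
      exact absurd ((mul_dvd_mul_left _ h).trans h4) (by decide)) fun A _ =>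
      have := Fact.mk (t3.symm ▸ (by norm_num : Nat.Prime 11)); A.eq_bot_or_eq_top_of_prime_card
  · obtain ⟨w, w0, w1⟩ := y2 _ t2
    have := rat11 w0 fun r => (w1 ⟨ofAdd 1, trivial⟩ (⟨ofAdd 1, trivial⟩ ^ 2) rfl r).trans (by rw [map_pow])
    exact one_ne_zero (α := ZMod 11) (congrArg Subtype.val (y1 (this.trans (map_one y).symm)))
  · exact hw w w0 w1
  · exact hw w w0 w1

end CfsgLib.AltSec
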