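import Mathlib
import Cfsg.Agent.Lib.AltSec.GLW
import Cfsg.Agent.Lib.AltCover.Mult

/-!
Translation groups in central extensions of alternating groups and their weights.
-/

set_option autoImplicit false

namespace CfsgLib.AltSec

open CfsgLib.LS CfsgLib.Schur CfsgLib.AltCover Module Finset Multiplicative Equiv Equiv.Perm

theorem exists_lift_hom {Γ Q E : Type*} [Group Γ] [Finite Γ] [Group Q] [CommGroup E] {σ : Γ →* Q}
    (hσ : IsCentralExt σ) {l : ℕ} (hZ : NoTors σ l) (τ : E →* Q) (h : ∀ e, τ e ^ l = 1) :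
    ∃ τ' : E →* Γ, (∀ e, σ (τ' e) = τ e) ∧ (∀ e, τ' e ^ l = 1) ∧
      ∀ g e e', σ g * τ e * (σ g)⁻¹ = τ e' → g * τ' e * g⁻¹ = τ' e' := by
  choose y h1 h2 using fun e => lift_exists hσ hZ (h e)
  have h3 : ∀ g e e', σ g * τ e * (σ g)⁻¹ = τ e' → g * y e * g⁻¹ = y e' := fun g e e' h3 =>
    lift_unique hσ hZ (by simp [h1, h3]) (by rw [conj_pow, h2]; simp) (h2 _)
  refine ⟨MonoidHom.mk' y fun a b => lift_unique hσ hZ (by simp [h1]) (h2 _) ?_, h1, h2, h3⟩
  rw [Commute.mul_pow (mul_inv_eq_iff_eq_mul.1 (h3 (y a) b b (by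
    rw [h1, ← map_inv, ← map_mul, ← map_mul, mul_inv_cancel_comm]))), h2, h2, one_mul]

variable {K : Type*} [Field K] [Fintype K] [DecidableEq K] {c : ℕ} {Ω : Type*} [Fintype Ω] [DecidableEq Ω]

theorem sign_addRight (h : 2 < Fintype.card K) (t : K) : sign (Equiv.addRight t) = 1 := by
  obtain ⟨u, h0, h1⟩ : ∃ u : K, u ≠ 0 ∧ u ≠ 1 := by
    by_contra hh
    push Not at hh
    have := card_le_card (s := (univ : Finset K)) (t := {0, 1}) fun u _ => by
      simpa [or_iff_not_imp_left] using hh u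
    exact absurd (this.trans card_le_two) (not_le.2 h)
  have : Equiv.addRight t * Equiv.addRight (t / (u - 1)) * (Units.mk0 u h0).mulLeft =
      (Units.mk0 u h0).mulLeft * Equiv.addRight (t / (u - 1)) := by
    ext x
    have := sub_ne_zero.2 h1
    simp
    field_simp
    ring
  have := congrArg sign this
  rwa [map_mul, map_mul, map_mul, mul_assoc, mul_comm (sign (Units.mulLeft _)), mul_eq_right] at this

variable (c K) in
/-- the translations -/
def trK : Multiplicative (Fin c → K) →* Perm (Fin c × K) where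
  toFun v := prodCongrRight fun i => Equiv.addRight (v.toAdd i)
  map_one' := by ext x <;> simp [prodCongrRight]
  map_mul' a b := by ext x <;> simp [prodCongrRight, add_assoc, add_comm (toAdd a x.1)]

/-- a monomial permutation -/
def monP (σ : Perm (Fin c)) (u : Fin c → Kˣ) : Perm (Fin c × K) :=
  prodCongrLeft (fun _ => σ) * prodCongrRight fun i => (u i).mulLeft

theorem sign_monP (σ : Perm (Fin c)) (u : Fin c → Kˣ) :
    sign (monP σ u) = sign σ ^ Fintype.card K * ∏ i, sign (u i).mulLeft := by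
  rw [monP, map_mul, sign_prodCongrLeft, sign_prodCongrRight, prod_const, card_univ]

omit [Fintype K] [DecidableEq K] in
theorem monP_conj (σ : Perm (Fin c)) (u : Fin c → Kˣ) (v : Multiplicative (Fin c → K)) :
    monP σ u * trK K c v * (monP σ u)⁻¹ = trK K c (monoK σ u v) := by
  rw [mul_inv_eq_iff_eq_mul]
  refine Equiv.ext fun x => ?_
  change (σ x.1, (u x.1 : K) * (x.2 + v.toAdd x.1)) =
    (σ x.1, (u x.1 : K) * x.2 + u (σ⁻¹ (σ x.1)) * v.toAdd (σ⁻¹ (σ x.1)))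
  simp [mul_add]

theorem sign_via {α : Type*} [Fintype α] [DecidableEq α] (f : α ↪ Ω) (g : Perm α) :
    sign (viaEmbeddingHom f g) = sign g := by
  classical exact @sign_extendDomain _ _ _ _ _ _ _ _ (Classical.decPred _) _

variable (f : Fin c × K ↪ Ω) (h2 : 2 < Fintype.card K)

/-- the translations in the alternating group -/
noncomputable def trE : Multiplicative (Fin c → K) →* alternatingGroup Ω :=
  ((viaEmbeddingHom f).comp (trK K c)).codRestrict _ fun v => by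
    rw [mem_alternatingGroup, MonoidHom.comp_apply, sign_via]
    exact (sign_prodCongrRight _).trans (prod_eq_one fun i _ => sign_addRight h2 _)

theorem real_even (σ : Perm (Fin c)) (u : Fin c → Kˣ) (h : sign (monP σ u) = 1) : Real (trE f h2) (monoK σ u) :=
  ⟨⟨viaEmbeddingHom f (monP σ u), (sign_via _ _).trans h⟩, fun v => Subtype.ext (by
    change _ * viaEmbeddingHom f _ * (viaEmbeddingHom f _)⁻¹ = viaEmbeddingHom f _
    rw [← map_inv, ← map_mul, ← map_mul, monP_conj])⟩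

theorem real_extra (h : c * Fintype.card K + 2 ≤ Fintype.card Ω) (σ : Perm (Fin c)) (u : Fin c → Kˣ) :
    Real (trE f h2) (monoK σ u) := by
  refine (Int.units_eq_one_or _).elim (real_even f h2 σ u) fun h1 => ?_
  obtain ⟨x, hx, y, hy, hxy⟩ := (one_lt_card (s := (univ.map f)ᶜ)).1 (by
    rw [card_compl, card_map, card_univ, Fintype.card_prod, Fintype.card_fin]; omega)
  refine ⟨⟨viaEmbeddingHom f (monP σ u) * swap x y, ?_⟩, fun v => Subtype.ext ?_⟩
  · rw [mem_alternatingGroup, map_mul, sign_via, h1, sign_swap hxy]; rfl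
  change viaEmbeddingHom f _ * _ * viaEmbeddingHom f _ * (viaEmbeddingHom f _ * _)⁻¹ = viaEmbeddingHom f _
  have := swap_apply_apply (viaEmbeddingHom f (trK K c v)) x y
  rw [viaEmbeddingHom_apply, viaEmbedding_apply_of_notMem _ _ _ (by simpa using hx),
    viaEmbedding_apply_of_notMem _ _ _ (by simpa using hy), ← viaEmbeddingHom_apply, eq_mul_inv_iff_mul_eq] at this
  rw [← monP_conj, map_mul, map_mul, map_inv, mul_inv_rev, mul_assoc _ (swap x y), this]
  group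

theorem sign_mulLeft_mul (u v : Kˣ) : sign (u * v).mulLeft = sign u.mulLeft * sign v.mulLeft := by
  rw [← map_mul]; congr 1; ext; simp [mul_assoc]

theorem real_fix (hpar : ((∀ u : Kˣ, sign u.mulLeft = 1) ∧ Even (Fintype.card K)) ∨
      ((∃ t : Kˣ, sign t.mulLeft = -1) ∧ Odd (Fintype.card K) ∧ 2 ≤ c) ∨ c * Fintype.card K + 2 ≤ Fintype.card Ω)
    (σ : Perm (Fin c)) (u : Fin c → Kˣ) (χ : Fin c → K) :
    ∃ σ' u', Real (trE f h2) (monoK σ' u') ∧ ∀ i, u' i * χ (σ' i) = u i * χ (σ i) := by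
  rcases hpar with ⟨h3, h4⟩ | ⟨⟨t, ht⟩, h3, h4⟩ | h3
  · exact ⟨σ, u, real_even f h2 σ u (by simp [sign_monP, h3, Int.units_pow_eq_pow_mod_two, Nat.even_iff.1 h4]),
      fun _ => rfl⟩
  swap
  · exact ⟨σ, u, real_extra f h2 h3 σ u, fun _ => rfl⟩
  refine (Int.units_eq_one_or _).elim (fun h => ⟨σ, u, real_even f h2 σ u h, fun _ => rfl⟩) fun h => ?_
  let s : Kˣ →* ℤˣ := MonoidHom.mk' (fun u => sign u.mulLeft) sign_mulLeft_mul
  have hs : ∀ σ (u : Fin c → Kˣ), sign (monP σ u) = sign σ * s (∏ i, u i) := fun σ u => by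
    rw [sign_monP, Int.units_pow_eq_pow_mod_two, Nat.odd_iff.1 h3, pow_one, map_prod]; rfl
  by_cases h5 : ∃ i, χ (σ i) = 0
  · obtain ⟨i, hi⟩ := h5
    refine ⟨σ, u * Pi.mulSingle i t, real_even f h2 _ _ ?_, fun j => ?_⟩
    · rw [hs] at h ⊢
      simp only [Pi.mul_apply, prod_mul_distrib, prod_pi_mulSingle', mem_univ, if_true, map_mul, ← mul_assoc, h]
      rw [show s t = -1 from ht]; rfl
    · by_cases e : j = i
      · simp [e, hi]
      · simp [e]
  push Not at h5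
  let d : Fin c → Kˣ := fun i => Units.mk0 _ (h5 i)
  let w : Perm (Fin c) := swap ⟨0, by omega⟩ ⟨1, by omega⟩
  refine ⟨σ * w, fun i => u i * d i / d (w i), real_even f h2 _ _ ?_, fun j => ?_⟩
  · rw [hs] at h ⊢
    rw [prod_div_distrib, prod_mul_distrib, Equiv.prod_comp w d, mul_div_cancel_right, map_mul,
      sign_swap (by simp), mul_right_comm, h]
    rfl
  · simp [d, div_mul_cancel₀ _ (h5 _)]

include h2 in
theorem trichA {k V Γ : Type*} [Field k] [IsAlgClosed k] [AddCommGroup V] [Module k V] [FiniteDimensional k V]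
    [Group Γ] [Finite Γ] {σ : Γ →* alternatingGroup Ω} (hσ : IsCentralExt σ) (ρ : Γ →* End k V)
    (hρ : ∀ g, ρ g = 1 → σ g = 1) {l : ℕ} (hZ : NoTors σ l) (hl : (l : k) ≠ 0) (hl' : (l : K) = 0)
    (f : Fin (c + 1) × K ↪ Ω) (hpar : ((∀ u : Kˣ, sign u.mulLeft = 1) ∧ Even (Fintype.card K)) ∨
      ((∃ t : Kˣ, sign t.mulLeft = -1) ∧ Odd (Fintype.card K) ∧ 2 ≤ c + 1) ∨
      (c + 1) * Fintype.card K + 2 ≤ Fintype.card Ω) :
    ∃ (β : K → Γ) (ψ : K → k), (∀ s t, β (s + t) = β s * β t) ∧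
      (∀ t s, (σ (β t) : Perm Ω) (f (0, s)) = f (0, s + t)) ∧
      (∀ t x, (∀ s, f (0, s) ≠ x) → (σ (β t) : Perm Ω) x = x) ∧
      (∀ g, (∀ s, (σ g : Perm Ω) (f (0, s)) = f (0, s)) → ∀ t, Commute g (β t)) ∧
      (∀ s t, ψ (s + t) = ψ s * ψ t) ∧ ψ 0 = 1 ∧ (∃ t, ψ t ≠ 1) ∧
      ((2 ≤ c ∧ (c + 1) * (Fintype.card K - 1) ^ 2 ≤ finrank k V) ∨ 2 * ((c + 1) * (Fintype.card K - 1)) ≤ finrank k V ∨
      (1 ≤ c ∧ ∀ a ≠ 0, (Fintype.card K - 1) ^ c ≤ finrank k (wsp (fun t : K => ρ (β t)) fun t => ψ (t * a))) ∨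
      ∀ a ≠ 0, finrank k (wsp (fun t : K => ρ (β t)) fun t => ψ (t * a)) = 1) := by
  obtain ⟨τ, t1, t2, t3⟩ := exists_lift_hom hσ hZ (trE f h2) fun e => by
    rw [← map_pow, show e ^ l = 1 by ext i; simp [hl'], map_one]
  have t4 : ∀ t s, (σ (τ (ofAdd (Pi.single 0 t))) : Perm Ω) (f (0, s)) = f (0, s + t) := fun t s => by
    rw [t1]
    exact (viaEmbedding_apply _ _ _).trans (by simp [trK, prodCongrRight])
  have t5 : ∀ t x, (∀ s, f (0, s) ≠ x) → (σ (τ (ofAdd (Pi.single 0 t))) : Perm Ω) x = x := fun t x hx => by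
    rw [t1]
    by_cases h : x ∈ Set.range f
    · obtain ⟨⟨i, s⟩, rfl⟩ := h
      have : i ≠ 0 := fun e => hx s (by rw [e])
      exact (viaEmbedding_apply _ _ _).trans (by simp [trK, prodCongrRight, this])
    · exact viaEmbedding_apply_of_notMem _ _ _ h
  obtain ⟨ψ, h⟩ := trich ρ τ hl t2 ⟨ofAdd (Pi.single 0 1), fun h => by simpa [hρ _ h] using t4 1 0⟩ fun σ' u χ => by
    obtain ⟨σ', u', ⟨b, hb⟩, e⟩ := real_fix f h2 hpar σ' u χ
    obtain ⟨b, rfl⟩ := hσ.surj b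
    exact ⟨σ', u', ⟨b, fun e => t3 _ _ _ (hb e)⟩, e⟩
  refine ⟨fun t => τ (ofAdd (Pi.single 0 t)), ψ, fun s t => by simp [Pi.single_add], t4, t5, fun g hg t =>
    mul_inv_eq_iff_eq_mul.1 (t3 _ _ _ ?_), h⟩
  rw [← t1, mul_inv_eq_iff_eq_mul]
  refine Subtype.ext (Perm.Disjoint.commute fun x => ?_)
  by_cases h : ∃ s, f (0, s) = x
  · obtain ⟨s, rfl⟩ := h
    exact Or.inl (hg s)
  · exact Or.inr (t5 t x (not_exists.1 h))

end CfsgLib.AltSec
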