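import Mathlib
import Cfsg.Agent.Lib.AltSec.GLD
import Cfsg.Agent.Lib.AltSec.GLP
import Cfsg.Agent.Lib.AltSec.E7
import Cfsg.Agent.Lib.Asch.TabF

/-!
The minimal degree of a projective representation of an alternating group.
-/

set_option autoImplicit false

namespace CfsgLib.AltSec

open CfsgLib.LS CfsgLib.Schur CfsgLib.AltCover CfsgLib.Asch Module Finset Equiv Equiv.Perm

theorem exists_emb {K : Type*} {q c r : ℕ} (κ : K ≃ Fin q) (h : (c + 1) * q ≤ r) :
    ∃ f : Fin (c + 1) × K ↪ Fin r, ∀ s, (f (0, s) : ℕ) = κ s :=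
  ⟨(((Equiv.refl _).prodCongr κ).trans finProdFinEquiv).toEmbedding.trans (Fin.castLEEmb h), fun s => by simp⟩

theorem one_add_mul_le (b c : ℕ) : 1 + c * b ≤ (b + 1) ^ c := by
  induction c with
  | zero => simp
  | succ c ih => rw [pow_succ]; nlinarith [Nat.zero_le (c * b * b)]

variable {k V : Type*} [Field k] [AddCommGroup V] [Module k V] [FiniteDimensional k V]

theorem sum_blocks {K : Type*} [Field K] [Fintype K] [DecidableEq K] (π : K → End k V) {ψ : K → k}
    (p1 : ∀ s t, ψ (s + t) = ψ s * ψ t) (p2 : ψ 0 = 1) (p3 : ∃ t, ψ t ≠ 1) {d : ℕ}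
    (h : ∀ a ≠ 0, d ≤ finrank k (wsp π fun t => ψ (t * a))) :
    (Fintype.card K - 1) * d + finrank k (wsp π fun _ => 1) ≤ finrank k V := by
  have := sum_finrank_wsp_le π (fun a t => ψ (t * a)) fun a b e =>
    eq_of_char_mul_eq p1 p2 p3.choose_spec (congrFun e)
  rw [← add_sum_erase _ _ (mem_univ 0), add_comm] at this
  refine le_trans (add_le_add ?_ (le_of_eq ?_)) this
  swap
  · rw [show (fun t => ψ (t * 0)) = fun _ => 1 from funext fun t => by rw [mul_zero, p2]]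
  simpa using card_nsmul_le_sum (univ.erase 0) _ d fun a ha => h a (ne_of_mem_erase ha)

variable [IsAlgClosed k] {r : ℕ}

theorem top_line {Γ : Type*} [Group Γ] [Finite Γ] {σ : Γ →* alternatingGroup (Fin r)} (hσ : IsCentralExt σ)
    (ρ : Γ →* End k V) (hρ : ∀ g, ρ g = 1 → σ g = 1) (l : ℕ) [hp : Fact l.Prime] (h2 : 2 < l) (t : (ZMod l)ˣ)
    (ht : sign t.mulLeft = -1) (hZ : NoTors σ l) (hl : (l : k) ≠ 0) (c : ℕ) (hc : (c + 1) * l ≤ r)
    (h3 : 1 ≤ c ∨ (c + 1) * l + 2 ≤ r) (h4 : finrank k V < 2 * ((c + 1) * (l - 1)))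
    (h5 : 1 ≤ c → finrank k V < (l - 1) * (l - 1) ^ c) :
    ∃ (π : ZMod l → End k V) (w : ZMod l → ZMod l → k), Function.Injective w ∧ ∀ a ≠ 0, finrank k (wsp π (w a)) = 1 ∧
      ∀ g, (∀ i : Fin r, r - l ≤ i → (σ g).1 i = i) → g ∈ stab ρ (wsp π (w a)) := by
  obtain ⟨f, hf⟩ := exists_emb (ZMod.finEquiv l).toEquiv.symm hc
  obtain ⟨β, ψ, -, -, -, b4, p1, p2, p3, h⟩ := trichA (by rwa [ZMod.card]) hσ ρ hρ hZ hl (ZMod.natCast_self l)
    (f.trans Fin.revPerm.toEmbedding) (Or.inr (h3.imp (fun h => ⟨⟨t, ht⟩, by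
      rw [ZMod.card]; exact hp.out.odd_of_ne_two h2.ne', by omega⟩) (by simp)))
  rw [ZMod.card] at h
  rcases h with h | h | h | h
  · refine absurd (h4.trans_le (le_trans ?_ h.2)) (lt_irrefl _)
    rw [mul_left_comm, sq]
    exact Nat.mul_le_mul_left _ (Nat.mul_le_mul_right _ (by omega))
  · omega
  · have := sum_blocks _ p1 p2 p3 h.2
    have := h5 h.1
    rw [ZMod.card] at *
    omega
  refine ⟨_, _, fun a b e => eq_of_char_mul_eq p1 p2 p3.choose_spec (congrFun e), fun a ha => ⟨h a ha, fun g hg v hv t => ?_⟩⟩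
  rw [← End.mul_apply, ← map_mul, ← b4 g (fun s => hg _ (by
    have := hf s
    have := ((ZMod.finEquiv l).toEquiv.symm s).2
    simp only [Function.Embedding.trans_apply, Equiv.coe_toEmbedding, Fin.revPerm_apply, Fin.val_rev]
    omega)) t, map_mul, End.mul_apply, hv, map_smul]

/-- a generator of the units modulo three -/
def t3 : (ZMod 3)ˣ := ⟨2, 2, by decide, by decide⟩

theorem exists_line {Γ : Type*} [Group Γ] [Finite Γ] {σ : Γ →* alternatingGroup (Fin r)} (hσ : IsCentralExt σ)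
    (ρ : Γ →* End k V) (hρ : ∀ g, ρ g = 1 → σ g = 1) (hZ : ∀ l, Odd l → NoTors σ l) (hr : 9 ≤ r) (p : ℕ) [Fact p.Prime]
    [CharP k p] (hn : finrank k V < r - 1 - if p ∣ r then 1 else 0) :
    ∃ U : Submodule k V, finrank k U = 1 ∧ ∀ g, (∀ i : Fin r, 4 ≤ (i : ℕ) → (σ g).1 i = i) → g ∈ stab ρ U := by
  have h0 : ∀ l : ℕ, l.Prime → p ≠ l → (l : k) ≠ 0 := fun l hl h e =>
    h ((Nat.prime_dvd_prime_iff_eq Fact.out hl).1 ((CharP.cast_eq_zero_iff k p l).1 e))
  by_cases h5 : p = 5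
  · by_cases h11 : 11 ≤ r
    · obtain ⟨π, w, -, h⟩ := top_line hσ ρ hρ 7 (by decide) t7 sign_t7 (hZ _ (by decide)) (h0 7 Fact.out (by omega))
        (r / 7 - 1) (by omega) (by omega) (by omega) fun h => by
          have : _ ≤ (7 - 1) ^ _ := one_add_mul_le 5 (r / 7 - 1)
          omega
      exact ⟨_, (h 1 (by decide)).1, fun g hg => (h 1 (by decide)).2 g fun i hi => hg i (by omega)⟩
    · obtain ⟨π, w, -, h⟩ := top_line hσ ρ hρ 3 (by decide) t3 (by decide +kernel) (hZ _ (by decide))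
        (h0 3 Fact.out (by omega)) 2 (by omega) (by omega) (by omega) fun h => by
          subst h5
          split_ifs at hn <;> omega
      exact ⟨_, (h 1 (by decide)).1, fun g hg => (h 1 (by decide)).2 g fun i hi => hg i (by omega)⟩
  · obtain ⟨π, w, -, h⟩ := top_line hσ ρ hρ 5 (by decide) t5 sign_t5 (hZ _ (by decide)) (h0 5 Fact.out h5)
      (r / 5 - 1) (by omega) (by omega) (by omega) fun h => by
        have : _ ≤ (5 - 1) ^ _ := one_add_mul_le 3 (r / 5 - 1)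
        omega
    exact ⟨_, (h 1 (by decide)).1, fun g hg => (h 1 (by decide)).2 g fun i hi => hg i (by omega)⟩

theorem eq_emb (hr : 9 ≤ r) {ι : alternatingGroup (Fin 9) →* alternatingGroup (Fin r)}
    (i1 : ∀ g a, (ι g).1 (Fin.castLEEmb hr a) = Fin.castLEEmb hr (g.1 a))
    (i2 : ∀ g b, b ∉ Set.range (Fin.castLEEmb hr) → (ι g).1 b = b) {K : Type*} {q : ℕ} (κ : K ≃ Fin q) (hq : q ≤ 9)
    {f : K → Fin r} (hf : ∀ s, (f s : ℕ) = κ s) {g : alternatingGroup (Fin r)} {d : K → K} (h1 : ∀ s, g.1 (f s) = f (d s))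
    (h2 : ∀ x, (∀ s, f s ≠ x) → g.1 x = x) (a : alternatingGroup (Fin 9))
    (h3 : (∀ s, (a.1 (Fin.castLE hq (κ s)) : ℕ) = κ (d s)) ∧ ∀ j : Fin 9, q ≤ j → a.1 j = j) : g = ι a := by
  refine Subtype.ext (Equiv.ext fun x => ?_)
  by_cases h : ∃ s, f s = x
  · obtain ⟨s, rfl⟩ := h
    rw [h1, show f s = Fin.castLEEmb hr (Fin.castLE hq (κ s)) from Fin.ext (hf s), i1]
    exact Fin.ext ((hf _).trans (h3.1 s).symm)
  rw [h2 x (not_exists.1 h)]
  by_cases hx : x ∈ Set.range (Fin.castLEEmb hr)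
  · obtain ⟨j, rfl⟩ := hx
    rw [i1, h3.2 j (not_lt.1 fun e => h ⟨κ.symm ⟨j, e⟩, Fin.ext (by simp [hf])⟩)]
  · rw [i2 _ _ hx]

theorem fix_ge (hr : 9 ≤ r) {ι : alternatingGroup (Fin 9) →* alternatingGroup (Fin r)}
    (i1 : ∀ g a, (ι g).1 (Fin.castLEEmb hr a) = Fin.castLEEmb hr (g.1 a))
    (i2 : ∀ g b, b ∉ Set.range (Fin.castLEEmb hr) → (ι g).1 b = b) {q : ℕ} {a : alternatingGroup (Fin 9)}
    (h : ∀ j : Fin 9, q ≤ j → a.1 j = j) (i : Fin r) (hi : q ≤ i) : (ι a).1 i = i := by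
  by_cases hx : i ∈ Set.range (Fin.castLEEmb hr)
  · obtain ⟨j, rfl⟩ := hx
    rw [i1, h j hi]
  · rw [i2 _ _ hx]

theorem lin_two (ρ : alternatingGroup (Fin r) →* End k V) (hρ : ∀ g, ρ g = 1 → g = 1) (hr : 9 ≤ r) [CharP k 2] :
    r - 1 - (if 2 ∣ r then 1 else 0) ≤ finrank k V := by
  by_contra! hn
  have hσ : IsCentralExt (MonoidHom.id (alternatingGroup (Fin r))) := ⟨Function.surjective_id, by simp⟩
  have h0 : ∀ l : ℕ, Odd l → (l : k) ≠ 0 := fun l hl e =>
    Nat.not_even_iff_odd.2 hl (even_iff_two_dvd.2 ((CharP.cast_eq_zero_iff k 2 l).1 e))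
  obtain ⟨ι, -, i1, i2⟩ := exists_alt_hom (Fin.castLEEmb hr)
  obtain ⟨f, hf⟩ := exists_emb (K := ZMod 3) (c := r / 3 - 1) (r := r) (Equiv.refl (Fin 3)) (by omega)
  obtain ⟨β, ψ, b1, b2, b3, -, p1, p2, p3, h⟩ := trichA (l := 3) (by decide) hσ ρ hρ (fun _ h _ => h) (h0 3 (by decide)) rfl
    f (Or.inr (Or.inl ⟨⟨t3, by decide +kernel⟩, by decide, by omega⟩))
  have hx : β 1 = _ := eq_emb hr i1 i2 (K := ZMod 3) (Equiv.refl (Fin 3)) (by decide) hf (b2 1) (b3 1)
    (ev [(0, 2), (0, 1)] (by decide +kernel)) (by decide +kernel)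
  have b0 : β 0 = 1 := left_eq_mul.1 (b1 0 0)
  have e1 : ∀ a, wsp (fun t => ρ (β t)) (fun t => ψ (t * a)) = (ρ (β 1)).eigenspace (ψ a) := fun a => by
    ext v
    rw [End.mem_eigenspace_iff]
    refine ⟨fun h => by simpa using h 1, fun h t => ?_⟩
    obtain rfl | rfl | rfl : t = 0 ∨ t = 1 ∨ t = 1 + 1 := by revert t; decide
    · simp [b0, p2]
    · simpa using h
    · simp only [b1, add_mul, p1, map_mul, End.mul_apply, h, map_smul, smul_smul, one_mul]
  rw [ZMod.card] at h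
  rcases h with h | h | h | h
  · omega
  · omega
  · have h1 := sum_blocks _ p1 p2 p3 h.2
    rw [ZMod.card] at h1
    by_cases h11 : r = 11
    · subst h11
      obtain ⟨π, w, w1, w2⟩ := top_line hσ ρ hρ 5 (by decide) t5 sign_t5 (fun _ h _ => h) (h0 5 (by decide)) 1
        (by decide) (by decide) (by omega) (by omega)
      have := card_le_finrank_of_wsp π (fun a : (ZMod 5)ˣ => w a) (w1.comp Units.val_injective)
        (wsp (fun t => ρ (β t)) fun _ => 1) fun a => by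
          obtain ⟨u1, u2⟩ := w2 a a.ne_zero
          obtain ⟨v, v0, -⟩ := finrank_eq_one_iff'.1 u1
          refine ⟨v, fun e => v0 (Subtype.ext e), v.2, ?_⟩
          have := comm_fix ρ u1 (u2 (ι _) (fix_ge hr i1 i2 (a := ev [(1, 2), (3, 4)] (by decide +kernel)) (by decide +kernel)))
            (u2 (ι _) (fix_ge hr i1 i2 (a := ev [(0, 2), (0, 1)] (by decide +kernel)) (by decide +kernel))) v v.2
          rw [← map_inv, ← map_inv, ← map_mul, ← map_mul, ← map_mul, show _ * _ * _⁻¹ * _⁻¹ =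
            ev [(0, 2), (0, 1)] (by decide +kernel) by decide +kernel, ← hx] at this
          simpa [p2, this] using (e1 0).ge (End.mem_eigenspace_iff.2 (this.trans (by simp [p2])))
      rw [show Fintype.card (ZMod 5)ˣ = 4 by rw [ZMod.card_units]] at this
      omega
    obtain ⟨c, hc⟩ : ∃ c, r / 3 - 1 = c + 2 := ⟨r / 3 - 3, by omega⟩
    have : _ ≤ (3 - 1) ^ _ := one_add_mul_le 1 c
    rw [hc, pow_add] at h1
    split_ifs at hn <;> omega
  have h3 : ψ 1 * ψ 1 * ψ 1 = 1 := by rw [← p1, ← p1]; exact p2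
  have h4 : ψ 1 ≠ 1 := fun e => by
    obtain ⟨t, ht⟩ := p3
    obtain rfl | rfl | rfl : t = 0 ∨ t = 1 ∨ t = 1 + 1 := by clear ht; revert t; decide
    all_goals simp [p1, p2, e] at ht
  have := lin3 ρ _ ι i1 i2 (ω := ψ 1) (mul_left_cancel₀ (sub_ne_zero.2 h4) (by linear_combination h3))
    (by rw [← hx, ← e1]; exact h 1 (by decide)) (by rw [← hx, sq, ← p1, ← e1]; exact h _ (by decide))
  rw [Fintype.card_fin] at this
  omega

/-- the translations of the field with four elements -/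
def tr4 : TF4 → alternatingGroup (Fin 9) := ![1, ev [(0, 1), (2, 3)] (by decide +kernel),
  ev [(0, 2), (1, 3)] (by decide +kernel), ev [(0, 3), (1, 2)] (by decide +kernel)]

theorem lin_odd (ρ : alternatingGroup (Fin r) →* End k V) (hρ : ∀ g, ρ g = 1 → g = 1) (hr : 9 ≤ r) (p : ℕ)
    [Fact p.Prime] [CharP k p] (h2 : (2 : k) ≠ 0) : r - 1 - (if p ∣ r then 1 else 0) ≤ finrank k V := by
  by_contra! hn
  have hσ : IsCentralExt (MonoidHom.id (alternatingGroup (Fin r))) := ⟨Function.surjective_id, by simp⟩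
  obtain ⟨ι, -, i1, i2⟩ := exists_alt_hom (Fin.castLEEmb hr)
  obtain ⟨f, hf⟩ := exists_emb (K := TF4) (c := r / 4 - 1) (r := r) (Equiv.refl (Fin 4)) (by omega)
  obtain ⟨β, ψ, b1, b2, b3, -, p1, p2, p3, h⟩ := trichA (l := 2) (by decide) hσ ρ hρ (fun _ h _ => h) (by simpa using h2)
    (by decide +kernel) f (Or.inl ⟨fun u => by
      have : sign u.mulLeft ^ 3 = 1 := by
        rw [← map_pow, ← mulLeft_pow, show u ^ 3 = 1 from Units.ext (by
          rw [Units.val_pow_eq_pow_val]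
          exact (show ∀ a : TF4, a ≠ 0 → a ^ 3 = 1 by decide +kernel) _ u.ne_zero)]
        exact (congrArg _ (by ext; simp)).trans (map_one _)
      rwa [Int.units_pow_eq_pow_mod_two, pow_one] at this, by decide⟩)
  have hx : ∀ t, β t = ι (tr4 t) := fun t => eq_emb hr i1 i2 (K := TF4) (Equiv.refl (Fin 4)) (by decide) hf (b2 t) (b3 t)
    _ (by revert t; decide +kernel)
  rw [show Fintype.card TF4 = 4 from rfl] at h
  rcases h with h | h | h | h
  · omega
  · omega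
  · have h1 := sum_blocks _ p1 p2 p3 h.2
    rw [show Fintype.card TF4 = 4 from rfl] at h1
    by_cases h11 : r = 11
    · obtain ⟨U, u1, u2⟩ := exists_line hσ ρ hρ (fun _ _ _ h _ => h) hr p hn
      have := Submodule.finrank_mono (s := U) (t := wsp (fun t => ρ (β t)) fun _ => 1) fun v hv t => by
        obtain ⟨s, hs⟩ : ∃ s, ev [(1, 3), (1, 2)] (by decide +kernel) * tr4 s *
          (ev [(1, 3), (1, 2)] (by decide +kernel))⁻¹ * (tr4 s)⁻¹ = tr4 t := by revert t; decide +kernel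
        have := comm_fix ρ u1 (u2 (ι _) (fix_ge hr i1 i2 (a := ev [(1, 3), (1, 2)] (by decide +kernel)) (by decide +kernel)))
          (u2 (ι _) (fix_ge hr i1 i2 (a := tr4 s) (by clear hs; revert s; decide +kernel))) v hv
        rw [← map_inv, ← map_inv, ← map_mul, ← map_mul, ← map_mul, hs, ← hx] at this
        simpa using this
      subst h11
      omega
    have : _ ≤ (4 - 1) ^ _ := one_add_mul_le 2 (r / 4 - 1)
    omega
  have h3 : ∀ c : k, c * c = 1 → finrank k ↥((ρ (ι (tr4 1))).eigenspace (-1) ⊓ (ρ (ι (tr4 (TabF.c 2)))).eigenspace c) = 1 :=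
    fun c hc => by
    let χ : TF4 → k := ![1, -1, c, -c]
    obtain ⟨a, ha⟩ := exists_char_eq_mul p1 p2 p3.choose_spec (χ := χ) (fun s t => by
      have : ∀ s t : TF4, (s + t).1 = (![![(0 : Fin 4), 1, 2, 3], ![1, 0, 3, 2], ![2, 3, 0, 1], ![3, 2, 1, 0]] s t).1 := by
        decide +kernel
      rw [Fin.ext (this s t)]
      fin_cases s <;> fin_cases t <;> simp [χ, hc]) rfl
    rw [← h a fun e => h2 (by
      have : (-1 : k) = 1 := (ha 1).trans (by rw [e, mul_zero, p2])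
      linear_combination -this), ← funext ha]
    refine congrArg (fun U : Submodule k V => finrank k U) (Submodule.ext fun v => ?_)
    simp only [Submodule.mem_inf, End.mem_eigenspace_iff, ← hx]
    refine ⟨fun h t => ?_, fun h => ⟨h 1, h _⟩⟩
    obtain rfl | rfl | rfl | rfl : t = 0 ∨ t = 1 ∨ t = TabF.c 2 ∨ t = 1 + TabF.c 2 := by revert t; decide +kernel
    · simp only [show β 0 = 1 from left_eq_mul.1 (b1 0 0)]; rw [map_one]; exact (one_smul _ _).symm
    · exact h.1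
    · exact h.2
    · simp only [b1, map_mul, End.mul_apply, h, map_smul, smul_smul, mul_neg_one]; rfl
  have := lin4 ρ _ ι i1 i2 p h2 (U := fun c => (ρ (ι (tr4 1))).eigenspace (-1) ⊓ (ρ (ι (tr4 (TabF.c 2)))).eigenspace c)
    (h3 1 (by simp)) (h3 _ (by simp)) fun c v => by
      simp only [Submodule.mem_inf, End.mem_eigenspace_iff, neg_one_smul]; rfl
  rw [Fintype.card_fin] at this
  omega

theorem stem_bound {Γ : Type*} [Group Γ] [Finite Γ] {σ : Γ →* alternatingGroup (Fin r)} (hσ : Cfsg.IsStemExtension σ)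
    (ρ : Γ →* End k V) (hρ : ∀ g, ρ g = 1 → g = 1) (hs : ∀ z, σ z = 1 → ∃ c : k, ρ z = c • 1) (hr : 9 ≤ r) (p : ℕ)
    [Fact p.Prime] [CharP k p] : r - 1 - (if p ∣ r then 1 else 0) ≤ finrank k V := by
  obtain ⟨m, rfl⟩ : ∃ m, r = m + 1 := ⟨r - 1, by omega⟩
  have hc := centralExt_of_stem hσ
  obtain ⟨b, -, b2, b3⟩ := ker_le_two (by omega) (by omega) (by omega) hσ
  have hZ : ∀ l, Odd l → NoTors σ l := fun l ⟨j, hl⟩ z hz e => by
    obtain ⟨i, rfl⟩ := b3 hz
    rwa [hl, pow_succ, pow_mul, ← zpow_natCast _ 2, ← zpow_mul, mul_comm, zpow_mul, zpow_natCast, b2, one_zpow, one_pow,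
      one_mul] at e
  obtain ⟨x, y, hx, hy⟩ := exists_isV_pair (by omega) hc (hZ 3 (by decide))
  by_cases hb : (x * y) ^ 2 = 1
  · obtain ⟨s, h⟩ := exists_section_three (by omega) hc (hZ 3 (by decide)) hx hy hb
    have h1 : ∀ g, ρ.comp s g = 1 → g = 1 := fun g e =>
      (DFunLike.congr_fun h g).symm.trans (by rw [MonoidHom.comp_apply, hρ _ e, map_one])
    by_cases h2 : p = 2
    · subst h2; exact lin_two _ h1 hr
    · exact lin_odd _ h1 hr p fun e => h2 ((Nat.prime_dvd_prime_iff_eq Fact.out Nat.prime_two).1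
        ((CharP.cast_eq_zero_iff k p 2).1 e))
  by_contra! hn
  obtain ⟨U, u1, u2⟩ := exists_line hc ρ (fun g h => by rw [hρ g h, map_one]) hZ hr p hn
  have h1 : ∀ a x, a ≤ 3 → IsV σ (P m a) x → ∃ c : k, c ^ 3 = 1 ∧ ∀ v ∈ U, ρ x v = c • v := fun a x ha hx => by
    obtain ⟨c, hc⟩ := exists_smul_of_line u1 (u2 x fun i hi => by
      have : ∀ j ≤ 3, i ≠ P m j := fun j hj e => by
        have := P_val (m := m) (i := j) (by omega)
        rw [← e] at this
        omega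
      rw [hx.1, AltCover.V, Perm.mul_apply, swap_apply_of_ne_of_ne (this _ (by omega)) (this _ ha),
        swap_apply_of_ne_of_ne (this _ (by omega)) (this _ (by omega))])
    obtain ⟨v, v0, -⟩ := finrank_eq_one_iff'.1 u1
    refine ⟨c, smul_left_injective k (fun e => v0 (Subtype.ext e)) ?_, hc⟩
    have : ρ (x * (x * x)) v = v := by rw [← pow_three, hx.2]; simp
    simpa [hc _ v.2, smul_smul, pow_three, mul_assoc] using this
  obtain ⟨c, c1, c2⟩ := h1 2 x (by omega) hx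
  obtain ⟨d, d1, d2⟩ := h1 3 y (by omega) hy
  obtain ⟨e, he⟩ := hs _ (hx.ker (by omega) hy)
  obtain ⟨v, v0, -⟩ := finrank_eq_one_iff'.1 u1
  have v0 : (v : V) ≠ 0 := fun e => v0 (Subtype.ext e)
  have h2 : e = (c * d) ^ 2 := smul_left_injective k v0 (by
    simpa [sq, c2 _ v.2, d2 _ v.2, smul_smul, mul_assoc, mul_comm, mul_left_comm] using (LinearMap.congr_fun he v).symm)
  have h3 : e ^ 2 = 1 := smul_left_injective k v0 (by
    have := congrArg (fun g => ρ g v) (hx.sq_sq hc (hZ 3 (by decide)) (by omega) hy)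
    rw [map_pow, he] at this
    simpa only [smul_pow, one_pow, map_one, LinearMap.smul_apply, End.one_apply, one_smul] using this)
  refine hb (hρ _ ?_)
  rw [he, show e = 1 by linear_combination (-e) * h3 + (e ^ 2 + e * (c * d) ^ 2 + (c * d) ^ 4) * h2 +
    d ^ 6 * (c ^ 3 + 1) * c1 + (d ^ 3 + 1) * d1, one_smul]

end CfsgLib.AltSec
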