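import Mathlib
import Cfsg.Agent.Lib.AltSec.GLC
import Cfsg.Agent.Lib.HH.Weights

/-!
Alternating sections of linear groups.
-/

set_option autoImplicit false

namespace CfsgLib.AltSec

open CfsgLib.LS Module Subgroup
open scoped commutatorElement

/-- the bound for dimension `n` -/
def Bd (n : ℕ) : Prop := ∀ (p : ℕ) [Fact p.Prime] (k : Type) [Field k] [IsAlgClosed k] [CharP k p] (V : Type)
  [AddCommGroup V] [Module k V] [FiniteDimensional k V], finrank k V = n → ∀ r, 9 ≤ r → ∀ (G : Type) [Group G] [Finite G]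
  (ρ : G →* End k V) (π : G →* alternatingGroup (Fin r)), Function.Surjective π → (∀ g, ρ g = 1 → π g = 1) →
  r - 1 - (if p ∣ r then 1 else 0) ≤ n

theorem exists_ext {F K : Type*} [Field F] [Field K] (f : F →+* K) (n : ℕ) :
    ∃ φ : Matrix (Fin n) (Fin n) F →* End K (Fin n → K), Function.Injective φ :=
  ⟨(Matrix.toLinAlgEquiv' (R := K) (n := Fin n)).toMonoidHom.comp f.mapMatrix.toMonoidHom,
    Matrix.toLinAlgEquiv'.injective.comp (Matrix.map_injective f.injective)⟩

theorem exists_lin0 {Γ V : Type} [Group Γ] [AddCommGroup V] (l : ℕ) [Fact l.Prime] [Module (ZMod l) V]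
    (f : Γ → V →+ V) (h1 : ∀ g, (∀ v, f g v = v) ↔ g = 1) (h2 : ∀ a b v, f (a * b) v = f a (f b v)) :
    ∃ φ : Γ →* End (ZMod l) V, ∀ g, φ g = 1 ↔ g = 1 :=
  ⟨⟨⟨fun g => (f g).toZModLinearMap l, LinearMap.ext ((h1 1).2 rfl)⟩, fun a b => LinearMap.ext (h2 a b)⟩,
    fun g => LinearMap.ext_iff.trans (h1 g)⟩

theorem exists_lin {M : Type} [i : Group M] [Finite M] (l : ℕ) [Fact l.Prime] (h1 : ∀ a b : M, a * b = b * a)
    (h2 : ∀ a : M, a ^ l = 1) : ∃ (V : Type) (_ : AddCommGroup V) (_ : Module (ZMod l) V)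
    (_ : Finite V) (φ : MulAut M →* End (ZMod l) V), Nat.card V = Nat.card M ∧ ∀ g, φ g = 1 ↔ g = 1 := by
  let j : CommGroup M := { i with mul_comm := h1 }
  obtain ⟨m⟩ : Nonempty (Module (ZMod l) (Additive M)) := ⟨AddCommGroup.zmodModule h2⟩
  obtain ⟨φ, hφ⟩ := exists_lin0 (V := Additive M) l (fun g : MulAut M => MonoidHom.toAdditive g.toMonoidHom)
    (fun g => ⟨fun h => MulEquiv.ext h, fun h _ => h ▸ rfl⟩) fun _ _ _ => rfl
  exact ⟨_, _, m, inferInstance, φ, rfl, hφ⟩

variable {n r : ℕ} (hr : 9 ≤ r) {G : Type} [Group G] [Finite G] {π : G →* alternatingGroup (Fin r)}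
  (hπ : Function.Surjective π) (p : ℕ) [hp : Fact p.Prime] {k : Type} [Field k] [CharP k p] {V : Type}
  [AddCommGroup V] [Module k V] [FiniteDimensional k V] (ρ : G →* End k V)
include hr hπ

theorem Bd.field (h : Bd (finrank k V)) (hρ : ∀ g, ρ g = 1 → π g = 1) :
    r - 1 - (if p ∣ r then 1 else 0) ≤ finrank k V := by
  obtain ⟨φ, hφ⟩ := exists_ext (algebraMap k (AlgebraicClosure k)) (finrank k V)
  let e := LinearMap.toMatrixAlgEquiv (finBasis k V)
  exact h p _ _ (by simp) r hr G (φ.comp (e.toMonoidHom.comp ρ)) π hπ fun g h =>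
    hρ g (e.injective ((hφ (h.trans (map_one φ).symm)).trans (map_one e).symm))

variable (hM : ∀ H : Subgroup G, H.map π = ⊤ → H = ⊤)
include hM

omit [Finite G] in
theorem ker_le_of_ne (N : Subgroup G) [hN : N.Normal] (h : N ≠ ⊤) : ∀ g ∈ N, π g = 1 := fun g hg =>
  have := alternatingGroup.isSimpleGroup (α := Fin r) (by simp; omega)
  mem_bot.1 (((hN.map π hπ).eq_bot_or_eq_top.resolve_right fun e => h (hM _ e)).le (mem_map_of_mem π hg))

omit [Finite G] in
theorem perf : ⁅(⊤ : Subgroup G), (⊤ : Subgroup G)⁆ = ⊤ := hM _ (by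
  rw [map_commutator, map_top_of_surjective π hπ]
  exact commutator_alternatingGroup_eq_top (by simp; omega))

variable [IsAlgClosed k] (IH : ∀ m < n, Bd m)
include IH

theorem red (hV : finrank k V ≤ n) (hρ : ∀ g, ρ g = 1 → π g = 1) (W : Submodule k V) (h0 : W ≠ ⊥) (h1 : W ≠ ⊤)
    (hW : ∀ g, W ≤ W.comap (ρ g)) : r - 1 - (if p ∣ r then 1 else 0) < finrank k V := by
  have h2 := Submodule.finrank_lt h1
  have h3 := W.finrank_quotient_add_finrank
  have h4 := Submodule.finrank_eq_zero.not.2 h0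
  by_cases e1 : (Representation.subrepresentation ρ W hW).ker = ⊤
  swap
  · exact (IH _ (by omega) p k W rfl r hr G _ π hπ (ker_le_of_ne hr hπ hM _ e1)).trans_lt h2
  by_cases e2 : (Representation.quotient ρ W hW).ker = ⊤
  swap
  · exact (IH _ (by omega) p k (V ⧸ W) rfl r hr G _ π hπ (ker_le_of_ne hr hπ hM _ e2)).trans_lt (by omega)
  have h5 : ∀ g m v, ρ (g ^ m) v = v + m • (ρ g v - v) := fun g m v => by
    have e3 : ρ g v - v ∈ W := (Submodule.Quotient.eq W).1 (LinearMap.congr_fun (e2.ge (mem_top g)) (W.mkQ v))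
    have e4 : ρ g (ρ g v - v) = ρ g v - v := congrArg Subtype.val (LinearMap.congr_fun (e1.ge (mem_top g)) ⟨_, e3⟩)
    induction m with
    | zero => simp
    | succ m ih => rw [pow_succ', map_mul, End.mul_apply, ih, map_add, map_nsmul, e4, succ_nsmul]; abel
  obtain ⟨ι, i1, -⟩ := exists_alt_hom (Fin.castLEEmb hr)
  have h6 : ∀ a : alternatingGroup (Fin 9), orderOf a ∣ p := fun a => orderOf_dvd_of_pow_eq_one (i1 (by
    obtain ⟨g, hg⟩ := hπ (ι a)
    rw [map_pow, ← hg, ← map_pow, map_one]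
    exact hρ _ (LinearMap.ext fun v => by rw [h5, ← Nat.cast_smul_eq_nsmul k]; simp)))
  have h7 := h6 (ev [(0, 1), (2, 3)] (by decide +kernel))
  have h8 := h6 (ev [(0, 1), (0, 2)] (by decide +kernel))
  rw [orderOf_eq_prime (p := 2) (by decide +kernel) (by decide +kernel), Nat.prime_dvd_prime_iff_eq Nat.prime_two hp.out] at h7
  rw [orderOf_eq_prime (p := 3) (by decide +kernel) (by decide +kernel), ← h7] at h8
  omega

variable (hV : finrank k V = n) (hρ : Function.Injective ρ) [Nontrivial V]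
  (hirr : ∀ W : Submodule k V, (∀ g, W ≤ W.comap (ρ g)) → W = ⊥ ∨ W = ⊤)
include hV hρ hirr

theorem abel_case (E : Subgroup G) [E.Normal] (h1 : E ≤ centralizer E) (h2 : ¬ E ≤ center G) :
    r - 1 - (if p ∣ r then 1 else 0) ≤ n := by
  classical
  let u : E → End k V := fun a => ρ a
  have : Finite (wts u 1) := wts_finite u le_rfl
  let t : G → wts u 1 → wts u 1 := fun g l =>
    ⟨l.1 ∘ MulAut.conjNormal g, mem_wts_conj ρ (fun a : E => (a : G)) l.2 g _ fun _ => rfl⟩
  let ρ' : G →* End k (wts u 1 → k) := ⟨⟨fun g => LinearMap.funLeft k k (t g), by ext; simp [t]⟩, fun a b => by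
    ext f l; simp [t, Function.comp_def]⟩
  obtain ⟨v, -, v0, hv⟩ := HH.exists_common_eigenvector (Set.range u) (by
    rintro _ ⟨a, rfl⟩ _ ⟨b, rfl⟩
    rw [← map_mul, ← map_mul, h1 b.2 a a.2]) ⊤ top_ne_bot fun _ _ _ _ => trivial
  choose l₀ hl₀ using fun a => hv _ ⟨a, rfl⟩
  have h3 : ⨆ l : wts u 1, wsp u l = ⊤ := (hirr _ fun g => iSup_le fun l v hv =>
    Submodule.mem_iSup_of_mem (t g⁻¹ l) fun a => by
      rw [← End.mul_apply, ← map_mul, show (a : G) * g = g * (MulAut.conjNormal g⁻¹ a : E) by simp [mul_assoc],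
        map_mul, End.mul_apply, show ρ _ v = _ from hv _, map_smul]; rfl).resolve_left fun e =>
    v0 (e.le (Submodule.mem_iSup_of_mem ⟨l₀, mem_wts_one.2 ⟨v, v0, hl₀⟩⟩ hl₀))
  have h4 : ρ'.ker ≠ ⊤ := fun e => h2 fun a ha => mem_center_iff.2 fun g => mul_inv_eq_iff_eq_mul.1 (hρ (by
    refine LinearMap.ext fun v => ?_
    induction (h3.ge trivial : v ∈ _) using Submodule.iSup_induction' with
    | mem l v hv =>
      have e1 : t g l = l := by
        simpa [ρ', Pi.single_apply] using congrFun (LinearMap.congr_fun (e.ge (mem_top g)) (Pi.single l 1)) l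
      exact (hv (MulAut.conjNormal g ⟨a, ha⟩)).trans ((congrArg (fun l : wts u 1 => l.1 ⟨a, ha⟩ • v) e1).trans
        (hv ⟨a, ha⟩).symm)
    | zero => simp
    | add x y _ _ hx hy => simp_all))
  have := Fintype.ofFinite (wts u 1)
  have h5 : finrank k (wts u 1 → k) ≤ n := by
    simpa [hV] using card_mul_le u 1 (fun l : wts u 1 => l.1) Subtype.val_injective fun l => l.2
  refine (red hr hπ p ρ' hM IH h5 (ker_le_of_ne hr hπ hM _ h4) (k ∙ (1 : wts u 1 → k)) (by
    simpa using fun e => one_ne_zero (congrFun e ⟨l₀, mem_wts_one.2 ⟨v, v0, hl₀⟩⟩)) (fun e => h4 ?_) fun g =>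
    (Submodule.span_singleton_le_iff_mem _ _).2 (Submodule.mem_span_singleton_self _)).le.trans h5
  refine eq_top_iff.2 fun g _ => LinearMap.ext fun f => ?_
  obtain ⟨c, rfl⟩ := Submodule.mem_span_singleton.1 (e.ge (trivial : f ∈ ⊤))
  rfl

omit hr hπ hM IH hV hρ [Finite G] in
theorem scal {z : G} (hz : z ∈ center G) : ∃ c : k, ρ z = c • 1 := by
  obtain ⟨c, hc⟩ := End.exists_eigenvalue (ρ z)
  refine ⟨c, LinearMap.ext fun v => End.mem_eigenspace_iff.1 (((hirr _ fun g v hv => ?_).resolve_left hc).ge trivial)⟩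
  rw [Submodule.mem_comap, End.mem_eigenspace_iff] at *
  rw [← End.mul_apply, ← map_mul, ← mem_center_iff.1 hz, map_mul, End.mul_apply, hv, map_smul]

omit hp [CharP k p] in
theorem nonabel_case (E : Subgroup G) [hE : E.Normal] {l : ℕ} [hl : Fact l.Prime] (h0 : IsPGroup l E)
    (h1 : ¬ E ≤ centralizer E) (h2 : ∀ D : Subgroup G, D.Normal → D < E → D ≤ center G) :
    r - 1 - (if p ∣ r then 1 else 0) ≤ n := by
  have h3 : ¬ E ≤ center G := fun h => h1 (h.trans (center_le_centralizer _))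
  have : Nontrivial E := (nontrivial_iff_ne_bot E).2 fun e => h3 (e ▸ bot_le)
  have := h0.isNilpotent
  have h4 : ⁅E, E⁆ ≤ center G := h2 _ inferInstance (by
    rw [← map_subtype_commutator]
    exact ((map_lt_map_iff_of_injective E.subtype_injective).2
      (Group.IsSolvable.commutator_lt_top_of_nontrivial E)).trans_le (map_subtype_le _))
  have h5 : E ⊓ centralizer E ≤ center G := h2 _ inferInstance (inf_lt_left.2 h1)
  let q := QuotientGroup.mk' (center G)
  have q1 : ∀ a, q a = 1 ↔ a ∈ center G := fun a => QuotientGroup.eq_one_iff a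
  have q2 : ∀ a ∈ E, ∀ b ∈ E, Commute (q a) (q b) := fun a ha b hb => by
    rw [← commutatorElement_eq_one_iff_commute, ← map_commutatorElement, q1]
    exact h4 (commutator_mem_commutator ha hb)
  let D : Subgroup G :=
    { carrier := {a | a ∈ E ∧ q a ^ l = 1}
      one_mem' := ⟨one_mem _, by simp⟩
      mul_mem' := fun ha hb => ⟨mul_mem ha.1 hb.1, by rw [map_mul, (q2 _ ha.1 _ hb.1).mul_pow, ha.2, hb.2, one_mul]⟩
      inv_mem' := fun ha => ⟨inv_mem ha.1, by rw [map_inv, inv_pow, ha.2, inv_one]⟩ }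
  have h6 : ∀ a ∈ E, q a ^ l = 1 := by
    by_contra h
    have := h2 D ⟨fun a ha g => ⟨hE.conj_mem a ha.1 g, by rw [map_mul, map_mul, map_inv, conj_pow, ha.2]; simp⟩⟩
      (lt_of_le_of_ne (fun a ha => ha.1) fun e => h fun a ha => (e.ge ha).2)
    refine h3 fun a ha => ?_
    obtain ⟨m, hm⟩ := h0 ⟨a, ha⟩
    replace hm : a ^ l ^ m ∈ center G := (show a ^ l ^ m = 1 from congrArg Subtype.val hm) ▸ one_mem _
    induction m with
    | zero => simpa using hm
    | succ m ih => exact ih (this ⟨pow_mem ha _, by rwa [← map_pow, ← pow_mul, ← pow_succ, q1]⟩)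
  let M := E.map q
  have : M.Normal := hE.map q (QuotientGroup.mk'_surjective _)
  obtain ⟨W, _, _, _, φ, f1, f2⟩ := exists_lin (M := M) l
    (by rintro ⟨_, a, ha, rfl⟩ ⟨_, b, hb, rfl⟩; exact Subtype.ext (q2 a ha b hb))
    (by rintro ⟨_, a, ha, rfl⟩; exact Subtype.ext (h6 a ha))
  let ρ' := φ.comp (MulAut.conjNormal.comp q)
  have h7 : ρ'.ker ≠ ⊤ := fun e => by
    have e1 : ⁅⁅⊤, E⁆, (⊤ : Subgroup G)⁆ = ⊥ := commutator_eq_bot_iff_le_centralizer.2
      ((commutator_le.2 fun g _ a ha => (q1 _).1 (by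
        rw [map_commutatorElement, commutatorElement_def, mul_inv_eq_one]
        exact congrArg (fun f : MulAut M => (f ⟨_, a, ha, rfl⟩ : G ⧸ center G))
          ((f2 _).1 (e.ge (mem_top g))))).trans (center_le_centralizer _))
    have := commutator_commutator_eq_bot_of_rotate e1 (by rwa [commutator_comm E])
    rw [perf hr hπ hM, commutator_comm, commutator_eq_bot_iff_le_centralizer, coe_top, centralizer_univ] at this
    exact h3 this
  have h8 := ker_le_of_ne hr hπ hM _ h7
  have h9 : Nat.card M ≤ n ^ 2 := by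
    choose x x1 x2 using fun s : M => s.2
    choose β hβ using fun s t : M => scal ρ hirr (h4 (commutator_mem_commutator (x1 t) (x1 s)))
    refine hV ▸ card_le_finrank_sq (fun s => ρ (x s)) (fun s => ρ (x s)⁻¹) (fun s => by simp [← map_mul]) β
      (fun s s' e => Subtype.ext ?_) fun s t => by
        rw [← one_mul (ρ (x s) * _), ← smul_mul_assoc, ← hβ, ← map_mul, ← map_mul, ← map_mul]
        simp [commutatorElement_def, mul_assoc]
    rw [← x2, ← x2, eq_comm, ← inv_mul_eq_one, ← map_inv, ← map_mul, q1]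
    refine h5 ⟨E.mul_mem (E.inv_mem (x1 _)) (x1 _), fun a ha => ?_⟩
    have e1 : ⁅x ⟨_, a, ha, rfl⟩, x s⁆ = ⁅x ⟨_, a, ha, rfl⟩, x s'⁆ := hρ (by rw [hβ, hβ, e])
    obtain ⟨z, hz, e2⟩ := (QuotientGroup.mk'_eq_mk' _).1 (x2 ⟨_, a, ha, rfl⟩)
    rw [← e2, mul_assoc, ← mem_center_iff.1 hz, ← mul_assoc, ← mul_assoc _ _ z]
    congr 1
    generalize x ⟨_, a, ha, rfl⟩ = b at e1
    simp only [commutatorElement_def] at e1
    calc b * ((x s')⁻¹ * x s) = (x s')⁻¹ * (b * x s' * b⁻¹ * (x s')⁻¹)⁻¹ * b * x s := by group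
      _ = _ := by rw [← e1]; group
  have h10 : Nat.card M = l ^ finrank (ZMod l) W := by
    rw [← f1, natCard_eq_pow_finrank (K := ZMod l), Nat.card_zmod]
  by_contra! hn
  by_cases h11 : finrank (ZMod l) W < n
  · have := (IH _ h11).field hr hπ l ρ' h8
    split_ifs at this hn <;> omega
  choose s hs using hπ
  have : Finite (End (ZMod l) W) := DFunLike.finite _
  have : Nontrivial (Fin r) := Fin.nontrivial_iff_two_le.2 (by omega)
  have h12 := Nat.card_le_card_of_injective (fun a => ρ' (s a)) fun a b e => by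
    have := h8 ((s b)⁻¹ * s a) (by
      rw [MonoidHom.mem_ker, map_mul, show ρ' (s a) = ρ' (s b) from e, ← map_mul, inv_mul_cancel, map_one])
    rwa [map_mul, map_inv, hs, hs, inv_mul_eq_one, eq_comm] at this
  rw [natCard_eq_pow_finrank (K := ZMod l) (V := End _ _), finrank_linearMap, Nat.card_zmod, pow_mul, ← h10,
    nat_card_alternatingGroup] at h12
  generalize finrank (ZMod l) W = d at *
  have h13 : 2 ^ d ≤ d ^ 2 := (Nat.pow_le_pow_left hl.out.two_le d).trans
    (h10 ▸ h9.trans (Nat.pow_le_pow_left (not_lt.1 h11) 2))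
  have h14 : d ≤ 4 := by
    by_contra! h
    have : ∀ m, (m + 5) ^ 2 < 2 ^ (m + 5) := fun m => by
      induction m with
      | zero => decide
      | succ m ih => rw [show m + 1 + 5 = m + 5 + 1 from rfl, pow_succ 2]; nlinarith [Nat.zero_le (m * m)]
    have := this (d - 5)
    rw [Nat.sub_add_cancel h] at this
    omega
  have h15 : Nat.card M ^ d ≤ (4 ^ 2) ^ 4 := (Nat.pow_le_pow_left (h9.trans (Nat.pow_le_pow_left (by omega) 2)) d).trans
    (Nat.pow_le_pow_right (by decide) h14)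
  have h16 := Nat.factorial_le hr
  rw [Nat.card_eq_fintype_card, Fintype.card_fin] at h12
  rw [show Nat.factorial 9 = 362880 from rfl] at h16
  omega

theorem irr_case : r - 1 - (if p ∣ r then 1 else 0) ≤ n := by
  by_cases h : π.ker ≤ center G
  · exact hV ▸ stem_bound ⟨hπ, h, le_top.trans (perf hr hπ hM).ge⟩ ρ (fun g e => hρ (e.trans (map_one ρ).symm))
      (fun z hz => scal ρ hirr (h hz)) hr p
  obtain ⟨l, hl, h1⟩ := Nat.exists_prime_and_dvd (n := ((center G).subgroupOf π.ker).index) fun e =>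
    h (subgroupOf_eq_top.1 (index_eq_one.1 e))
  have := Fact.mk hl
  obtain ⟨P⟩ : Nonempty (Sylow l π.ker) := inferInstance
  obtain ⟨E, ⟨e1, e2, e3⟩, e4⟩ := (wellFounded_lt (α := Subgroup G)).has_min
    {E | E.Normal ∧ IsPGroup l E ∧ ¬ E ≤ center G} ⟨P.1.map π.ker.subtype, normalizer_eq_top_iff.1 (hM _ (by
      have := congrArg (map π) P.normalizer_sup_eq_top
      rwa [Subgroup.map_sup, map_top_of_surjective π hπ, (Subgroup.map_eq_bot_iff _).2 le_rfl, sup_bot_eq] at this)),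
      P.2.map _, fun e => P.not_dvd_index (h1.trans (index_dvd_of_le (map_le_iff_le_comap.1 e)))⟩
  by_cases h2 : E ≤ centralizer E
  · exact abel_case hr hπ p ρ hM IH hV hρ hirr E h2 e3
  · exact nonabel_case hr hπ p ρ hM IH hV hρ hirr E e2 h2 fun D d1 d2 => by_contra fun d3 =>
      e4 D ⟨d1, e2.to_le d2.le, d3⟩ d2

omit hr hπ hM IH hV hρ hirr in
theorem bd (n : ℕ) : Bd n := by
  induction n using Nat.strong_induction_on with | _ n IH => ?_
  intro p _ k _ _ _ V _ _ _ hV r hr G _ _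
  induction h : Nat.card G using Nat.strong_induction_on generalizing G with | _ m ih => ?_
  intro ρ π hπ hρ
  by_cases h1 : ρ.ker = ⊥
  swap
  · refine ih _ ?_ (G ⧸ ρ.ker) rfl (QuotientGroup.lift _ ρ le_rfl) (QuotientGroup.lift _ π hρ)
      (QuotientGroup.lift_surjective_of_surjective _ _ hπ _) fun g => by
        induction g using QuotientGroup.induction_on with | _ g => exact hρ g
    rw [← h, card_eq_card_quotient_mul_card_subgroup ρ.ker]
    exact lt_mul_of_one_lt_right Nat.card_pos (one_lt_card_iff_ne_bot _ |>.2 h1)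
  by_cases hM : ∀ H : Subgroup G, H.map π = ⊤ → H = ⊤
  swap
  · push Not at hM
    obtain ⟨H, h2, h3⟩ := hM
    refine ih _ (h ▸ not_le.1 fun e => h3 (eq_top_of_le_card H e)) H rfl (ρ.comp H.subtype) (π.comp H.subtype)
      (fun a => ?_) fun g => hρ g
    obtain ⟨g, hg, e⟩ := h2.ge (mem_top a)
    exact ⟨⟨g, hg⟩, e⟩
  by_cases hirr : ∀ W : Submodule k V, (∀ g, W ≤ W.comap (ρ g)) → W = ⊥ ∨ W = ⊤
  swap
  · push Not at hirr
    obtain ⟨W, h2, h3, h4⟩ := hirr
    exact hV ▸ (red hr hπ p ρ hM IH hV.le hρ W h3 h4 h2).le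
  have h2 : Function.Injective ρ := fun a b e => inv_mul_eq_one.1 (mem_bot.1 (h1.le (by
    rw [MonoidHom.mem_ker, map_mul, ← e, ← map_mul, inv_mul_cancel, map_one])))
  rcases subsingleton_or_nontrivial V with h3 | h3
  · have := alternatingGroup.isSimpleGroup (α := Fin r) (by simp; omega)
    obtain ⟨a, ha⟩ := exists_ne (1 : alternatingGroup (Fin r))
    obtain ⟨g, rfl⟩ := hπ a
    exact absurd (hρ g (Subsingleton.elim _ _)) ha
  exact irr_case hr hπ p ρ hM IH hV h2 hirr

omit hπ hM IH hV hρ hirr in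
theorem bound_GL {F : Type*} [Field F] [Finite F] [CharP F p] (h : Sec (alternatingGroup (Fin r)) (GL (Fin n) F)) :
    r - 1 - (if p ∣ r then 1 else 0) ≤ n := by
  let _ := ZMod.algebra F p
  obtain ⟨φ, hφ⟩ := exists_ext (IsAlgClosed.lift (M := AlgebraicClosure (ZMod p)) (R := ZMod p) (S := F)).toRingHom n
  let f := (φ.comp (Units.coeHom _)).toHomUnits
  have hf : Function.Injective f := fun a b e => Units.ext (hφ (congrArg Units.val e))
  have : Finite f.range := Finite.of_surjective _ f.rangeRestrict_surjective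
  obtain ⟨X, π, hπ⟩ := h.mono_right f.rangeRestrict (MonoidHom.rangeRestrict_injective_iff.2 hf)
  exact bd n p _ _ (by simp) r hr X ((Units.coeHom _).comp (f.range.subtype.comp X.subtype)) π hπ fun g e => by
    rw [show g = 1 from Subtype.ext (Subtype.ext (Units.ext e)), map_one]

end CfsgLib.AltSec
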