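import Mathlib
import Cfsg.Agent.Lib.AltSec.GLR
import Cfsg.Agent.Lib.AltSec.E6a
import Cfsg.Agent.Lib.E6V.Cent
import Cfsg.Agent.Lib.Invol.Dihedral

/-!
Alternating sections of the groups of type `E₆`.
-/

set_option autoImplicit false

namespace CfsgLib.AltSec

open Subgroup CfsgLib.E6V CfsgLib.LS CfsgLib.Stein Cfsg.Lie Finset Module Matrix Multiplicative

section Code

variable {K : Type*} [Field K] {E : Type*} [Group E] (h2 : (-1 : K) ≠ 1) (hE : ∀ e : E, e * e = 1)
include h2 hE

theorem chr_mul_ne (χ : E →* K) {a : E} (ha : χ a ≠ 1) (e : E) : χ (e * a) = 1 ↔ χ e ≠ 1 := by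
  have h : ∀ e, χ e = 1 ∨ χ e = -1 := fun e => mul_self_eq_one_iff.1 (by rw [← map_mul, hE, map_one])
  rw [map_mul, (h a).resolve_left ha]
  rcases h e with h | h <;> simp [h, h2]

theorem index_ker_le (χ : E →* K) : χ.ker.index ≤ 2 := by
  by_cases h : ∀ a, χ a = 1
  · rw [(eq_top_iff' χ.ker).2 h, index_top]; decide
  · obtain ⟨a, ha⟩ := not_forall.1 h
    refine (index_eq_two_iff.2 ⟨a, fun b => ?_⟩).le
    rw [MonoidHom.mem_ker, MonoidHom.mem_ker, chr_mul_ne h2 hE χ ha]
    tauto

open _root_.Classical in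
theorem two_mul_sum [Fintype E] (χ : Fin 27 → E →* K) :
    2 * ∑ e, #{i | χ i e ≠ 1} = Fintype.card E * #{i | χ i ≠ 1} := by
  simp only [card_filter]
  rw [sum_comm, mul_sum, mul_sum]
  refine sum_congr rfl fun i _ => ?_
  split_ifs with h
  · obtain ⟨a, ha⟩ := not_forall.1 fun k => h (MonoidHom.ext k)
    have h1 := card_equiv (s := {e | χ i e ≠ 1}) (t := {e | χ i e = 1}) (Equiv.mulRight a) fun e => by
      simpa using (chr_mul_ne h2 hE _ ha e).symm
    rw [← card_filter, mul_one, ← card_univ, ← card_filter_add_card_filter_not (s := univ) (fun e => χ i e = 1), ← h1,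
      two_mul]
  · simp [not_not.1 h]

variable [IsAlgClosed K] (σ : E →* Γ K)

open _root_.Classical in
theorem exists_code : ∃ χ : Fin 27 → E →* K, ∀ e, dm (σ e) = #{i | χ i e ≠ 1} := by
  let π : E →* End K (I → K) := toLinAlgEquiv'.toMonoidHom.comp (mt.comp σ)
  have h1 := iSup_wsp_eq_top π (fun a b => Commute.map (by
    rw [Commute, SemiconjBy, ← mul_inv_eq_one, _root_.mul_inv_rev, inv_eq_of_mul_eq_one_right (hE a),
      inv_eq_of_mul_eq_one_right (hE b), hE]) π) (N := 2) (fun h => h2 (by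
      rw [Nat.cast_ofNat] at h; linear_combination -h)) fun a => by rw [← map_pow, sq, hE, map_one]
  obtain ⟨b, b1, b2, b3⟩ := exists_linearIndependent K {v | ∃ l, v ∈ wsp π l}
  let v₀ := Basis.mk b3 (by
    rw [Subtype.range_coe, b2, ← h1]
    exact iSup_le fun l v hv => Submodule.subset_span ⟨l, hv⟩)
  have := FiniteDimensional.fintypeBasisIndex v₀
  let v := v₀.reindex (Fintype.equivFinOfCardEq (n := 27) (by rw [← finrank_eq_card_basis v₀]; simp))
  have h3 : ∀ i, ∃ l, v i ∈ wsp π l := fun i => by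
    rw [Basis.reindex_apply, Basis.mk_apply]
    exact b1 (Subtype.coe_prop _)
  choose l hl using h3
  refine ⟨fun i => ⟨⟨l i, weight_one (v.ne_zero i) (hl i) (map_one π)⟩, fun a b =>
    weight_mul (v.ne_zero i) (hl i) (map_mul π a b)⟩, fun e => ?_⟩
  have h4 : toLin v v (diagonal fun i => l i e - 1) = toLin' (mt (σ e) - 1) := v.ext fun i => by
    have : mt (σ e) *ᵥ v i = l i e • v i := hl i e
    simp [toLin_self, diagonal_apply, this, sub_smul]
  rw [dm, Matrix.rank, ← toLin'_apply', ← h4, ← rank_eq_finrank_range_toLin, rank_diagonal, Fintype.card_subtype]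
  simp [sub_eq_zero]

theorem sum_dm [Fintype E] : ∃ n ≤ 27, 2 * ∑ e, dm (σ e) = Fintype.card E * n := by
  obtain ⟨χ, h⟩ := exists_code h2 hE σ
  exact ⟨_, (card_le_univ _).trans (Fintype.card_fin 27).le, by simpa only [h] using two_mul_sum h2 hE χ⟩

theorem card_le_512 [Finite E] (h : ∀ e ≠ 1, 12 ≤ dm (σ e)) : Nat.card E ≤ 512 := by
  classical
  obtain ⟨χ, hχ⟩ := exists_code h2 hE σ
  let A : Subgroup E := ⨅ i : Fin 6, (χ (i.castLE (by decide))).ker
  have h1 : A.index ≤ 64 := (index_iInf_le _).trans (prod_le_pow_card _ _ 2 fun i _ => index_ker_le h2 hE _)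
  have := Fintype.ofFinite A
  have h3 := two_mul_sum h2 (E := A) (fun e => Subtype.ext (hE e)) fun i => (χ i).comp A.subtype
  have h4 : #{i | (χ i).comp A.subtype ≠ 1} ≤ 21 := (card_le_card (t := (univ.map (Fin.castLEEmb (by decide : 6 ≤ 27)))ᶜ)
    fun i hi => mem_compl.2 fun h => by
      obtain ⟨i, -, rfl⟩ := mem_map.1 h
      exact (mem_filter.1 hi).2 (MonoidHom.ext fun e => mem_iInf.1 e.2 i)).trans (by simp [card_compl])
  have h5 := card_nsmul_le_sum (univ.erase (1 : A)) (fun e => #{i | χ i e ≠ 1}) 12 fun e he =>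
    hχ e ▸ h e fun k => ne_of_mem_erase he (Subtype.ext k)
  have h6 := h5.trans (sum_le_sum_of_subset (erase_subset _ _))
  rw [card_erase_of_mem (mem_univ _), card_univ, smul_eq_mul] at h6
  have h7 := h3.trans_le (Nat.mul_le_mul_left _ h4)
  have h8 : Fintype.card A ≤ 8 := by
    change 2 * ∑ e : A, #{i | χ i e ≠ 1} ≤ _ at h7
    omega
  rw [← A.card_mul_index, Nat.card_eq_fintype_card]
  exact Nat.mul_le_mul h8 h1

end Code

theorem isConj_invol {a b : alternatingGroup (Fin 12)} (ha : a * a = 1) (hb : b * b = 1)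
    (h : #a.1.support = #b.1.support) (h' : #a.1.support ≤ 10) : IsConj a b := by
  refine alternatingGroup.isConj_of (Equiv.Perm.isConj_of_cycleType_eq ?_) (by simpa using h')
  have h1 := Equiv.Perm.cycleType_of_pow_prime_eq_one (σ := a.1) (p := 2) (by rw [sq]; exact congrArg Subtype.val ha)
  have h2 := Equiv.Perm.cycleType_of_pow_prime_eq_one (σ := b.1) (p := 2) (by rw [sq]; exact congrArg Subtype.val hb)
  rw [← Equiv.Perm.sum_cycleType, ← Equiv.Perm.sum_cycleType, h1, h2, Multiset.sum_replicate, Multiset.sum_replicate] at h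
  rw [h1, h2, Nat.eq_of_mul_eq_mul_right two_pos h]

/-- a regular elementary abelian group on eight points -/
def tau3 : Multiplicative (ZMod 2 × ZMod 2 × ZMod 2) →* alternatingGroup (Fin 12) := MonoidHom.mk' (fun v =>
  ev [(0, 1), (2, 3), (4, 5), (6, 7)] (by decide +kernel) ^ v.toAdd.1.val *
  ev [(0, 2), (1, 3), (4, 6), (5, 7)] (by decide +kernel) ^ v.toAdd.2.1.val *
  ev [(0, 4), (1, 5), (2, 6), (3, 7)] (by decide +kernel) ^ v.toAdd.2.2.val) (by decide +kernel)

/-- even products of five disjoint transpositions -/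
def tau4 : Multiplicative (ZMod 2 × ZMod 2 × ZMod 2 × ZMod 2) →* alternatingGroup (Fin 12) := MonoidHom.mk' (fun v =>
  ev [(0, 1), (2, 3)] (by decide +kernel) ^ v.toAdd.1.val * ev [(0, 1), (4, 5)] (by decide +kernel) ^ v.toAdd.2.1.val *
  ev [(0, 1), (6, 7)] (by decide +kernel) ^ v.toAdd.2.2.1.val *
  ev [(0, 1), (8, 9)] (by decide +kernel) ^ v.toAdd.2.2.2.val) (by decide +kernel)

theorem tau3_sum (f : ℕ → ℕ) : ∑ v, f #(tau3 v).1.support = f 0 + 7 * f 8 := by
  rw [sum_comp f fun v => #(tau3 v).1.support, show univ.image (fun v => #(tau3 v).1.support) = {0, 8} by decide +kernel,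
    sum_pair (by decide), show #{v | #(tau3 v).1.support = 0} = 1 by decide +kernel,
    show #{v | #(tau3 v).1.support = 8} = 7 by decide +kernel, one_smul, smul_eq_mul]

theorem tau4_sum (f : ℕ → ℕ) : ∑ v, f #(tau4 v).1.support = f 0 + (10 * f 4 + 5 * f 8) := by
  rw [sum_comp f fun v => #(tau4 v).1.support,
    show univ.image (fun v => #(tau4 v).1.support) = {0, 4, 8} by decide +kernel,
    sum_insert (by decide), sum_pair (by decide), show #{v | #(tau4 v).1.support = 0} = 1 by decide +kernel,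
    show #{v | #(tau4 v).1.support = 4} = 10 by decide +kernel,
    show #{v | #(tau4 v).1.support = 8} = 5 by decide +kernel, one_smul, smul_eq_mul, smul_eq_mul]

theorem exists_sect {X Y E : Type*} [Group X] [Finite X] [Group Y] [Group E] (π : X →* Y) (hπ : Function.Surjective π)
    (h : ¬ 2 ∣ Nat.card π.ker) (hE : ∀ e : E, e * e = 1) (τ : E →* Y) : ∃ σ : E →* X, ∀ e, π (σ e) = τ e := by
  obtain ⟨Q, h1, h2, -⟩ := exists_lift (p := 2) π hπ (E := τ.range) (by
    rintro ⟨_, e, rfl⟩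
    exact ⟨1, Subtype.ext (by simp [sq, ← map_mul, hE])⟩)
  let ρ : Q →* τ.range := (π.comp Q.subtype).codRestrict _ fun x => h2 ▸ mem_map_of_mem π x.2
  have h3 : Function.Bijective ρ := ⟨(injective_iff_map_eq_one _).2 fun x hx => by
    obtain ⟨k, hk⟩ := IsPGroup.iff_orderOf.1 h1 x
    have := (π.ker.orderOf_dvd_natCard (x := x) (congrArg Subtype.val hx))
    rw [orderOf_coe, hk] at this
    rcases k with _ | k
    · exact orderOf_eq_one_iff.1 hk
    · exact absurd ((dvd_pow_self 2 k.succ_ne_zero).trans this) h, fun y => by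
    obtain ⟨x, hx, e⟩ : y.1 ∈ Q.map π := h2.ge y.2
    exact ⟨⟨x, hx⟩, Subtype.ext e⟩⟩
  exact ⟨Q.subtype.comp ((MulEquiv.ofBijective ρ h3).symm.toMonoidHom.comp τ.rangeRestrict), fun e =>
    congrArg Subtype.val ((MulEquiv.ofBijective ρ h3).apply_symm_apply (τ.rangeRestrict e))⟩

theorem no_alt12 {K : Type} [Field K] [IsAlgClosed K] (p : ℕ) [hp : Fact p.Prime] [CharP K p]
    (hK : ∀ x : K, ∃ m, 0 < m ∧ x ^ p ^ m = x) (h12 : ¬ p ∣ 12) {H : Type} [Group H] [Finite H] (j : H →* Γ K)
    (hj : Function.Injective j) (π : H →* alternatingGroup (Fin 12)) (hπ : Function.Surjective π)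
    (hM : ∀ X : Subgroup H, X.map π = ⊤ → X = ⊤) : False := by
  classical
  have hp2 : p ≠ 2 := fun e => h12 (e ▸ by decide)
  have h2 : (-1 : K) ≠ 1 := Ring.neg_one_ne_one_of_char_ne_two (by rwa [ringChar.eq K p])
  have hd : ∀ x : H, x * x = 1 → x ≠ 1 → dm (j x) = 12 ∨ dm (j x) = 16 := fun x h h' =>
    dm_eq p hK hp2 (by rw [← map_mul, h, map_one]) fun e => h' (hj (e.trans (map_one j).symm))
  have ht : ∀ (l : ℕ) [Fact l.Prime] (k : Type) [Field k] [CharP k l] (W : Type) [AddCommGroup W] [Module k W]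
      [FiniteDimensional k W], finrank k W < 11 - (if l ∣ 12 then 1 else 0) → ∀ (ρ : H →* End k W) (g : H), ρ g = 1 :=
    fun l _ k _ _ W _ _ _ h ρ g => by_contra fun e => h.not_ge (Bd.field (by decide) hπ l ρ (bd _)
      (ker_le_of_ne (by decide) hπ hM ρ.ker fun k => e (k.ge (mem_top g))))
  by_cases h : 2 ∣ Nat.card π.ker
  · obtain ⟨P⟩ : Nonempty (Sylow 2 π.ker) := inferInstance
    have h3 : (P.1.map π.ker.subtype).Normal := normalizer_eq_top_iff.1 (hM _ (by
      have := congrArg (map π) P.normalizer_sup_eq_top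
      rwa [Subgroup.map_sup, map_top_of_surjective π hπ, (Subgroup.map_eq_bot_iff _).2 le_rfl, sup_bot_eq] at this))
    have h4 : Nontrivial (P.1.map π.ker.subtype) := (nontrivial_iff_ne_bot _).2 fun e =>
      P.ne_bot_of_dvd_card h ((map_eq_bot_iff_of_injective _ π.ker.subtype_injective).1 e)
    have h5 := P.2.map π.ker.subtype
    generalize P.1.map π.ker.subtype = Q at h3 h4 h5
    let A : Subgroup H :=
      { carrier := {x | x ∈ Q ⊓ centralizer Q ∧ x * x = 1}
        mul_mem' := fun {a b} ha hb => ⟨mul_mem ha.1 hb.1, by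
          rw [mul_assoc, ← mul_assoc b, hb.1.2 a ha.1.1 |>.symm, mul_assoc, hb.2, mul_one, ha.2]⟩
        one_mem' := ⟨one_mem _, mul_one _⟩
        inv_mem' := fun {a} ha => ⟨inv_mem ha.1, by rw [← _root_.mul_inv_rev, ha.2, inv_one]⟩ }
    have : A.Normal := ⟨fun a ha g => ⟨Normal.conj_mem inferInstance a ha.1 g, by
      rw [conj_mul, ha.2, mul_one, mul_inv_cancel]⟩⟩
    obtain ⟨V, _, _, _, φ, v1, v2⟩ := exists_lin (M := A) 2 (fun a b => Subtype.ext (b.2.1.2 a a.2.1.1))
      fun a => Subtype.ext ((sq _).trans a.2.2)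
    have h6 := ht 2 (ZMod 2) V (by
      have := card_le_512 h2 (fun e : A => Subtype.ext e.2.2) (j.comp A.subtype) fun e he =>
        (hd e e.2.2 fun k => he (Subtype.ext k)).elim Eq.ge fun k => le_trans (by decide) k.ge
      rw [← v1, natCard_eq_pow_finrank (K := ZMod 2), Nat.card_zmod] at this
      exact (Nat.pow_lt_pow_iff_right one_lt_two).1 (this.trans_lt (by decide))) (φ.comp MulAut.conjNormal)
    have := h5.center_nontrivial
    obtain ⟨z, hz⟩ := exists_prime_orderOf_dvd_card' (G := center Q) 2 (by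
      obtain ⟨n, hn, e⟩ := (h5.to_subgroup (center Q)).nontrivial_iff_card.1 this
      exact e ▸ dvd_pow_self 2 hn.ne')
    have z1 : z.1.1 * z.1.1 = 1 := by
      rw [← sq]; exact congrArg (fun x : center Q => x.1.1) (hz ▸ pow_orderOf_eq_one z)
    have z2 : z.1.1 ∈ A := ⟨⟨z.1.2, fun g hg => congrArg Subtype.val (mem_center_iff.1 z.2 ⟨g, hg⟩)⟩, z1⟩
    obtain ⟨g, P, k1, k2⟩ := exists_ty p hK hp2 (x := j z) (by rw [← map_mul, z1, map_one]) fun e => by
      rw [show z = 1 from Subtype.ext (Subtype.ext (hj (e.trans (map_one j).symm))), orderOf_one] at hz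
      exact absurd hz (by decide)
    refine not_Ty ((MulAut.conj g⁻¹).toMonoidHom.comp j) (fun W _ _ _ h => ht p K W (by rw [if_neg h12]; omega))
      three_of_algClosed (fun e => h2 (by linear_combination -e)) (z := z) (mem_center_iff.2 fun x => ?_)
      (by simpa using k1) k2
    exact mul_inv_eq_iff_eq_mul.1 (congrArg Subtype.val (DFunLike.congr_fun ((v2 _).1 (h6 x)) (⟨_, z2⟩ : A)) :)
  have h3 : ∀ x y : H, x * x = 1 → y * y = 1 → #(π x).1.support = #(π y).1.support → #(π x).1.support ≤ 10 →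
      dm (j x) = dm (j y) := fun x y hx hy k k' => by
    obtain ⟨c, hc⟩ := isConj_iff.1 (isConj_invol (by rw [← map_mul, hx, map_one]) (by rw [← map_mul, hy, map_one]) k k')
    obtain ⟨c, rfl⟩ := hπ c
    obtain ⟨d, hd⟩ := isConj_iff.1 (Invol.isConj_of_odd (x := c * x * c⁻¹) (by rw [conj_mul, hx]; simp) hy (by
      have := orderOf_dvd_natCard (⟨c * x * c⁻¹ * y, by
        rw [MonoidHom.mem_ker, map_mul, map_mul, map_mul, map_inv, hc, ← map_mul, hy, map_one]⟩ : π.ker)
      rw [← orderOf_coe] at this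
      exact Nat.not_even_iff_odd.1 fun e => h (e.two_dvd.trans this)))
    rw [← hd, ← dm_conj (j (d * c)⁻¹)]
    simp [mul_assoc]
  have s0 : ∀ v : Multiplicative (ZMod 2 × ZMod 2 × ZMod 2), v * v = 1 := by decide
  have r0 : ∀ v : Multiplicative (ZMod 2 × ZMod 2 × ZMod 2 × ZMod 2), v * v = 1 := by decide
  obtain ⟨σ, hσ⟩ := exists_sect π hπ h s0 tau3
  obtain ⟨ρ, hρ⟩ := exists_sect π hπ h r0 tau4
  have s1 : ∀ v, σ v * σ v = 1 := fun v => by rw [← map_mul, s0, map_one]
  have r1 : ∀ v, ρ v * ρ v = 1 := fun v => by rw [← map_mul, r0, map_one]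
  let a := ρ (ofAdd (1, 0, 0, 0))
  let b := ρ (ofAdd (1, 1, 1, 0))
  let f : ℕ → ℕ := fun n => dm (j (if n = 0 then 1 else if n = 4 then a else b))
  have a1 : #(π a).1.support = 4 := by rw [hρ]; decide +kernel
  have b1 : #(π b).1.support = 8 := by rw [hρ]; decide +kernel
  have h4 : ∀ x, x * x = 1 → #(π x).1.support ∈ [0, 4, 8] → dm (j x) = f #(π x).1.support := fun x hx k => by
    simp only [List.mem_cons, List.not_mem_nil, or_false] at k
    rcases k with k | k | k <;> rw [k]
    exacts [h3 x 1 hx (mul_one _) (by simpa using k) (by omega), h3 x a hx (r1 _) (by omega) (by omega),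
      h3 x b hx (r1 _) (by omega) (by omega)]
  obtain ⟨m, m1, m2⟩ := sum_dm h2 s0 (j.comp σ)
  obtain ⟨n, n1, n2⟩ := sum_dm h2 r0 (j.comp ρ)
  simp only [MonoidHom.comp_apply] at m2 n2
  rw [sum_congr rfl fun v _ => (h4 _ (s1 v) (by rw [hσ]; revert v; decide +kernel)).trans (by rw [hσ]), tau3_sum] at m2
  rw [sum_congr rfl fun v _ => (h4 _ (r1 v) (by rw [hρ]; revert v; decide +kernel)).trans (by rw [hρ]), tau4_sum] at n2
  have f0 : f 0 = 0 := by simp [f, dm]
  have f4 : f 4 = 12 ∨ f 4 = 16 := hd a (r1 _) fun e => by simp [e] at a1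
  have f8 : f 8 = 12 ∨ f 8 = 16 := hd b (r1 _) fun e => by simp [e] at b1
  simp at m2 n2
  omega

theorem bound_E6 {F : Type*} [Field F] [Fintype F] (p : ℕ) [hp : Fact p.Prime] [CharP F p] {r : ℕ}
    (h : Sec (alternatingGroup (Fin r)) (chevE6.group F)) : r ≤ 11 + (if p = 2 ∨ p = 3 ∨ p = 5 then 1 else 0) := by
  by_contra hr
  split_ifs at hr with h5
  · exact not_sec13_E6 p (by omega) (h.alt_le (by omega))
  have h12 : ¬ p ∣ 12 := fun e => by
    rcases (Nat.Prime.dvd_mul hp.out (m := 2 ^ 2) (n := 3)).1 e with e | e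
    · exact h5 (Or.inl ((Nat.prime_dvd_prime_iff_eq hp.out Nat.prime_two).1 (hp.out.dvd_of_dvd_pow e)))
    · exact h5 (Or.inr (Or.inl ((Nat.prime_dvd_prime_iff_eq hp.out Nat.prime_three).1 e)))
  have hF : ∃ s : F, s ≠ 0 ∧ s ≠ 1 := ⟨-1, by simp,
    Ring.neg_one_ne_one_of_char_ne_two (by rw [ringChar.eq F p]; exact fun e => h5 (Or.inl e))⟩
  let _ := ZMod.algebra F p
  let f := (IsAlgClosed.lift (M := AlgebraicClosure (ZMod p)) (R := ZMod p) (S := F)).toRingHom
  obtain ⟨φ, -⟩ := exists_iso hF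
  let ψ := ((GeneralLinearGroup.map f).comp (Γ F).subtype).codRestrict (Γ _) fun g =>
    (show (Γ _).comap ((GeneralLinearGroup.map f).comp (Γ F).subtype) = ⊤ from
      induction_of_UUx (G0_eq_top hF) fun r hr t => by
        rw [mem_comap, show (GeneralLinearGroup.map f).comp (Γ F).subtype (y r t) = (y r (f t)).1 from Units.ext (by
          change (mt (y r t)).map f = mt (y r (f t))
          ext a b
          simp [mt_y hr, E_apply, one_apply, apply_ite f])]
        exact (y r (f t)).2).ge (mem_top g)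
  have hψ : Function.Injective ψ := fun a b e => Subtype.ext (glMap_injective f (congrArg Subtype.val e))
  have : Finite ψ.range := Finite.of_surjective _ ψ.rangeRestrict_surjective
  obtain ⟨X, π, hπ⟩ := ((Sec.of_hom (MonoidHom.id _) Function.injective_id
    (φ.symm.toMonoidHom.comp (QuotientGroup.mk' _)) (φ.symm.surjective.comp QuotientGroup.mk_surjective)).trans
      (h.alt_le (r := 12) (by omega))).mono_right ψ.rangeRestrict (MonoidHom.rangeRestrict_injective_iff.2 hψ)
  obtain ⟨R, hR, hmin⟩ := (wellFounded_lt (α := Subgroup X)).has_min {R | R.map π = ⊤} ⟨⊤, map_top_of_surjective π hπ⟩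
  refine no_alt12 p (Semi.exists_pow_pow_eq (F := ZMod p) p) h12 (ψ.range.subtype.comp (X.subtype.comp R.subtype))
    (Subtype.val_injective.comp (Subtype.val_injective.comp Subtype.val_injective)) (π.comp R.subtype)
    (fun a => ?_) fun L hL => ?_
  · obtain ⟨g, hg, e⟩ := hR.ge (mem_top a)
    exact ⟨⟨g, hg⟩, e⟩
  · rw [← Subgroup.map_map] at hL
    exact map_injective R.subtype_injective (((map_subtype_le L).eq_or_lt.resolve_right (hmin _ hL)).trans (by
      rw [← MonoidHom.range_eq_map, range_subtype]))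

end CfsgLib.AltSec
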