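import Mathlib
import Cfsg.Agent.Lib.AltSec.E7
import Cfsg.Agent.Lib.AltSec.E8Tab
import Cfsg.Agent.Lib.AltSec.GLR

/-!
Alternating sections of the groups of type `E₈`: degree nineteen, elements of order three of the torus, and the kernel
of a minimal cover of `A₁₈`.
-/

set_option autoImplicit false

namespace CfsgLib.AltSec

open Subgroup CfsgLib.RGD CfsgLib.Twist CfsgLib.Weyl CfsgLib.Chev CfsgLib.Stein Cfsg.Lie Finset Multiplicative Module

/-- the root system of type `E₈` -/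
abbrev Φ8 : RootSys (Fin 240) (Fin 8) := rootSys rtOKE8

theorem card_W8 : Nat.card Φ8.W = 696729600 := card_W _ hasChainE8

theorem ip_top8 (z : Fin 8 → ℤ) :
    Φ8.ip z 239 = 2 * z 0 + 3 * z 1 + 4 * z 2 + 6 * z 3 + 5 * z 4 + 4 * z 5 + 3 * z 6 + 2 * z 7 := by
  rw [RootSys.ip, show Φ8.rt 239 = ![2, 3, 4, 6, 5, 4, 3, 2] by decide +kernel]
  simp [Fin.sum_univ_eight]

theorem val8_eq {l : ℕ} (h : l ∣ 51) (z : Fin 8 → ℕ) (r : Fin 240) :
    (val8 l (z 0) (z 1) (z 2) (z 3) (z 4) (z 5) (z 6) (z 7) r : ZMod l) = (Φ8.ip (fun j => z j) r : ℤ) := by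
  have h1 : ∀ i : ℕ, (nb8 r i : ZMod l) = (coT tRE8 r i : ℤ) := fun i => by
    have : (nb8 r i : ℤ) = coT tRE8 r i + 51 := by
      rw [coT, nb8]
      omega
    rw [← Int.cast_natCast, this, Int.cast_add, show ((51 : ℤ) : ZMod l) = ((51 : ℕ) : ZMod l) by simp,
      (ZMod.natCast_eq_zero_iff _ _).2 h, add_zero]
  simp [val8, RootSys.ip, Fin.sum_univ_eight, show ∀ i, Φ8.rt r i = coT tRE8 r i from fun _ => rfl, h1]

theorem exists_alc8 {l : ℕ} [NeZero l] {y : Fin 8 → Multiplicative (ZMod l)} (h0 : y ≠ 1) :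
    ∃ x ∈ Φ8.W, ∃ z : Fin 8 → ℕ, 2 * z 0 + 3 * z 1 + 4 * z 2 + 6 * z 3 + 5 * z 4 + 4 * z 5 + 3 * z 6 + 2 * z 7 ≤ l ∧
      z 0 + z 1 + z 2 + z 3 + z 4 + z 5 + z 6 + z 7 ≠ 0 ∧
      ∀ r, (Φ8.chr y (x r)).toAdd = (Φ8.ip (fun j => z j) r : ℤ) := by
  obtain ⟨x, hx, z, h1, h2⟩ := Semi.exists_alcove Φ8 (NeZero.pos l) fun j => (y j).toAdd.val
  have h3 : ∀ r, (Φ8.chr y (x r)).toAdd = (Φ8.ip (fun j => z j) r : ℤ) := fun r => by
    rw [(ZMod.intCast_eq_intCast_iff _ _ _).2 (h1 r)]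
    simp [RootSys.chr, RootSys.ip, toAdd_prod]
  refine ⟨x, hx, z, ?_, fun e => h0 (funext fun j => ?_), h3⟩
  · have := h2 239
    rw [ip_top8] at this
    omega
  · have h4 : ∀ j, z j = 0 := fun j => by fin_cases j <;> simp <;> omega
    simpa [Φ8.chr_simple, RootSys.ip, h4] using h3 (x⁻¹ (Φ8.simple j))

theorem rat17 {y : Fin 8 → Multiplicative (ZMod 17)} {w : Equiv.Perm (Fin 240)}
    (hw : ∀ r, Φ8.chr y r = Φ8.chr (y ^ 3) (w r)) : y = 1 := by
  by_contra h0
  obtain ⟨x, -, z, h1, h2, h3⟩ := exists_alc8 h0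
  have h4 := chk17 (z 3) (by omega) (z 4) (by omega) (z 2) (by omega) (z 5) (by omega) (z 1) (by omega) (z 6) (by omega)
    (z 0) (by omega) (z 7) (by omega)
  simp only [← val8_eq (show 17 ∣ 51 by decide)] at h3
  simp only [tst17, Chev.force_eq, sm_eq, Bool.or_eq_true, bne_iff_ne, beq_iff_eq, h2, or_false, pow_add, sum_add_distrib,
    ← mul_sum] at h4
  have hv : ∀ r, val8 17 (z 0) (z 1) (z 2) (z 3) (z 4) (z 5) (z 6) (z 7) r < 17 := fun _ => Nat.mod_lt _ (by decide)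
  generalize val8 17 (z 0) (z 1) (z 2) (z 3) (z 4) (z 5) (z 6) (z 7) = v at h3 h4 hv
  have h5 : ∑ r : Fin 240, 256 ^ (3 * v r % 17) = ∑ r : Fin 240, 256 ^ v r := by
    rw [← Equiv.sum_comp (x⁻¹ * w * x) fun r => 256 ^ (3 * v r % 17)]
    refine sum_congr rfl fun r _ => ?_
    have := congrArg toAdd (hw (x r))
    rw [show w (x r) = x ((x⁻¹ * w * x) r) by simp, Φ8.chr_pow, toAdd_pow, h3, h3, nsmul_eq_mul, ← Nat.cast_mul] at this
    rw [← (ZMod.natCast_eq_natCast_iff' _ _ _).1 this, Nat.mod_eq_of_lt (hv r)]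
  rw [h5, ← one_add_mul, Nat.mul_mod_right] at h4
  exact h4 rfl

theorem alt19_seventeen : ∃ a b : alternatingGroup (Fin 19), orderOf a = 17 ∧ b * a * b⁻¹ = a ^ 3 :=
  have : Fact (Nat.Prime 17) := ⟨by norm_num⟩
  ⟨(ev [(0, 16), (0, 15), (0, 14), (0, 13), (0, 12), (0, 11), (0, 10), (0, 9), (0, 8), (0, 7), (0, 6), (0, 5), (0, 4),
      (0, 3), (0, 2), (0, 1)] (by decide +kernel)),
    (ev [(1, 6), (1, 2), (1, 12), (1, 4), (1, 7), (1, 8), (1, 14), (1, 16), (1, 11), (1, 15), (1, 5), (1, 13), (1, 10),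
      (1, 9), (1, 3), (17, 18)] (by decide +kernel)),
    orderOf_eq_prime (by decide +kernel) (by decide +kernel), by decide +kernel⟩

theorem not_sec19_E8 {F : Type*} [Field F] [Fintype F] (p : ℕ) [hp : Fact p.Prime] [CharP F p] (h17 : p ≠ 17) :
    ¬ Sec (alternatingGroup (Fin 19)) (chevE8.group F) := fun h => by
  have : Fact (Nat.Prime 17) := ⟨by norm_num⟩
  have hW : ∀ (K : Type) [Field K], Nat.card (twId (stSys rtOKE8 K)).W1 = 696729600 := fun K _ => by
    rw [twId_W1]; exact card_W8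
  obtain ⟨K, _, _, h1, h2⟩ := chev_ext rtOKE8 p (m := 17) (by decide) ((Nat.coprime_primes hp.out (by norm_num)).2 h17) h
  have hS := sharp_stSys rtOKE8 K
  have hM := isTw_id hS
  obtain ⟨ε, e1, e2⟩ := exists_eps K (l := 17) h1
  obtain ⟨a, b, ha, hb⟩ := alt19_seventeen
  let τ : Multiplicative (ZMod 17) →* alternatingGroup (Fin 19) := MonoidHom.mk' (fun v => a ^ v.toAdd.val) fun u v => by
    rw [← pow_add, toAdd_mul, ZMod.val_add, pow_eq_pow_iff_modEq, ha]
    exact Nat.mod_modEq _ _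
  have t1 : Function.Injective τ := fun u v e => toAdd.injective (ZMod.val_injective _
    (pow_injOn_Iio_orderOf ((ZMod.val_lt _).trans_eq ha.symm) ((ZMod.val_lt _).trans_eq ha.symm) e))
  have t2 : Real τ (· ^ 3) := ⟨b, fun e => by
    rw [map_pow]
    change b * a ^ _ * b⁻¹ = (a ^ _) ^ 3
    rw [← conj_pow, hb, ← pow_mul, ← pow_mul, mul_comm]⟩
  have t3 : Nat.card (Multiplicative (ZMod 17)) = 17 := by simp
  have hw : ∀ w ∈ Φ8.W, orderOf w ≠ 17 := fun w hw e => by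
    have := orderOf_dvd_natCard (⟨w, hw⟩ : Φ8.W)
    rw [← orderOf_coe, e, card_W8] at this
    exact absurd this (by decide)
  obtain ⟨A, y, y1, y2, rfl | ⟨-, w, w0, w1, -⟩⟩ | ⟨-, -, -, ⟨w, w0, w1, -⟩, -⟩ := exists_real (ι := Fin 240) (κ := Fin 8)
    (Φ := Φ8) hM (fun h => not_dvd_H hM (fun b => (twId_card hS b).symm ▸ h1) (by rw [hW]; norm_num)
      (h.trans (relIndex_dvd_of_le_left _ (inf_le_inf_right _ (stSys rtOKE8 K).H_le_N))))
    (fun h => absurd (hW K ▸ h) (by norm_num)) ε e1 e2 h2 τ t1 (fun e => (congrArg (e ^ ·) t3.symm).trans pow_card_eq_one') (fun h => by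
      have h3 := card_mul_index τ.range
      rw [← Nat.card_congr (MonoidHom.ofInjective t1).toEquiv, t3] at h3
      have h4 := card_subgroup_dvd_card (alternatingGroup (Fin 19))
      rw [← h3, Nat.card_perm, Nat.card_eq_fintype_card, Fintype.card_fin] at h4
      exact absurd ((mul_dvd_mul_left _ h).trans h4) (by decide)) fun A _ =>
      have := Fact.mk (t3.symm ▸ (by norm_num : Nat.Prime 17)); A.eq_bot_or_eq_top_of_prime_card
  · obtain ⟨w, -, w1⟩ := y2 _ t2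
    have := rat17 fun r => (w1 ⟨ofAdd 1, trivial⟩ (⟨ofAdd 1, trivial⟩ ^ 3) rfl r).trans (by rw [map_pow])
    exact one_ne_zero (α := ZMod 17) (congrArg Subtype.val (y1 (this.trans (map_one y).symm)))
  · exact hw w w0 w1
  · exact hw w w0 w1

theorem cls3 {y : Fin 8 → Multiplicative (ZMod 3)} (h0 : y ≠ 1) : #{r | Φ8.chr y r = 1} ∈ [72, 78, 126] ∨
    #{r | Φ8.chr y r = 1} = 84 ∧ ∃ z, (∀ r, |Φ8.ip z r| ≤ 2) ∧ ∀ r, (Φ8.chr y r).toAdd = (Φ8.ip z r : ℤ) := by
  obtain ⟨x, hx, z, h1, h2, h3⟩ := exists_alc8 h0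
  have h4 : #{r | Φ8.chr y r = 1} = cnt8 (z 0) (z 1) (z 6) (z 7) := by
    rw [← card_equiv (s := {r : Fin 240 | val8 3 (z 0) (z 1) 0 0 0 0 (z 6) (z 7) r = 0}) x fun r => by
      have := val8_eq (show 3 ∣ 51 by decide) z r
      rw [← h3, show z 2 = 0 by omega, show z 3 = 0 by omega, show z 4 = 0 by omega, show z 5 = 0 by omega] at this
      simp only [mem_filter, mem_univ, true_and, ← toAdd_eq_zero, ← this, ZMod.natCast_eq_zero_iff]
      exact ⟨fun e => e.symm ▸ dvd_zero 3, fun e => Nat.eq_zero_of_dvd_of_lt e (Nat.mod_lt _ (by decide))⟩,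
      card_filter, cnt8, Fin.sum_univ_eq_sum_range fun r => if val8 3 _ _ 0 0 0 0 _ _ r = 0 then 1 else 0, ← card_filter,
      List.countP_eq_length_filter]
    rfl
  obtain ⟨c1, c2, c3, c4, c5⟩ := chk3
  rw [h4]
  by_cases h : z 0 = 1
  · refine Or.inr ⟨by rw [h, show z 1 = 0 by omega, show z 6 = 0 by omega, show z 7 = 0 by omega, c1],
      fun j => Φ8.ip (fun j => z j) (x⁻¹ (Φ8.simple j)), fun r => ?_, fun r => ?_⟩ <;> rw [Semi.ip_comp _ (inv_mem hx)]
    · have h5 : ∀ j, j ≠ 0 → z j = 0 := fun j => by fin_cases j <;> simp <;> omega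
      rw [RootSys.ip, Fintype.sum_eq_single 0 fun j hj => by simp [h5 j hj], h, Nat.cast_one, mul_one]
      exact c5 _ (Fin.is_lt _)
    · simp [← h3]
  · refine Or.inl ?_
    obtain ⟨e1, e2, e3⟩ | ⟨e1, e2, e3⟩ | ⟨e1, e2, e3⟩ : z 1 = 1 ∧ z 6 = 0 ∧ z 7 = 0 ∨ z 1 = 0 ∧ z 6 = 1 ∧ z 7 = 0 ∨
      z 1 = 0 ∧ z 6 = 0 ∧ z 7 = 1 := by omega
    all_goals simp [show z 0 = 0 by omega, e1, e2, e3, c2, c3, c4]

theorem small_fix {z : Fin 8 → ℤ} (hz : ∀ r, |Φ8.ip z r| ≤ 2) {w : Equiv.Perm (Fin 240)} (hw : w ∈ Φ8.W) {m : ℤ}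
    (hm : 3 ≤ m) (h : ∀ r, m ∣ Φ8.ip z (w r) - Φ8.ip z r) (r : Fin 240) : Φ8.ip z (w r) = Φ8.ip z r := by
  choose δ hδ using h
  have h1 : ∀ r, Φ8.ip (fun j => δ (Φ8.simple j)) r = δ r := fun r => mul_left_cancel₀ (show m ≠ 0 by omega) (by
    rw [← hδ, Φ8.ip_apply hw, RootSys.ip, RootSys.ip, mul_sum, ← sum_sub_distrib]
    refine sum_congr rfl fun j _ => ?_
    rw [mul_left_comm, ← hδ, mul_sub]
    simp [RootSys.ip, Φ8.rt_simple])
  have h2 : ∀ r, δ r ≤ 1 := fun r => by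
    have := hδ r
    have := abs_le.1 (hz r)
    have := abs_le.1 (hz (w r))
    nlinarith
  have h3 : ∀ r, Φ8.lam (fun j => δ (Φ8.simple j)) r = δ r := fun r => by
    rw [← h1 r]; simp [RootSys.lam, RootSys.ip, mul_comm]
  obtain ⟨x, hx, h4⟩ := Φ8.exists_dominant Set.univ fun j => δ (Φ8.simple j)
  rw [← Φ8.W_eq_WJ] at hx
  have h5 : ∀ r, Φ8.ip (fun j => δ (x (Φ8.simple j))) r = δ (x r) := fun r => by
    simpa only [h1] using Semi.ip_comp Φ8 hx (fun j => δ (Φ8.simple j)) r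
  have h6 : ∀ j, 0 ≤ δ (x (Φ8.simple j)) := fun j => by simpa [h3] using h4 j trivial
  have h7 := h2 (x 239)
  rw [← h5, ip_top8] at h7
  have h8 : ∀ j, δ (x (Φ8.simple j)) = 0 := fun j => by
    have := h6 0; have := h6 1; have := h6 2; have := h6 3; have := h6 4; have := h6 5; have := h6 6; have := h6 7
    fin_cases j <;> simp <;> omega
  have := h5 (x⁻¹ r)
  rw [← sub_eq_zero, hδ, show δ r = 0 by simpa [h8, RootSys.ip] using this.symm, mul_zero]

theorem sec3_le {F : Type*} [Field F] [Fintype F] (p : ℕ) [hp : Fact p.Prime] [CharP F p] (h3 : p ≠ 3) {B : Type*}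
    [CommGroup B] (hB : ∀ x : B, x ^ 3 = 1) (h : Sec B (chevE8.group F)) : Nat.card B ≤ 3 ^ 13 := by
  have hW : ∀ (K : Type) [Field K], Nat.card (twId (stSys rtOKE8 K)).W1 = 696729600 := fun K _ => by
    rw [twId_W1]; exact card_W8
  obtain ⟨K, _, _, h1, h2⟩ := chev_ext rtOKE8 p (m := 3 ^ 5 * 3) (by decide)
    (((Nat.coprime_primes hp.out Nat.prime_three).2 h3).pow_right 6) h
  have hS := sharp_stSys rtOKE8 K
  have hM := isTw_id hS
  obtain ⟨ε, -, e2⟩ := exists_eps K (l := 3) (h1.of_dvd (by decide))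
  obtain ⟨X, π, j, Q, j1, -, -, q1, q2, q3, -⟩ := exists_lift_le (not_dvd_N hM (fun b => (twId_card hS b).symm ▸ h1)
    (by rw [hW]; norm_num) (by rw [hW]; norm_num)) h2 (E := ⊤) fun x => ⟨1, Subtype.ext (hB x)⟩
  let ν := hM.nHom.comp ((j.comp Q.subtype).codRestrict _ fun x => q3 _ x.2)
  let ρ := π.comp Q.subtype
  have r1 : Function.Surjective ρ := fun b => by
    obtain ⟨x, hx, e⟩ := q2.ge (mem_top b)
    exact ⟨⟨x, hx⟩, e⟩
  have a1 : ν.ker.index ≤ 3 ^ 5 := by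
    obtain ⟨k, hk⟩ := (q1.of_surjective _ ν.rangeRestrict_surjective).exists_card_eq
    have := card_subgroup_dvd_card ν.range
    rw [index_ker, hk] at *
    rw [hW] at this
    exact Nat.pow_le_pow_right (by decide) (not_lt.1 fun h => absurd ((pow_dvd_pow 3 h).trans this) (by norm_num))
  obtain ⟨χ, c1, -⟩ := exists_chiHom hS
  let ψ := χ.comp ((j.comp (Q.subtype.comp ν.ker.subtype)).codRestrict _ fun x => (hM.nHom_ker.le x.2).1)
  have c2 : Function.Injective ψ := c1.comp fun a b e => Subtype.ext (Subtype.ext (j1 (congrArg Subtype.val e)))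
  have a2 := Nat.le_of_dvd Nat.card_pos (card_ker_pow_dvd 3 ((ρ.subgroupMap ν.ker).comp
    (MonoidHom.ofInjective c2).symm.toMonoidHom) ((ρ.subgroupMap_surjective _).comp (MulEquiv.surjective _)))
  rw [(eq_top_iff' (powMonoidHom 3 : ν.ker.map ρ →* ν.ker.map ρ).ker).2 fun x => Subtype.ext (hB x), card_top] at a2
  have a3 : ∀ (d : (powMonoidHom 3 : ψ.range →* ψ.range).ker) i, ∃ t, ε t = d.1.1 i := fun d i =>
    e2 _ (congrFun (congrArg Subtype.val (show d.1 ^ 3 = 1 from d.2)) i)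
  choose f hf using a3
  have a4 := Nat.card_le_card_of_injective f fun a b e => Subtype.ext (Subtype.ext (funext fun i => by rw [← hf, e, hf]))
  rw [← (ν.ker.map ρ).card_mul_index]
  exact Nat.mul_le_mul (n₂ := 3 ^ 8) (a2.trans (a4.trans_eq (by simp; rfl)))
    ((Nat.le_of_dvd (Nat.pos_of_ne_zero index_ne_zero_of_finite) (index_map_dvd _ r1)).trans a1)

theorem not_dvd_ker (n : ℕ) : ∀ (H : Type) [Group H] [Finite H] (π : H →* alternatingGroup (Fin 18)),
    Nat.card H = n → Function.Surjective π → (∀ X : Subgroup H, X.map π = ⊤ → X = ⊤) →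
    (∀ (B : Type) [CommGroup B], (∀ x : B, x ^ 3 = 1) → Sec B H → Nat.card B ≤ 3 ^ 13) → ¬ 3 ∣ Nat.card π.ker := by
  induction n using Nat.strong_induction_on with | _ n ih => ?_
  intro H _ _ π hn hπ hM hB h3
  have key : ∀ L : Subgroup H, L.Normal → L ≤ π.ker → L ≠ ⊥ → ¬ 3 ∣ L.relIndex π.ker := fun L _ h1 h2 h4 => by
    refine ih _ ?_ _ (QuotientGroup.lift L π h1) rfl (QuotientGroup.lift_surjective_of_surjective _ _ hπ _)
      (fun X hX => ?_) (fun B _ b1 b2 => hB B b1 ((Sec.of_hom (MonoidHom.id _) Function.injective_id _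
        (QuotientGroup.mk'_surjective L)).trans b2)) ?_
    · rw [← hn, ← L.card_mul_index]
      exact lt_mul_of_one_lt_left Nat.card_pos (one_lt_card_iff_ne_bot L |>.2 h2)
    · rw [← map_comap_eq_self_of_surjective (QuotientGroup.mk'_surjective L) X, Subgroup.map_map] at hX
      rw [← map_comap_eq_self_of_surjective (QuotientGroup.mk'_surjective L) X, hM _ hX,
        map_top_of_surjective _ (QuotientGroup.mk'_surjective L)]
    · rwa [QuotientGroup.ker_lift, ← relIndex_ker, QuotientGroup.ker_mk']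
  have h4 : IsPGroup 3 π.ker := (isPGroup_iff_primeFactors_card_subset (by decide)).2 fun l hl => by
    have := Fact.mk (Nat.prime_of_mem_primeFactors hl)
    obtain ⟨P⟩ : Nonempty (Sylow l π.ker) := inferInstance
    refine by_contra fun h => key (P.1.map π.ker.subtype) (normalizer_eq_top_iff.1 (hM _ (by
      have := congrArg (map π) P.normalizer_sup_eq_top
      rwa [Subgroup.map_sup, map_top_of_surjective π hπ, (Subgroup.map_eq_bot_iff _).2 le_rfl, sup_bot_eq] at this)))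
      (map_subtype_le _) (fun e => P.ne_bot_of_dvd_card (Nat.dvd_of_mem_primeFactors hl)
        ((map_eq_bot_iff_of_injective _ π.ker.subtype_injective).1 e)) ?_
    rw [← P.1.card_mul_index] at h3
    rw [relIndex, subgroupOf, comap_map_eq_self_of_injective π.ker.subtype_injective]
    obtain ⟨k, hk⟩ := P.2.exists_card_eq
    refine (Nat.prime_three.dvd_mul.1 h3).resolve_left fun e => h ?_
    rw [hk] at e
    simp [← (Nat.prime_dvd_prime_iff_eq Nat.prime_three Fact.out).1 (Nat.prime_three.dvd_of_dvd_pow e), Nat.prime_three]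
  let A : Subgroup H :=
    { carrier := {x | x ∈ π.ker ⊓ centralizer π.ker ∧ x ^ 3 = 1}
      mul_mem' := fun {a b} ha hb => ⟨mul_mem ha.1 hb.1, by
        rw [(show Commute a b from hb.1.2 a ha.1.1).mul_pow, ha.2, hb.2, mul_one]⟩
      one_mem' := ⟨one_mem _, one_pow _⟩
      inv_mem' := fun {a} ha => ⟨inv_mem ha.1, by rw [inv_pow, ha.2, inv_one]⟩ }
  have hA : A.Normal := ⟨fun a ha g => ⟨Normal.conj_mem inferInstance a ha.1 g, by
    rw [conj_pow, ha.2, mul_one, mul_inv_cancel]⟩⟩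
  have h5 : π.ker ≤ A := by
    have : Nontrivial π.ker := Finite.one_lt_card_iff_nontrivial.1 ((Nat.le_of_dvd Nat.card_pos h3).trans' (by decide))
    have := h4.center_nontrivial
    obtain ⟨z, hz⟩ := exists_prime_orderOf_dvd_card' (G := center π.ker) 3 (by
      obtain ⟨n, hn, e⟩ := (h4.to_subgroup (center π.ker)).nontrivial_iff_card.1 this
      exact e ▸ dvd_pow_self 3 hn.ne')
    refine relIndex_eq_one.1 (((h4.index (A.subgroupOf π.ker)).elim fun k hk => ?_))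
    rcases k with _ | k
    · exact hk
    refine absurd ((dvd_pow_self 3 k.succ_ne_zero).trans hk.symm.dvd) (key A hA (fun _ h => h.1.1) ((ne_bot_iff_exists_ne_one).2
      ⟨⟨z.1.1, ⟨z.1.2, fun g hg => congrArg Subtype.val (mem_center_iff.1 z.2 ⟨g, hg⟩)⟩,
        congrArg (fun x : center π.ker => x.1.1) (hz ▸ pow_orderOf_eq_one z)⟩, fun e => ?_⟩))
    rw [show z = 1 from Subtype.ext (Subtype.ext (congrArg (fun x : A => x.1) e)), orderOf_one] at hz
    exact absurd hz (by decide)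
  have a1 : ∀ a b : A, a * b = b * a := fun a b => Subtype.ext (b.2.1.2 a a.2.1.1)
  obtain ⟨V, _, _, _, φ, v1, v2⟩ := exists_lin (M := A) 3 a1 fun a => Subtype.ext a.2.2
  have h6 : ∀ g, (φ.comp MulAut.conjNormal) g = 1 := fun g => by_contra fun e => by
    have h7 := Bd.field (by decide) hπ 3 (φ.comp MulAut.conjNormal) (bd _)
      (ker_le_of_ne (by decide) hπ hM (φ.comp MulAut.conjNormal).ker fun k => e (k.ge (mem_top g)))
    have h8 := @hB A { (inferInstance : Group A) with mul_comm := a1 } (fun a => Subtype.ext a.2.2)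
      ⟨A, MonoidHom.id _, Function.surjective_id⟩
    rw [← v1, natCard_eq_pow_finrank (K := ZMod 3), Nat.card_zmod, Nat.pow_le_pow_iff_right (by decide)] at h8
    exact absurd (h7.trans h8) (by decide)
  obtain ⟨b, -, b2, b3⟩ := AltCover.ker_le_two (m := 17) (σ := π) (by decide) (by decide) (by decide) ⟨hπ, fun z hz =>
    mem_center_iff.2 fun x => mul_inv_eq_iff_eq_mul.1 (congrArg Subtype.val
      (DFunLike.congr_fun ((v2 _).1 (h6 x)) (⟨_, h5 hz⟩ : A)) :), le_top.trans (perf (by decide) hπ hM).ge⟩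
  have := (h3.trans (card_dvd_of_le b3)).trans (Nat.card_zpowers b ▸ orderOf_dvd_of_pow_eq_one b2)
  exact absurd this (by decide)

end CfsgLib.AltSec
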