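import Mathlib
import Cfsg.Agent.Lib.AltSec.E8a
import Cfsg.Agent.Lib.Semi.Chev

/-!
Alternating sections of the groups of type `E₈`: traces of monomial elements, commuting elements of order three.
-/

set_option autoImplicit false

namespace CfsgLib.AltSec

open Subgroup CfsgLib.RGD CfsgLib.Weyl CfsgLib.Chev CfsgLib.Lang CfsgLib.LS Cfsg.Lie Finset Multiplicative Module Matrix

section Mono

variable {D : ChevalleyDatum} [Good D] (h : RtOK D) {K : Type*} [Field K]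

theorem mono_N {n : GL D.Idx K} (hn : n ∈ (stSys h K).N) : ∃ (w : Equiv.Perm (Fin D.nroots)) (l : Fin D.nroots → K),
    ∀ s : Fin D.nroots, n.1 *ᵥ eV D K s = l s • eV D K (w s) ∧ n.1 *ᵥ cV D K s = cV D K (w s) ∧
      ∀ t, n * (stSys h K).x s t * n⁻¹ = (stSys h K).x (w s) (l s * t) := by
  let P (n : GL D.Idx K) := ∃ (w : Equiv.Perm (Fin D.nroots)) (l : Fin D.nroots → K),
    ∀ s : Fin D.nroots, n.1 *ᵥ eV D K s = l s • eV D K (w s) ∧ n.1 *ᵥ cV D K s = cV D K (w s) ∧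
      ∀ t, n * (stSys h K).x s t * n⁻¹ = (stSys h K).x (w s) (l s * t)
  have h1 : ∀ a b, P a → P b → P (a * b) := by
    rintro a b ⟨w, l, e⟩ ⟨w', l', e'⟩
    refine ⟨w * w', fun s => l (w' s) * l' s, fun s => ⟨?_, ?_, fun t => ?_⟩⟩
    · rw [Units.val_mul, ← mulVec_mulVec, (e' s).1, mulVec_smul, (e _).1, smul_smul, mul_comm]; rfl
    · rw [Units.val_mul, ← mulVec_mulVec, (e' s).2.1, (e _).2.1]; rfl
    · rw [Equiv.Perm.mul_apply, mul_assoc (l _), ← (e _).2.2, ← (e' s).2.2]; group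
  have h2 : ∀ c, P (tau D K c) := fun c =>
    ⟨1, fun s => ((rootSys h).chr c s).1, fun s => ⟨by rw [tau_val, diagR_eV]; rfl, by rw [tau_val, diagR_cV]; rfl,
      (isTor_tau h).conj c s⟩⟩
  obtain ⟨a, ha, L, rfl⟩ := (stSys h K).mem_N_iff.1 hn
  obtain ⟨c, rfl⟩ := (isTor_tau h).H_le ha
  refine h1 _ _ (h2 c) ?_
  clear hn
  induction L with
  | nil => simpa [StSys.nprod_nil] using h2 1
  | cons i L ih =>
    have hi := simple_lt i.2
    rw [StSys.nprod_cons, stSys_n]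
    refine h1 _ _ ⟨(rootSys h).s i, fun s => eta D (D.simple i) s, fun s => ?_⟩ ih
    rw [show ((rootSys h).s i s : ℕ) = refl D (D.simple i) s from (refl_simple i.2 s.2).symm,
      show ((rootSys h).simple i : ℕ) = D.simple i from rfl, nU_val, nMat_one_eV hi s.2, nMat_cV hi s one_ne_zero,
      cV_refl hi s.2]
    refine ⟨rfl, rfl, fun t => (nU_conj_xU hi s.2 one_ne_zero t).trans ?_⟩
    rw [_root_.one_zpow, mul_one, refl_simple i.2 s.2]; rfl

theorem trace_N {n : GL D.Idx K} (hn : n ∈ (stSys h K).N) {w : Equiv.Perm (Fin D.nroots)} {l : Fin D.nroots → K}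
    (hl : ∀ s, l s * l ((rootSys h).neg s) = 1)
    (ha : ∀ s t, n * (stSys h K).x s t * n⁻¹ = (stSys h K).x (w s) (l s * t)) :
    n.1.trace = (∑ i : Fin D.rank, cor D (w ((rootSys h).simple i)) i : ℤ) + ∑ s, if w s = s then l s else 0 := by
  have hS := stSys_nondeg h (F := K)
  obtain ⟨w', l', e⟩ := mono_N h hn
  have e1 : ∀ s, w s = w' s := fun s => hS.root_eq_of_x_eq (mul_ne_zero (left_ne_zero_of_mul_eq_one (hl s)) one_ne_zero)
    ((ha s 1).symm.trans ((e s).2.2 1))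
  have e2 : ∀ s, l s = l' s := fun s => by
    simpa using hS.x_injective (w' s) ((e1 s ▸ ha s 1).symm.trans ((e s).2.2 1) :)
  rw [Matrix.trace, Fintype.sum_sum_type, Int.cast_sum]
  refine congrArg₂ _ (sum_congr rfl fun i _ => ?_) (sum_congr rfl fun s _ => ?_)
  · rw [Matrix.diag, ← mulVec_hV_apply n.1 i, ← cV_simple i.2, e1]
    exact congrFun (e ((rootSys h).simple i)).2.1 _
  · rw [Matrix.diag, ← mulVec_eV_apply n.1 s, (e s).1, e1, e2]
    simp [eV_inr, Fin.ext_iff, eq_comm]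

end Mono

theorem cor8 (r : Fin 240) (i : Fin 8) : cor chevE8 r i = Φ8.rt r i :=
  (tablesOKE8.co_eq r r.2 i i.2).trans (congrArg (coT · r i) (show tCE8 = tRE8 by decide +kernel))

theorem exists_prod {G : Type*} [Group G] (t : ℕ → G) (l : ℕ → ℕ) (hc : ∀ i j, Commute (t i) (t j))
    (hl : ∀ i, t i ^ l i = 1) (hl' : Pairwise fun i j => (l i).Coprime (l j)) (k : ℕ) :
    ∃ s ∈ closure (t '' Set.Iio k), s ^ ∏ i ∈ range k, l i = 1 ∧ ∀ i < k, t i ∈ zpowers s := by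
  induction k with
  | zero => exact ⟨1, one_mem _, one_pow _, fun _ h => absurd h (Nat.not_lt_zero _)⟩
  | succ k ih =>
    obtain ⟨s, s1, s2, s3⟩ := ih
    have h1 : Commute s (t k) := mem_centralizer_singleton_iff.1 ((closure_le _).2 (by
      rintro _ ⟨i, -, rfl⟩; exact mem_centralizer_singleton_iff.2 (hc i k)) s1)
    obtain ⟨a, a1, a2⟩ := Nat.chineseRemainder (Nat.Coprime.prod_left fun i hi => hl' (mem_range.1 hi).ne :
      (∏ i ∈ range k, l i).Coprime (l k)) 1 0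
    have h2 : s ∈ zpowers (s * t k) := mem_zpowers_iff.2 ⟨a, by
      rw [zpow_natCast, h1.mul_pow, pow_eq_pow_of_modEq a1 s2, pow_eq_pow_of_modEq a2 (hl k), pow_one, pow_zero, mul_one]⟩
    refine ⟨s * t k, mul_mem (closure_mono (Set.image_mono (Set.Iio_subset_Iio k.le_succ)) s1)
      (subset_closure ⟨k, k.lt_succ_self, rfl⟩), by
        rw [prod_range_succ, h1.mul_pow, pow_mul, s2, mul_comm _ (l k), pow_mul, hl, one_pow, one_pow, mul_one], fun i hi => ?_⟩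
    rcases Nat.lt_succ_iff_lt_or_eq.1 hi with hi | rfl
    · exact zpowers_le.2 h2 (s3 i hi)
    · simpa using mul_mem (inv_mem h2) (mem_zpowers _)

section Tor

variable {K : Type*} [Field K] {G : Type*} [Group G] {S : StSys Φ8 K G} {τ : (Fin 8 → Kˣ) →* G}

theorem comm_small (hS : S.Nondeg) (hτ : S.IsTor τ) {z : Fin 8 → ℤ} (hz : ∀ r, |Φ8.ip z r| ≤ 2) {ζ : Kˣ}
    (h3 : 3 ≤ orderOf ζ) (ζ' : Kˣ) {g : G} (hg : g ∈ S.grp) (e : Commute (τ fun i => ζ ^ z i) g) :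
    Commute (τ fun i => ζ' ^ z i) g := by
  obtain ⟨u, hu, n, hn, w, hw, ha, h1, u', hu', rfl⟩ := hτ.bruhat_centralizer hS hg e
  have h2 : ∀ r ∈ Φ8.Ker fun i => ζ ^ z i, Φ8.chr (fun i => ζ' ^ z i) r = 1 := fun r hr => by
    have h4 := hr.2
    rw [Φ8.chr_zpow_ip, ← orderOf_dvd_iff_zpow_eq_one] at h4
    rw [Φ8.chr_zpow_ip, Int.eq_zero_of_abs_lt_dvd h4 ((hz r).trans_lt (by omega)), zpow_zero]
  refine Commute.mul_right (Commute.mul_right (hτ.commute_of_mem_UU h2 hu) (hτ.commute_of_acts hS hn ha fun j => ?_))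
    (hτ.commute_of_mem_UU (fun r hr => h2 r hr.1) hu')
  rw [Φ8.chr_zpow_ip, small_fix hz hw (m := orderOf ζ) (by omega) fun r => ?_, ← Φ8.chr_zpow_ip, Φ8.chr_simple]
  have := h1 r
  rwa [Φ8.chr_zpow_ip, Φ8.chr_zpow_ip, zpow_eq_zpow_iff_modEq, Int.modEq_comm, Int.modEq_iff_dvd] at this

variable [IsAlgClosed K] {p : ℕ} [hp : Fact p.Prime] [CharP K p]

omit hp in
theorem exists_order {l : ℕ} (hl : ¬ p ∣ l) : ∃ ζ : Kˣ, orderOf ζ = l := by
  have : NeZero (l : K) := ⟨by rwa [Ne, CharP.cast_eq_zero_iff K p]⟩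
  have : NeZero l := ⟨by rintro rfl; exact hl (dvd_zero p)⟩
  obtain ⟨ζ, h⟩ := HasEnoughRootsOfUnity.exists_primitiveRoot K l
  exact ⟨(h.isUnit (NeZero.ne l)).unit, by rw [← orderOf_units, IsUnit.unit_spec, ← h.eq_orderOf]⟩

variable {σ : ℕ → G →* G} (hF : Semi.Frob S τ p σ)
include hF

theorem mem_tor {g : G} (hg : g ∈ S.grp) (e : ∀ c, Commute (τ c) g) : g ∈ τ.range := by
  have hS := hF.nondeg
  obtain ⟨ζ, hζ⟩ := exists_order (K := K) (p := p) (l := 31 * p + 1) fun h =>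
    hp.out.one_lt.ne' (Nat.dvd_one.1 ((Nat.dvd_add_right (dvd_mul_left p 31)).1 h))
  have h0 := hp.out.two_le
  obtain ⟨u, hu, n, hn, w, hw, ha, h1, u', hu', rfl⟩ := hF.isTor.bruhat_centralizer hS hg
    (e fun i => ζ ^ (1 : Fin 8 → ℤ) i)
  have h2 : ∀ r, |Φ8.ip 1 r| ≤ 29 ∧ Φ8.ip 1 r ≠ 0 := by decide +kernel
  have h3 : (Φ8.Ker fun i => ζ ^ (1 : Fin 8 → ℤ) i) = ∅ := Set.eq_empty_of_forall_notMem fun r hr => by
    have h4 := hr.2
    rw [Φ8.chr_zpow_ip, ← orderOf_dvd_iff_zpow_eq_one] at h4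
    exact (h2 r).2 (Int.eq_zero_of_abs_lt_dvd h4 ((h2 r).1.trans_lt (by omega)))
  simp only [h3, Set.empty_inter, StSys.UU_empty, mem_bot] at hu hu'
  obtain rfl : w = 1 := Φ8.eq_one_of_pos_simple hw fun i => (Φ8.pos_or_neg _).resolve_right fun h => by
    have h4 := h1 (Φ8.simple i)
    rw [Φ8.chr_simple, Φ8.chr_zpow_ip, zpow_eq_zpow_iff_modEq, Int.modEq_iff_dvd] at h4
    have h5 : Φ8.ip 1 (w (Φ8.simple i)) ≤ 0 := sum_nonpos fun j _ => by simpa using h j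
    have h6 := abs_le.1 (h2 (w (Φ8.simple i))).1
    have := Int.le_of_dvd (by simp only [Pi.one_apply]; omega) h4
    simp only [Pi.one_apply] at this
    omega
  rw [hu, hu', one_mul, mul_one]
  exact hF.isTor.H_le (hS.mem_H_of_acts_one hn ha)

theorem toral_family {k : ℕ} (x : Fin k → G) (hc : ∀ i j, Commute (x i) (x j)) {ω : Kˣ} (hω : 3 ≤ orderOf ω)
    (hx : ∀ i, ∃ g ∈ S.grp, ∃ z, (∀ r, |Φ8.ip z r| ≤ 2) ∧ x i = g * τ (fun j => ω ^ z j) * g⁻¹) :
    ∃ g ∈ S.grp, ∃ c, (∀ i, g⁻¹ * x i * g ∈ τ.range) ∧ ∀ y ∈ S.grp,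
      Commute (τ c) y ↔ ∀ i, Commute (g⁻¹ * x i * g) y := by
  have hτ : ∀ c, τ c ∈ S.grp := fun c => S.H_le_grp (hF.mem_H c)
  choose g hg z hz e using hx
  let l : ℕ → ℕ := fun i => Nat.nth Nat.Prime (p + i)
  have l1 : ∀ i, p + i + 2 ≤ l i := fun i => Nat.add_two_le_nth_prime _
  have l2 : ∀ i, ¬ p ∣ l i := fun i h =>
    absurd ((Nat.prime_dvd_prime_iff_eq hp.out (Nat.prime_nth_prime _)).1 h) (by have := l1 i; unfold l at this; omega)
  choose ζ hζ using fun i => exists_order (K := K) (l2 i)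
  let t : ℕ → G := fun i => if h : i < k then g ⟨i, h⟩ * τ (fun j => ζ i ^ z ⟨i, h⟩ j) * (g ⟨i, h⟩)⁻¹ else 1
  have t0 : ∀ i : Fin k, t i = g i * τ (fun j => ζ i ^ z i j) * (g i)⁻¹ := fun i => dif_pos i.2
  have t1 : ∀ i : Fin k, ∀ y ∈ S.grp, Commute (t i) y ↔ Commute (x i) y := fun i y hy => by
    have h1 := mul_mem (mul_mem (inv_mem (hg i)) hy) (hg i)
    have h2 : 3 ≤ orderOf (ζ i) := by have := l1 i; have := hp.out.two_le; rw [hζ]; omega
    rw [t0, e]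
    exact ⟨fun h => by
      simpa only [mul_assoc, mul_inv_cancel_left, mul_inv_cancel, mul_one] using (comm_small hF.nondeg hF.isTor (hz i) h2 ω h1
        (by simpa [mul_assoc] using h.conj (g i)⁻¹)).conj (g i), fun h => by
      simpa only [mul_assoc, mul_inv_cancel_left, mul_inv_cancel, mul_one] using (comm_small hF.nondeg hF.isTor (hz i) hω
        (ζ i) h1 (by simpa [mul_assoc] using h.conj (g i)⁻¹)).conj (g i)⟩
  have t2 : ∀ i, t i ∈ S.grp := fun i => by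
    unfold t; split_ifs
    exacts [mul_mem (mul_mem (hg _) (hτ _)) (inv_mem (hg _)), one_mem _]
  have x1 : ∀ i, x i ∈ S.grp := fun i => e i ▸ mul_mem (mul_mem (hg _) (hτ _)) (inv_mem (hg _))
  obtain ⟨s, s1, s2, s3⟩ := exists_prod t l (fun i j => by
      by_cases hi : i < k
      · by_cases hj : j < k
        · exact (t1 ⟨i, hi⟩ _ (t2 j)).2 ((t1 ⟨j, hj⟩ _ (x1 _)).2 (hc _ _)).symm
        · simp [t, hj]
      · simp [t, hi]) (fun i => by
      unfold t; split_ifs with h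
      · rw [conj_pow, ← map_pow, show (fun j => ζ i ^ z ⟨i, h⟩ j) ^ l i = 1 from funext fun j => by
          rw [Pi.pow_apply, ← zpow_natCast, ← _root_.zpow_mul, mul_comm, _root_.zpow_mul, zpow_natCast, ← hζ,
            pow_orderOf_eq_one, _root_.one_zpow]; rfl, map_one, mul_one, mul_inv_cancel]
      · exact one_pow _)
    (fun i j h => (Nat.coprime_primes (Nat.prime_nth_prime _) (Nat.prime_nth_prime _)).2 fun e =>
      h (Nat.add_left_cancel (Nat.nth_injective Nat.infinite_setOfPred_prime e))) k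
  obtain ⟨a, ha, c, hc⟩ := hF.toral (s := s) ((closure_le _).2 (by rintro _ ⟨i, -, rfl⟩; exact t2 i) s1)
    (fun h => by
      obtain ⟨i, -, h⟩ := (hp.out.prime.dvd_finsetProd_iff _).1 h
      exact l2 i h) s2
  have h1 : ∀ y ∈ S.grp, (∀ i, Commute (a⁻¹ * x i * a) y) ↔ ∀ i : Fin k, Commute (t i) (a * y * a⁻¹) :=
    fun y hy => forall_congr' fun i => by
      rw [t1 i _ (mul_mem (mul_mem ha hy) (inv_mem ha))]
      exact ⟨fun h => by simpa [mul_assoc] using h.conj a, fun h => by simpa [mul_assoc] using h.conj a⁻¹⟩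
  have h2 : ∀ y ∈ S.grp, Commute (τ c) y ↔ ∀ i, Commute (a⁻¹ * x i * a) y := fun y hy => by
    rw [h1 y hy, ← hc]
    refine ⟨fun h i => ?_, fun h => ?_⟩
    · obtain ⟨m, hm⟩ := s3 i i.2
      rw [← hm]
      exact Commute.zpow_left (by simpa [mul_assoc] using h.conj a) m
    · have : Commute s (a * y * a⁻¹) := mem_centralizer_singleton_iff.1 ((closure_le _).2 (by
        rintro _ ⟨i, hi, rfl⟩; exact mem_centralizer_singleton_iff.2 (h ⟨i, hi⟩)) s1)
      simpa [mul_assoc] using this.conj a⁻¹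
  exact ⟨a, ha, c, fun i => mem_tor hF (mul_mem (mul_mem (inv_mem ha) (x1 i)) ha) fun d =>
    ((h2 _ (hτ d)).1 ((Commute.all c d).map _) i).symm, h2⟩

end Tor

end CfsgLib.AltSec
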