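import Mathlib
import Cfsg.Agent.Lib.AltSec.E8b
import Cfsg.Agent.Lib.Semi.SubRoot

/-!
Alternating sections of the groups of type `E₈`: the characters of an elementary abelian group of order `3 ^ 6`.
-/

set_option autoImplicit false

namespace CfsgLib.AltSec

open CfsgLib.RGD CfsgLib.Stein CfsgLib.Semi Finset Multiplicative Matrix

/-- the number of nonzero coordinates -/
def wt6 (v : Fin 6 → ZMod 3) : ℕ := #{i | v i ≠ 0}

/-- a linear form as a character -/
def dotHom (a : Fin 6 → ZMod 3) : Multiplicative (Fin 6 → ZMod 3) →* Multiplicative (ZMod 3) :=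
  MonoidHom.mk' (fun v => ofAdd (a ⬝ᵥ v.toAdd)) fun u v => by simp [dotProduct_add, ofAdd_add]

theorem dotHom_inj {a b : Fin 6 → ZMod 3} : dotHom a = dotHom b ↔ a = b := ⟨fun h => funext fun i => by
  simpa [dotHom] using DFunLike.congr_fun h (ofAdd (Pi.single i 1)), fun h => h ▸ rfl⟩

theorem exists_dotHom (χ : Multiplicative (Fin 6 → ZMod 3) →* Multiplicative (ZMod 3)) : ∃ a, χ = dotHom a :=
  ⟨fun i => (χ (ofAdd (Pi.single i 1))).toAdd, MonoidHom.ext fun v => by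
    conv_lhs => rw [← ofAdd_toAdd v, ← univ_sum_single v.toAdd, ofAdd_sum, map_prod]
    simp only [dotHom, MonoidHom.mk'_apply, dotProduct, ofAdd_sum]
    refine prod_congr rfl fun i _ => ?_
    conv_lhs => rw [← ZMod.natCast_zmod_val (v.toAdd i), ← nsmul_one, Pi.single_smul, ofAdd_nsmul, map_pow]
    exact toAdd.injective (by simp [mul_comm])⟩

theorem count3 {ι : Type*} [Fintype ι] (u : ι → Fin 6 → ZMod 3) (a : Fin 6 → ZMod 3) {f : ℕ → ℕ}
    (h : ∀ v, #{r | u r ⬝ᵥ v ≠ 0} = f (wt6 v)) :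
    3 * ∑ v, (if a ⬝ᵥ v = 0 then 2 * (Fintype.card ι - f (wt6 v)) else f (wt6 v)) =
      729 * (2 * Fintype.card ι + 2 * (#{r | u r = a} + #{r | u r = -a})) := by
  classical
  have h1 := fun a => sum_card_eq (fun r => dotHom (u r)) (dotHom a)
  simp only [dotHom_inj] at h1
  simp only [dotHom, MonoidHom.mk'_apply, EmbeddingLike.apply_eq_iff_eq, Fintype.card_multiplicative, Fintype.card_pi,
    ZMod.card, prod_const, card_univ, Fintype.card_fin] at h1
  have h2 : ∀ v : Multiplicative (Fin 6 → ZMod 3), (if a ⬝ᵥ v.toAdd = 0 then 2 * (Fintype.card ι - f (wt6 v.toAdd)) else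
      f (wt6 v.toAdd)) = #{r | u r ⬝ᵥ v.toAdd = a ⬝ᵥ v.toAdd} + #{r | u r ⬝ᵥ v.toAdd = (-a) ⬝ᵥ v.toAdd} := fun v => by
    rw [← h, neg_dotProduct]
    generalize a ⬝ᵥ v.toAdd = t
    split_ifs with e
    · rw [e, neg_zero, ← card_univ, ← card_filter_add_card_filter_not (s := univ) fun r => u r ⬝ᵥ v.toAdd = 0]
      simp [two_mul]
    · rw [← card_union_of_disjoint (disjoint_filter.2 fun r _ h1 h2 => e (by rw [h1] at h2; clear h1 e; revert t; decide)),
        ← filter_or]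
      exact congrArg card (filter_congr fun r _ => by generalize u r ⬝ᵥ v.toAdd = s; revert t s; decide)
  rw [← Equiv.sum_comp toAdd, sum_congr rfl fun v _ => h2 v, sum_add_distrib, mul_add, h1, h1]
  ring

theorem sum_code (a : Fin 6 → ZMod 3) (g : ℕ → ℕ) : ∑ v, g (wt6 v + if a ⬝ᵥ v = 0 then 7 else 0) =
    ∑ c ∈ range 14, #{v | (wt6 v + if a ⬝ᵥ v = 0 then 7 else 0) = c} * g c := by
  rw [← sum_fiberwise_of_maps_to (t := range 14) (g := fun v => wt6 v + if a ⬝ᵥ v = 0 then 7 else 0) fun v _ => by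
    have : wt6 v ≤ 6 := (card_le_univ _).trans_eq (Fintype.card_fin 6)
    rw [mem_range]; split_ifs <;> omega]
  exact sum_congr rfl fun c _ => by rw [sum_congr rfl fun v hv => congrArg g (mem_filter.1 hv).2, sum_const, smul_eq_mul]

theorem code_one : ∀ c ∈ range 14, #{v | (wt6 v + if ![1, 0, 0, 0, 0, 0] ⬝ᵥ v = 0 then 7 else 0) = c} =
    [0, 2, 20, 80, 160, 160, 64, 1, 10, 40, 80, 80, 32, 0].getD c 0 := by
  decide +kernel

theorem code_two : ∀ c ∈ range 14, #{v | (wt6 v + if ![1, 1, 0, 0, 0, 0] ⬝ᵥ v = 0 then 7 else 0) = c} =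
    [0, 4, 34, 112, 176, 128, 32, 1, 8, 26, 48, 64, 64, 32].getD c 0 := by
  decide +kernel

theorem num_chk : ∀ a ∈ [168, 162, 156, 114], ∀ b ∈ [168, 162, 156, 114], ∀ c ∈ [168, 162, 156, 114],
    ∀ d ∈ [168, 162, 156, 114], ∀ e ∈ [168, 162, 156, 114], ∀ f ∈ [168, 162, 156, 114], ∀ s,
    s = 2 * a + 20 * b + 80 * c + 160 * d + 160 * e + 64 * f + 496 + 20 * (248 - a) + 80 * (248 - b) + 160 * (248 - c) +
      160 * (248 - d) + 64 * (248 - e) → s % 486 = 0 → 120528 ≤ s → ∀ t,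
    t = 4 * a + 34 * b + 112 * c + 176 * d + 128 * e + 32 * f + 496 + 16 * (248 - a) + 52 * (248 - b) + 96 * (248 - c) +
      128 * (248 - d) + 128 * (248 - e) + 64 * (248 - f) → t % 486 = 0 → 120528 ≤ t →
    [0, a, b, c, d, e, f] = [0, 156, 114, 162, 156, 168, 162] := by
  simp only [forall_eq]
  decide +kernel

theorem num248 (u : Fin 248 → Fin 6 → ZMod 3) {f : ℕ → ℕ} (h : ∀ v, #{r | u r ⬝ᵥ v ≠ 0} = f (wt6 v))
    (hf : ∀ k, 0 < k → k ≤ 6 → f k ∈ [168, 162, 156, 114]) (v : Fin 6 → ZMod 3) :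
    f (wt6 v) = [0, 156, 114, 162, 156, 168, 162].getD (wt6 v) 0 := by
  have h0 : f 0 = 0 := by simpa [wt6] using (h 0).symm
  have h1 : ∀ a v, (if a ⬝ᵥ v = 0 then 2 * (Fintype.card (Fin 248) - f (wt6 v)) else f (wt6 v)) =
      (fun c => if c < 7 then f c else 2 * (248 - f (c - 7))) (wt6 v + if a ⬝ᵥ v = 0 then 7 else 0) := fun a v => by
    have : wt6 v < 7 := Nat.lt_succ_of_le ((card_le_univ _).trans_eq (Fintype.card_fin 6))
    split_ifs <;> simp [this]
  have h2 := count3 u ![1, 0, 0, 0, 0, 0] h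
  have h3 := count3 u ![1, 1, 0, 0, 0, 0] h
  rw [sum_congr rfl fun v _ => h1 _ v, sum_code _ fun c => if c < 7 then f c else 2 * (248 - f (c - 7))] at h2 h3
  rw [sum_congr rfl fun c hc => congrArg (· * _) (code_one c hc)] at h2
  rw [sum_congr rfl fun c hc => congrArg (· * _) (code_two c hc)] at h3
  simp [sum_range_succ, h0] at h2 h3
  have h4 := num_chk _ (hf 1 (by decide) (by decide)) _ (hf 2 (by decide) (by decide)) _ (hf 3 (by decide) (by decide))
    _ (hf 4 (by decide) (by decide)) _ (hf 5 (by decide) (by decide)) _ (hf 6 (by decide) (by decide)) _ rfl (by omega)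
    (by omega) _ rfl (by omega) (by omega)
  have h5 : wt6 v ≤ 6 := (card_le_univ _).trans_eq (Fintype.card_fin 6)
  rw [← h4]
  generalize wt6 v = k at h5
  interval_cases k <;> simp [h0]

theorem num_blk : ∀ x y : ZMod 3, 3 * ∑ v, (if ![x, x, x, y, y, y] ⬝ᵥ v = 0 then 2 * (240 -
    [0, 156, 114, 162, 156, 168, 162].getD (wt6 v) 0) else [0, 156, 114, 162, 156, 168, 162].getD (wt6 v) 0) =
      729 * (480 + 4 * if x = 0 ∧ y = 0 then 4 else if x = 0 ∨ y = 0 then 0 else 2) := by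
  decide +kernel

theorem num_unit : ∀ i ∈ [0, 3], 3 * ∑ v, (if Pi.single (i : Fin 6) 1 ⬝ᵥ v = 0 then 2 * (240 -
    [0, 156, 114, 162, 156, 168, 162].getD (wt6 v) 0) else [0, 156, 114, 162, 156, 168, 162].getD (wt6 v) 0) =
      729 * (480 + 4 * 4) := by
  decide +kernel

end CfsgLib.AltSec
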