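import Mathlib
import Cfsg.Agent.Lib.AltSec.E8c

/-!
Alternating sections of the groups of type `E₈`: the roots restricted to a toral group of order `3 ^ 6`.
-/

set_option autoImplicit false

namespace CfsgLib.AltSec

open CfsgLib.RGD CfsgLib.Stein CfsgLib.Semi Finset Matrix

theorem ip_self8 (r : Fin 240) : ip Φ8 r r = 2 := by
  obtain ⟨_, w, hw, i, e, -⟩ := exists_rf Φ8 r
  rw [e, ip_apply hw, ip_simple_self, show Φ8.d i = 1 by clear e; revert i; decide +kernel, mul_one]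

theorem ip_bound8 {r s : Fin 240} (h : r ≠ s) (h' : r ≠ Φ8.neg s) : -1 ≤ ip Φ8 r s ∧ ip Φ8 r s ≤ 1 := by
  have := ip_sq_lt h h'
  rw [ip_self8, ip_self8] at this
  constructor <;> nlinarith

theorem rt_rf8 (d r : Fin 240) (j : Fin 8) : Φ8.rt (rf Φ8 d r) j = 1 * Φ8.rt r j + -ip Φ8 d r * Φ8.rt d j := by
  rw [rt_rf d r (k := ip Φ8 d r) (by rw [ip_self8])]; ring

variable (Y : Fin 6 → Fin 8 → ZMod 3)

/-- the restriction of a root -/
def uu (r : Fin 240) (i : Fin 6) : ZMod 3 := ∑ j, (Φ8.rt r j : ZMod 3) * Y i j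

theorem uu_comb {r s k : Fin 240} {a b : ℤ} (e : ∀ j, Φ8.rt k j = a * Φ8.rt r j + b * Φ8.rt s j) :
    uu Y k = a • uu Y r + b • uu Y s := funext fun i => by
  simp [uu, e, add_mul, sum_add_distrib, mul_sum, mul_assoc]

theorem uu_neg (r : Fin 240) : uu Y (Φ8.neg r) = -uu Y r := funext fun i => by simp [uu, Φ8.rt_neg]

theorem cnt_neg {M : Type*} [DecidableEq M] [InvolutiveNeg M] (f : (Fin 6 → ZMod 3) → M) (hf : ∀ v, f (-v) = -f v) (a : M) :
    #{r | f (uu Y r) = -a} = #{r | f (uu Y r) = a} :=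
  card_equiv (Function.Involutive.toPerm _ Φ8.neg_neg) fun r => by
    change _ ↔ Φ8.neg r ∈ _
    simp [uu_neg, hf, neg_eq_iff_eq_neg]

/-- the four roots with trivial restriction -/
structure AB (a b : Fin 240) : Prop where
  pa : Φ8.Pos a
  pb : Φ8.Pos b
  orth : ip Φ8 a b = 0
  mem : ∀ r, uu Y r = 0 ↔ r = a ∨ r = Φ8.neg a ∨ r = b ∨ r = Φ8.neg b

variable {Y}

theorem exists_AB (h : #{r | uu Y r = 0} = 4) : ∃ a b, AB Y a b := by
  have h1 : ∀ r, uu Y r = 0 → ∃ a, Φ8.Pos a ∧ uu Y a = 0 ∧ (r = a ∨ r = Φ8.neg a) := fun r hr =>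
    (Φ8.pos_or_neg r).elim (fun h => ⟨r, h, hr, Or.inl rfl⟩) fun h =>
      ⟨_, Φ8.pos_neg_iff.2 h, by rw [uu_neg, hr, neg_zero], Or.inr (Φ8.neg_neg r).symm⟩
  obtain ⟨r, hr⟩ := card_pos.1 (h.symm ▸ by decide : 0 < #{r | uu Y r = 0})
  obtain ⟨a, a1, a2, -⟩ := h1 r (mem_filter.1 hr).2
  obtain ⟨s, hs, h2⟩ := exists_mem_notMem_of_card_lt_card (s := {a, Φ8.neg a}) (t := {r | uu Y r = 0})
    (card_le_two.trans_lt (by rw [h]; decide))
  obtain ⟨b, b1, b2, b3⟩ := h1 s (mem_filter.1 hs).2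
  have n1 : a ≠ b := by rintro rfl; exact h2 (by simpa using b3)
  have n2 : ∀ {a b}, Φ8.Pos a → Φ8.Pos b → a ≠ Φ8.neg b := fun h h' e =>
    Φ8.not_neg_of_pos h (e ▸ Φ8.neg_neg_iff.2 h')
  have h3 : ∀ r, uu Y r = 0 ↔ r = a ∨ r = Φ8.neg a ∨ r = b ∨ r = Φ8.neg b := fun r => by
    have := eq_of_subset_of_card_le (s := {a, Φ8.neg a, b, Φ8.neg b}) (t := {r | uu Y r = 0})
      (by simp [insert_subset_iff, uu_neg, a2, b2]) (by
        rw [h, card_insert_of_notMem (by simp [n1, n2 a1 a1, n2 a1 b1]), card_insert_of_notMem (by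
          simp [(n2 b1 a1).symm, Φ8.neg_injective.eq_iff, n1]), card_pair (n2 b1 b1)])
    simpa using (Finset.ext_iff.1 this r).symm
  have h4 : ∀ c, (c = b ∨ c = Φ8.neg b) → ¬ 0 < ip Φ8 a c := fun c hc h => by
    have h5 : a ≠ c ∧ a ≠ Φ8.neg c := by
      rcases hc with rfl | rfl
      exacts [⟨n1, n2 a1 b1⟩, ⟨n2 a1 b1, (Φ8.neg_neg b).symm ▸ n1⟩]
    obtain ⟨k, hk⟩ := exists_sub h5.1 h
    have h6 := hk.ip_left a
    have h7 := hk.ip_left c
    have h8 := (ip_bound8 h5.1 h5.2).2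
    have h9 := uu_comb Y (r := c) (s := k) (a := 1) (b := 1) fun j => (hk j).trans (by ring)
    rw [a2, (h3 c).2 (Or.inr (Or.inr hc)), eq_comm, one_smul, one_smul, zero_add, h3] at h9
    rw [ip_self8, ip_comm c] at *
    rcases hc with rfl | rfl <;> rcases h9 with rfl | rfl | rfl | rfl <;>
      simp only [ip_neg_left, ip_neg_right, ip_self8] at * <;> omega
  have := h4 b (Or.inl rfl)
  have := h4 _ (Or.inr rfl)
  rw [ip_neg_right] at this
  exact ⟨a, b, a1, b1, by omega, h3⟩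

variable {a b : Fin 240} (h : AB Y a b)
include h

theorem AB.symm : AB Y b a := ⟨h.pb, h.pa, by rw [ip_comm, h.orth], fun r => by
  rw [h.mem, ← or_assoc, or_comm, or_assoc]⟩

theorem AB.ua : uu Y a = 0 := (h.mem a).2 (Or.inl rfl)

theorem AB.uu_rf (r : Fin 240) : uu Y (rf Φ8 a r) = uu Y r := by rw [uu_comb Y (rt_rf8 a r), h.ua]; simp

theorem AB.key {β : Fin 8 → Fin 240} (h0 : β 0 = a) (h1 : β 1 = b) 
    (h2 : ∀ i : Fin 6, uu Y (β (Fin.natAdd 2 i)) = Pi.single i 1) :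
    (of fun l => Φ8.rt (β l)).det ≠ 0 ∧ ∀ v : Fin 8 → ℤ, (∀ i, ∑ j, (v j : ZMod 3) * Y i j = 0) →
      Φ8.form v (Φ8.rt a) = 0 → Φ8.form v (Φ8.rt b) = 0 → ∀ j, 3 ∣ v j := by
  let M := (of fun l => Φ8.rt (β l)).map (Int.castRingHom (ZMod 3))
  have e0 : ∀ (c f : Fin 8 → ZMod 3), ∑ j, (c ᵥ* M) j * f j = ∑ l, c l * ∑ j, (Φ8.rt (β l) j : ZMod 3) * f j := fun c f => by
    simp only [vecMul, dotProduct, sum_mul, mul_sum, mul_assoc]
    exact sum_comm
  have e1 : ∀ c : Fin 8 → ZMod 3, (∀ i, ∑ j, (c ᵥ* M) j * Y i j = 0) →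
      (∀ d ∈ [a, b], ∑ j, (c ᵥ* M) j * (Φ8.d j * Φ8.wt j d : ℤ) = 0) → c = 0 := fun c c1 c2 => by
    have c3 : ∀ i : Fin 6, c (Fin.natAdd 2 i) = 0 := fun i => by
      have := c1 i
      rw [e0, Fin.sum_univ_add (a := 2) (b := 6), Fin.sum_univ_two] at this
      change c 0 * uu Y (β 0) i + c 1 * uu Y (β 1) i + ∑ l, c _ * uu Y (β _) i = 0 at this
      simpa [h0, h1, h.ua, h.symm.ua, h2, Pi.single_apply] using this
    have c4 : ∀ d ∈ [a, b], c 0 * ip Φ8 a d + c 1 * ip Φ8 b d = 0 := fun d hd => by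
      have := c2 d hd
      rw [e0, Fin.sum_univ_add (a := 2) (b := 6), Fin.sum_univ_two] at this
      simp only [c3, zero_mul, sum_const_zero, add_zero] at this
      simpa [ip_eq_sum, ← h0, ← h1] using this
    have c5 := c4 a (by simp)
    have c6 := c4 b (by simp)
    rw [ip_self8, ip_comm b, h.orth] at *
    have c7 : ∀ x : ZMod 3, x * 2 = 0 → x = 0 := by decide
    exact funext (Fin.addCases (m := 2) (n := 6) (Fin.forall_fin_two.2
      ⟨c7 (c 0) (by simpa using c5), c7 (c 1) (by simpa using c6)⟩) c3)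
  have e2 : Function.Injective fun c => c ᵥ* M := (injective_iff_map_eq_zero M.vecMulLinear).2 fun c hc =>
    e1 c (fun i => by simp [show c ᵥ* M = 0 from hc]) fun d _ => by simp [show c ᵥ* M = 0 from hc]
  refine ⟨fun e => ((isUnit_iff_isUnit_det _).1 (vecMul_injective_iff_isUnit.1 e2)).ne_zero
    ((RingHom.map_det _ _).symm.trans (by rw [e, map_zero])), fun v v1 v2 v3 j => ?_⟩
  obtain ⟨c, hc⟩ := Finite.injective_iff_surjective.1 e2 fun j => v j
  have := e1 c (fun i => by simpa only [hc] using v1 i) fun d hd => by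
    have : Φ8.form v (Φ8.rt d) = 0 := by simp only [List.mem_cons, List.not_mem_nil, or_false] at hd; rcases hd with rfl | rfl <;> assumption
    simpa [hc, RootSys.form, RootSys.wt] using congrArg (Int.cast (R := ZMod 3)) this
  exact (ZMod.intCast_zmod_eq_zero_iff_dvd _ 3).1 (by simpa [this] using (congrFun hc j).symm)

theorem AB.pair (hk : ∀ v : Fin 8 → ℤ, (∀ i, ∑ j, (v j : ZMod 3) * Y i j = 0) →
      Φ8.form v (Φ8.rt a) = 0 → Φ8.form v (Φ8.rt b) = 0 → ∀ j, 3 ∣ v j) {r s : Fin 240} (h1 : r ≠ s)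
    (h2 : uu Y s = uu Y r) (h3 : ∀ k, uu Y k = uu Y r → k = r ∨ k = s) : s = rf Φ8 a r ∨ s = rf Φ8 b r := by
  have e0 : ∀ u u' v : Fin 8 → ℤ, Φ8.form (fun j => u j - u' j) v = Φ8.form u v - Φ8.form u' v := fun u u' v => by
    simp [RootSys.form, sub_mul]
  have e1 : ∀ d k, rf Φ8 d k = k → ip Φ8 k d = 0 := fun d k e => by
    have := ip_comb (rt_rf8 d k) d
    rw [e, ip_self8, ip_comm d] at this
    omega
  have e2 : ∀ d, (∀ k, uu Y (rf Φ8 d k) = uu Y k) → s ≠ rf Φ8 d r →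
      Φ8.form (fun j => Φ8.rt r j - Φ8.rt s j) (Φ8.rt d) = 0 := fun d hd e => by
    have e3 := (h3 _ (hd r)).resolve_right e.symm
    have e4 := (h3 _ ((hd s).trans h2)).resolve_left fun e4 => h1 ((rf Φ8 d).injective (e3.trans e4.symm))
    exact (e0 _ _ _).trans (sub_eq_zero.2 ((e1 d r e3).trans (e1 d s e4).symm))
  by_contra e
  have e5 := hk _ (fun i => by simpa [sub_mul, sub_eq_zero, uu] using (congrFun h2 i).symm)
    (e2 a h.uu_rf fun k => e (Or.inl k)) (e2 b h.symm.uu_rf fun k => e (Or.inr k))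
  have e6 : 3 * 3 ∣ Φ8.form (fun j => Φ8.rt r j - Φ8.rt s j) fun j => Φ8.rt r j - Φ8.rt s j :=
    dvd_sum fun i _ => mul_dvd_mul (e5 i) ((dvd_sum fun k _ => (e5 k).mul_left _).mul_left _)
  rw [e0, Φ8.form_comm, e0, Φ8.form_comm (Φ8.rt s) fun _ => _ - _, e0] at e6
  change _ ∣ ip Φ8 r r - ip Φ8 s r - (ip Φ8 r s - ip Φ8 s s) at e6
  rw [ip_self8, ip_self8, ip_comm s] at e6
  by_cases e7 : r = Φ8.neg s
  · rw [e7, ip_neg_left, ip_self8] at e6
    omega
  · have := ip_bound8 h1 e7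
    omega

omit h in
theorem cnt_eq (hN : ∀ v, #{r | uu Y r ⬝ᵥ v ≠ 0} = [0, 156, 114, 162, 156, 168, 162].getD (wt6 v) 0)
    {χ : Fin 6 → ZMod 3} {k : ℕ} (e : 3 * ∑ v, (if χ ⬝ᵥ v = 0 then 2 * (240 -
      [0, 156, 114, 162, 156, 168, 162].getD (wt6 v) 0) else [0, 156, 114, 162, 156, 168, 162].getD (wt6 v) 0) =
      729 * (480 + 4 * k)) : #{r | uu Y r = χ} = k := by
  have h1 := count3 (uu Y) χ (f := fun k => [0, 156, 114, 162, 156, 168, 162].getD k 0) hN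
  have h2 : #{r | uu Y r = -χ} = #{r | uu Y r = χ} := cnt_neg Y id (fun _ => rfl) χ
  rw [Fintype.card_fin, e, h2] at h1
  omega

omit h in
theorem cnt_zero (hN : ∀ v, #{r | uu Y r ⬝ᵥ v ≠ 0} = [0, 156, 114, 162, 156, 168, 162].getD (wt6 v) 0) :
    #{r | uu Y r = 0} = 4 := by
  have h : ∀ x : ZMod 3, x = 0 → #{r | uu Y r = ![x, x, x, x, x, x]} = 4 := fun x hx =>
    (cnt_eq hN (num_blk x x)).trans (if_pos ⟨hx, hx⟩)
  rw [show (0 : Fin 6 → ZMod 3) = ![0, 0, 0, 0, 0, 0] by decide]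
  exact h 0 rfl

theorem AB.trace (hN : ∀ v, #{r | uu Y r ⬝ᵥ v ≠ 0} = [0, 156, 114, 162, 156, 168, 162].getD (wt6 v) 0)
    {w : Equiv.Perm (Fin 240)} (hw : w ∈ Φ8.W) (w3 : ∀ r, w (w (w r)) = r) (wa : w a = a) (wb : w b = b)
    (hu : ∀ r, uu Y (w r) = uu Y r ∘ ![2, 0, 1, 5, 3, 4]) {K : Type*} [Field K] (h3 : (3 : K) ≠ 0) {l : Fin 240 → K}
    (l1 : ∀ s, l s * l (Φ8.neg s) = 1) (l2 : ∀ s, w s = s → l s ^ 3 = 1) (la : l a = 1) (lb : l b = 1)
    (l3 : ∀ s, w s = s → l (rf Φ8 a s) = l s ∧ l (rf Φ8 b s) = l s) :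
    ((∑ i, Φ8.rt (w (Φ8.simple i)) i : ℤ) : K) + ∑ s, (if w s = s then l s else 0) ≠ 5 := by
  obtain ⟨ρ, hρ⟩ := card_pos.1 ((cnt_eq hN (num_unit 0 (by decide))).symm ▸ by decide : 0 < #{r | uu Y r = Pi.single 0 1})
  obtain ⟨σ, hσ⟩ := card_pos.1 ((cnt_eq hN (num_unit 3 (by decide))).symm ▸ by decide : 0 < #{r | uu Y r = Pi.single 3 1})
  let β : Fin 8 → Fin 240 := ![a, b, ρ, w ρ, w (w ρ), σ, w σ, w (w σ)]
  obtain ⟨k1, k2⟩ := h.key (β := β) rfl rfl fun i => by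
    fin_cases i <;> simp [β, hu, (mem_filter.1 hρ).2, (mem_filter.1 hσ).2] <;> decide
  have t1 : ∑ i, Φ8.rt (w (Φ8.simple i)) i = 2 := by
    let P : Fin 8 → Fin 8 := ![0, 1, 3, 4, 2, 6, 7, 5]
    have e1 : ∀ i, w (β i) = β (P i) := fun i => by fin_cases i <;> simp [β, P, wa, wb, w3]
    generalize hM : (of fun l => Φ8.rt (β l)) = M at k1
    have e2 : M * (of fun i => Φ8.rt (w (Φ8.simple i))) = of fun i => M (P i) := by
      ext i j
      rw [← hM]
      exact (Φ8.rt_apply_eq_sum hw (β i) j).symm.trans (congrArg (Φ8.rt · j) (e1 i))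
    have e3 := congrArg (fun A => (M.adjugate * A).trace) e2
    rw [← Matrix.mul_assoc, adjugate_mul, smul_mul, Matrix.one_mul, trace_smul, trace_mul_comm] at e3
    refine mul_left_cancel₀ k1 (e3.trans ((sum_congr rfl fun i _ => congrFun₂ M.mul_adjugate (P i) i).trans ?_))
    simp [Fin.sum_univ_eight, P, mul_two, one_apply]
  have t2 : ∀ r, #{s | uu Y s = uu Y r} = 2 → uu Y r ∘ ![2, 0, 1, 5, 3, 4] = uu Y r →
      w r = r ∧ ∑ s ∈ {s | w s = s} with uu Y s = uu Y r, l s = 2 * l r := fun r e1 e2 => by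
    obtain ⟨s, e3, e4⟩ : ∃ s, r ≠ s ∧ ∀ k, uu Y k = uu Y r ↔ k = r ∨ k = s := by
      obtain ⟨x, y, e3, e4⟩ := card_eq_two.1 e1
      have e5 : ∀ k, uu Y k = uu Y r ↔ k = x ∨ k = y := fun k => by simpa using Finset.ext_iff.1 e4 k
      rcases (e5 r).1 rfl with rfl | rfl
      exacts [⟨y, e3, e5⟩, ⟨x, e3.symm, fun k => (e5 k).trans or_comm⟩]
    have e5 : ∀ k, uu Y k = uu Y r → w k = k := fun k e => by
      have e6 := (e4 (w k)).1 (by rw [hu, e, e2])
      have e7 := (e4 (w (w k))).1 (by rw [hu, hu, e, e2, e2])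
      have e8 := w3 k
      have := (e4 k).1 e
      have := w.injective (a₁ := w k) (a₂ := k)
      grind
    rw [show ({s | w s = s} : Finset _).filter (uu Y · = uu Y r) = {r, s} from Finset.ext fun k => by
      simpa [← e4] using e5 k, sum_pair e3, two_mul]
    refine ⟨e5 r rfl, congrArg _ ?_⟩
    rcases h.pair k2 e3 ((e4 s).2 (Or.inr rfl)) fun k => (e4 k).1 with rfl | rfl
    exacts [(l3 r (e5 r rfl)).1, (l3 r (e5 r rfl)).2]
  have t3 : ∀ x y : ZMod 3, x ≠ 0 → y ≠ 0 → ∃ c, (c = 4 ∨ c = -2) ∧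
      ∑ s ∈ {s | w s = s} with uu Y s = ![x, x, x, y, y, y], l s +
        ∑ s ∈ {s | w s = s} with uu Y s = -![x, x, x, y, y, y], l s = c := fun x y hx hy => by
    have e1 := cnt_eq hN (num_blk x y)
    rw [if_neg (by simp [hx]), if_neg (by simp [hx, hy])] at e1
    obtain ⟨r, hr⟩ := card_pos.1 (e1.symm ▸ two_pos : 0 < #{r | uu Y r = ![x, x, x, y, y, y]})
    replace hr := (mem_filter.1 hr).2
    have e2 : uu Y r ∘ ![2, 0, 1, 5, 3, 4] = uu Y r := by rw [hr]; ext i; fin_cases i <;> rfl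
    obtain ⟨e3, e4⟩ := t2 r (hr ▸ e1) e2
    have e5 := (t2 (Φ8.neg r) (by rw [uu_neg, ← e1, ← hr]; exact cnt_neg Y id (fun _ => rfl) _)
      (by rw [uu_neg, Pi.neg_comp, e2])).2
    refine ⟨_, ?_, by rw [← hr, e4, ← uu_neg, e5]⟩
    have e6 : l (Φ8.neg r) = l r ^ 2 := by linear_combination l r ^ 2 * l1 r - l (Φ8.neg r) * l2 r e3
    rcases mul_eq_zero.1 (show (l r - 1) * (l r ^ 2 + l r + 1) = 0 by linear_combination l2 r e3) with e | e
    · exact Or.inl (by rw [e6, sub_eq_zero.1 e]; norm_num)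
    · exact Or.inr (by linear_combination 2 * e6 + 2 * e)
  have t4 : ∑ s ∈ {s | w s = s} with uu Y s = 0, l s = 4 := by
    have e1 : ∀ s, uu Y s = 0 → w s = s ∧ l s = 1 := fun s e => by
      have := l1 a
      have := l1 b
      rcases (h.mem s).1 e with rfl | rfl | rfl | rfl <;> simp_all [Φ8.apply_neg hw]
    rw [show ({s | w s = s} : Finset _).filter (uu Y · = 0) = univ.filter (uu Y · = 0) from Finset.ext fun k => by
      simpa using fun e => (e1 k e).1, sum_congr rfl fun s hs => (e1 s (mem_filter.1 hs).2).2, sum_const,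
      cnt_zero hN, nsmul_one, Nat.cast_ofNat]
  obtain ⟨c, c1, c2⟩ := t3 1 1 one_ne_zero one_ne_zero
  obtain ⟨d, d1, d2⟩ := t3 1 2 one_ne_zero (by decide)
  rw [t1, ← sum_filter, ← sum_fiberwise_of_maps_to (g := uu Y)
    (t := {0, ![1, 1, 1, 1, 1, 1], -![1, 1, 1, 1, 1, 1], ![1, 1, 1, 2, 2, 2], -![1, 1, 1, 2, 2, 2]}) fun s hs => by
      have e1 := hu s
      rw [(mem_filter.1 hs).2] at e1
      have e2 : uu Y s = ![uu Y s 0, uu Y s 0, uu Y s 0, uu Y s 3, uu Y s 3, uu Y s 3] := by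
        ext i
        fin_cases i
        exacts [rfl, congrFun e1 1, (congrFun e1 0).symm, rfl, congrFun e1 4, (congrFun e1 3).symm]
      generalize uu Y s 0 = x, uu Y s 3 = y at e2
      have e3 : 0 < #{r | uu Y r = ![x, x, x, y, y, y]} := card_pos.2 ⟨s, mem_filter.2 ⟨mem_univ s, e2⟩⟩
      rw [cnt_eq hN (num_blk _ _)] at e3
      rw [e2]
      clear e2
      revert x y
      decide, sum_insert (by decide), sum_insert (by decide), sum_insert (by decide), sum_pair (by decide), t4,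
    d2, ← add_assoc _ _ d, c2]
  rcases c1 with rfl | rfl <;> rcases d1 with rfl | rfl <;> refine fun e => h3 ?_
  · exact pow_eq_zero_iff two_ne_zero |>.1 (by push_cast at e; linear_combination e)
  all_goals push_cast at e
  exacts [by linear_combination e, by linear_combination e, by linear_combination -e]

end CfsgLib.AltSec
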