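import Mathlib
import Cfsg.Agent.Lib.AltSec.E8d

/-!
Alternating sections of the groups of type `E₈`: lifting elements of order three.
-/

set_option autoImplicit false

namespace CfsgLib.AltSec

open Subgroup CfsgLib.LS Finset Matrix Multiplicative Module Equiv Equiv.Perm
open scoped MatrixGroups

theorem sl2_three {K : Type*} [Field K] (h3 : (3 : K) ≠ 0) {A B : SL(2, K)} (hA : A ^ 3 = 1) (hB : B ^ 3 = 1)
    (h : Commute A B) : A = 1 ∨ B = 1 ∨ A * B = 1 ∨ A * B⁻¹ = 1 := by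
  have h1 : ∀ A : SL(2, K), A ^ 3 = 1 → A ≠ 1 → A.1 0 0 + A.1 1 1 + 1 = 0 := fun A h h' => by_contra fun e => h' (by
    have d := A.2
    have k := fun i j => congrFun₂ (congrArg Subtype.val h) i j
    have k1 := k 0 0
    have k2 := k 0 1
    have k3 := k 1 0
    have k4 := k 1 1
    rw [det_fin_two] at d
    simp [pow_succ, Matrix.mul_apply] at k1 k2 k3 k4
    replace k1 : (A.1 0 0 + A.1 1 1 - 1) * A.1 0 0 = 1 := sub_eq_zero.1 ((mul_eq_zero.1 (by
      linear_combination k1 + (2 * A.1 0 0 + A.1 1 1) * d)).resolve_left e)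
    replace k4 : (A.1 0 0 + A.1 1 1 - 1) * A.1 1 1 = 1 := sub_eq_zero.1 ((mul_eq_zero.1 (by
      linear_combination k4 + (2 * A.1 1 1 + A.1 0 0) * d)).resolve_left e)
    have k5 := left_ne_zero_of_mul_eq_one k1
    replace k2 : A.1 0 1 = 0 := (mul_eq_zero.1 ((mul_eq_zero.1 (by
      linear_combination k2 + A.1 0 1 * d)).resolve_left e)).resolve_left k5
    replace k3 : A.1 1 0 = 0 := (mul_eq_zero.1 ((mul_eq_zero.1 (by
      linear_combination k3 + A.1 1 0 * d)).resolve_left e)).resolve_left k5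
    have k6 := mul_left_cancel₀ k5 (k4.trans k1.symm)
    rw [k6, k2] at d
    rw [k6] at k1
    have k7 : A.1 0 0 = 1 := by linear_combination 2 * d - k1
    ext i j
    fin_cases i <;> fin_cases j <;> simp [k2, k3, k6, k7])
  by_contra e
  push Not at e
  have a1 := h1 A hA e.1
  have a2 := h1 B hB e.2.1
  have a3 := h1 _ (by rw [h.mul_pow, hA, hB, mul_one]) e.2.2.1
  have a4 := h1 _ (by rw [h.inv_right.mul_pow, hA, inv_pow, hB, inv_one, mul_one]) e.2.2.2
  simp [Matrix.mul_apply, adjugate_fin_two] at a3 a4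
  exact h3 (by linear_combination a3 + a4 - (B.1 0 0 + B.1 1 1) * a1 + a2)

theorem psl2_three {K : Type*} [Field K] (h3 : (3 : K) ≠ 0) (x y : SL(2, K) ⧸ center SL(2, K)) (hx : x ^ 3 = 1)
    (hy : y ^ 3 = 1) (h : Commute x y) : x = 1 ∨ y = 1 ∨ x * y = 1 ∨ x * y⁻¹ = 1 := by
  have h1 : ∀ z ∈ center SL(2, K), z * z = 1 := fun z hz => by
    obtain ⟨r, h1, h2⟩ := Matrix.SpecialLinearGroup.mem_center_iff.1 hz
    exact Subtype.ext (by rw [Matrix.SpecialLinearGroup.coe_mul, ← h2, ← map_mul, ← sq, show r ^ 2 = 1 from h1, map_one]; rfl)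
  obtain ⟨A, rfl⟩ := QuotientGroup.mk'_surjective _ x
  obtain ⟨B, rfl⟩ := QuotientGroup.mk'_surjective _ y
  have h2 : ∀ A : SL(2, K), QuotientGroup.mk' (center _) A ^ 3 = 1 → (A ^ 4) ^ 3 = 1 ∧
      QuotientGroup.mk' (center _) (A ^ 4) = QuotientGroup.mk' (center _) A := fun A h => ⟨by
    have := h1 _ ((QuotientGroup.eq_one_iff _).1 h)
    rw [← pow_mul, show 4 * 3 = (3 + 3) * 2 from rfl, pow_mul, pow_add, this, one_pow],
    by rw [map_pow, pow_succ, h, one_mul]⟩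
  have h4 : A * B * A⁻¹ * B⁻¹ ∈ center _ := (QuotientGroup.eq_one_iff _).1 (commutatorElement_eq_one_iff_commute.2 h)
  have h5 : Commute (A ^ 2) B := by
    have h6 := mem_center_iff.1 h4 A
    have h7 := h1 _ h4
    generalize hz : A * B * A⁻¹ * B⁻¹ = z at h6 h7
    have h8 : A * B = z * B * A := by rw [← hz]; group
    rw [Commute, SemiconjBy, sq, mul_assoc, h8, ← mul_assoc, ← mul_assoc, h6, mul_assoc z, h8, ← mul_assoc, ← mul_assoc,
      h7, one_mul, mul_assoc]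
  have := sl2_three h3 (h2 A hx).1 (h2 B hy).1 (by simpa only [← pow_mul] using h5.pow_pow 2 4)
  rw [← (h2 A hx).2, ← (h2 B hy).2, ← map_inv, ← map_mul, ← map_mul]
  rcases this with e | e | e | e <;> simp [e]

section Lift

variable {X Y : Type*} [Group X] [Finite X] [Group Y] (π : X →* Y) {m : ℕ} (hm : ¬ 3 ∣ m)
  (hk : ∀ x, π x = 1 → x ^ m = 1)
include hm hk

omit [Finite X] in
theorem eq_of_pgroup {Q : Subgroup X} (hQ : IsPGroup 3 Q) {a b : X} (ha : a ∈ Q) (hb : b ∈ Q) (e : π a = π b) :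
    a = b := by
  obtain ⟨k, h⟩ := hQ ⟨_, mul_mem ha (inv_mem hb)⟩
  exact mul_inv_eq_one.1 (orderOf_eq_one_iff.1 (Nat.eq_one_of_dvd_coprimes
    (((Nat.Prime.coprime_iff_not_dvd Nat.prime_three).2 hm).pow_left k) (orderOf_dvd_of_pow_eq_one
      (congrArg Subtype.val h)) (orderOf_dvd_of_pow_eq_one (hk _ (by simp [e])))))

variable (hπ : Function.Surjective π)
include hπ

theorem isConj_lift {x y : X} (hx : x ^ 3 = 1) (hy : y ^ 3 = 1) (h : IsConj (π x) (π y)) : IsConj x y := by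
  obtain ⟨c, hc⟩ := isConj_iff.1 h
  obtain ⟨c, rfl⟩ := hπ c
  let M := (zpowers (π y)).comap π
  let x' : M := ⟨c * x * c⁻¹, by simp [M, hc]⟩
  let y' : M := ⟨y, by simp [M]⟩
  obtain ⟨P, hP⟩ := (isPGroup_zpowers (a := x') (l := 3) (Subtype.ext (by simp [x', conj_pow, hx]))).exists_le_sylow
  obtain ⟨Q, hQ⟩ := (isPGroup_zpowers (a := y') (l := 3) (Subtype.ext hy)).exists_le_sylow
  obtain ⟨g, rfl⟩ := MulAction.exists_smul_eq M P Q
  obtain ⟨k, e⟩ := mem_zpowers_iff.1 g.2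
  have := eq_of_pgroup (π.comp M.subtype) hm (fun x h => Subtype.ext (hk x h)) (g • P).2
    (smul_mem_pointwise_smul _ (MulAut.conj g) _ (hP (mem_zpowers _))) (hQ (mem_zpowers _)) (by
      simp [x', y', hc, ← e, ((Commute.refl (π y)).zpow_left k).eq])
  exact isConj_iff.2 ⟨g * c, by simpa [x', y', mul_assoc] using congrArg Subtype.val this⟩

theorem exists_sect3 {E : Type*} [Group E] (hE : ∀ e : E, e ^ 3 = 1) (τ : E →* Y) : ∃ σ : E →* X,
    (∀ e, π (σ e) = τ e) ∧ ∀ b ∈ normalizer (τ.range : Set Y), ∃ g ∈ normalizer (σ.range : Set X), π g = b := by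
  obtain ⟨Q, h1, h2, h4⟩ := exists_lift (p := 3) π hπ (E := τ.range) (by
    rintro ⟨_, e, rfl⟩
    exact ⟨1, Subtype.ext (by simp [← map_pow, hE])⟩)
  let ρ : Q →* τ.range := (π.comp Q.subtype).codRestrict _ fun x => h2 ▸ mem_map_of_mem π x.2
  have h3 : Function.Bijective ρ := ⟨fun x y e => Subtype.ext (eq_of_pgroup π hm hk h1 x.2 y.2
    (congrArg Subtype.val e)), fun y => by
    obtain ⟨x, hx, e⟩ : y.1 ∈ Q.map π := h2.ge y.2
    exact ⟨⟨x, hx⟩, Subtype.ext e⟩⟩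
  refine ⟨Q.subtype.comp ((MulEquiv.ofBijective ρ h3).symm.toMonoidHom.comp τ.rangeRestrict), fun e =>
    congrArg Subtype.val ((MulEquiv.ofBijective ρ h3).apply_symm_apply (τ.rangeRestrict e)), ?_⟩
  rwa [MonoidHom.range_comp, (MonoidHom.range_eq_top (f := MonoidHom.comp _ _)).2
    ((MulEquiv.ofBijective ρ h3).symm.surjective.comp τ.rangeRestrict_surjective), ← Q.subtype.range_eq_map, range_subtype]

end Lift

/-- a Sylow subgroup of `A₆` -/
def tau9 : Multiplicative (ZMod 3 × ZMod 3) →* alternatingGroup (Fin 6) := MonoidHom.mk' (fun v =>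
  ev [(0, 2), (0, 1)] (by decide +kernel) ^ v.toAdd.1.val * ev [(3, 5), (3, 4)] (by decide +kernel) ^ v.toAdd.2.val)
  (by decide +kernel)

theorem exists_cent {H Y P : Type*} [Group H] [Finite H] [Group Y] [Group P] (π : H →* Y) {m : ℕ} (hm : ¬ 3 ∣ m)
    (hk : ∀ x, π x = 1 → x ^ m = 1) (β : alternatingGroup (Fin 6) →* Y) {Q Z : Subgroup H}
    (hQ : ∀ s, ∃ g ∈ Q, π g = β s) (hZ : ∀ g ∈ Q, g ^ 4 ∈ Z) (f g : Z →* P)
    (hP : ∀ x y : P, x ^ 3 = 1 → y ^ 3 = 1 → Commute x y → x = 1 ∨ y = 1 ∨ x * y = 1 ∨ x * y⁻¹ = 1) :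
    ∃ y : Z, y.1 ∈ Q ∧ f y = 1 ∧ g y = 1 ∧ y ^ 3 = 1 ∧ π y = β (tau9 (ofAdd (1, 1))) := by
  have := alternatingGroup.isSimpleGroup (α := Fin 6) (by simp)
  let M : Subgroup (Z × alternatingGroup (Fin 6)) := (π.comp (Z.subtype.comp (MonoidHom.fst _ _))).eqLocus
    (β.comp (MonoidHom.snd _ _)) ⊓ Q.comap (Z.subtype.comp (MonoidHom.fst _ _))
  let φ := (MonoidHom.snd _ _).comp M.subtype
  let ψ := (MonoidHom.fst _ _).comp M.subtype
  have h1 : Function.Surjective φ := MonoidHom.range_eq_top.1 (top_unique (((normalClosure_normal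
      (s := Set.range (· ^ 4))).eq_bot_or_eq_top.resolve_left fun e => absurd (mem_bot.1 (e.le (subset_normalClosure
        ⟨tau9 (ofAdd (1, 1)), rfl⟩))) (by decide +kernel)).ge.trans ((closure_le _).2 fun x hx => by
    obtain ⟨_, ⟨s, rfl⟩, e⟩ := Group.mem_conjugatesOfSet_iff.1 hx
    obtain ⟨c, rfl⟩ := isConj_iff.1 e
    obtain ⟨g, g1, g2⟩ := hQ (c * s * c⁻¹)
    exact ⟨⟨(⟨_, hZ g g1⟩, (c * s * c⁻¹) ^ 4), (map_pow π g 4).trans (g2 ▸ (map_pow β _ 4).symm),
      pow_mem g1 4⟩, conj_pow⟩)))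
  have h2 : ∀ x, φ x = 1 → x ^ m = 1 := fun x h => Subtype.ext (Prod.ext (Subtype.ext
    (hk _ (x.2.1.trans ((congrArg β h).trans β.map_one)))) ((congrArg (· ^ m) h).trans (one_pow m)))
  have h3 : ∀ v : Multiplicative (ZMod 3 × ZMod 3), v ^ 3 = 1 := by decide
  obtain ⟨σ, hσ, -⟩ := exists_sect3 φ hm h2 h1 h3 tau9
  have h4 : ∀ f : Z →* P, (f.comp ψ).ker.map φ = ⊤ := fun f =>
    ((f.comp ψ).normal_ker.map φ h1).eq_bot_or_eq_top.resolve_left fun e => by
      have h5 : ∀ v, ((f.comp ψ).comp σ) v = 1 → tau9 v = 1 := fun v h => hσ v ▸ e.le (mem_map_of_mem φ h)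
      have := hP _ _ (by rw [← map_pow, h3, map_one]) (by rw [← map_pow, h3, map_one])
        ((Commute.all (ofAdd (1, 0)) (ofAdd (0, 1))).map ((f.comp ψ).comp σ))
      simp only [← map_inv, ← map_mul ((f.comp ψ).comp σ)] at this
      rcases this with e | e | e | e <;> exact absurd (h5 _ e) (by decide +kernel)
  obtain ⟨y, ⟨y1, y2⟩, y3⟩ : tau9 (ofAdd (1, 1)) ∈ _ := map_mono (f := φ)
    (commutator_le_inf (f.comp ψ).ker (g.comp ψ).ker) (by
    rw [map_commutator, h4, h4, ← commutator_def, commutator_alternatingGroup_eq_top (by simp)]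
    exact mem_top _)
  have h5 : φ y ^ 3 = 1 := by rw [y3, ← map_pow, h3, map_one]
  refine ⟨ψ (y ^ (m * m)), (y ^ (m * m)).2.2, pow_mem y1 _, pow_mem y2 _, by
    rw [← map_pow, ← pow_mul, mul_comm, pow_mul, pow_mul, h2 (y ^ 3) (by rw [map_pow, h5]), one_pow, map_one],
    (y ^ (m * m)).2.1.trans (congrArg β ?_)⟩
  change φ (y ^ (m * m)) = _
  rw [map_pow, ← y3, pow_eq_pow_of_modEq (show m * m ≡ 1 [MOD 3] by
    rw [Nat.ModEq, Nat.mul_mod]; have : m % 3 = 1 ∨ m % 3 = 2 := by omega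
    rcases this with e | e <;> rw [e]) h5, pow_one]

/-- the block permutations -/
def blkA : alternatingGroup (Fin 6) →* alternatingGroup (Fin 6 × ZMod 3) :=
  MonoidHom.mk' (fun s => ⟨prodCongrLeft fun _ => s.1, by
    rw [mem_alternatingGroup, sign_prodCongrLeft, mem_alternatingGroup.1 s.2, prod_const_one]⟩) fun _ _ => rfl

theorem blkA_conj (s : alternatingGroup (Fin 6)) (v : Multiplicative (Fin 6 → ZMod 3)) :
    blkA s * trA 6 (by decide) v * (blkA s)⁻¹ = trA 6 (by decide) (ofAdd (v.toAdd ∘ s⁻¹.1)) := by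
  rw [mul_inv_eq_iff_eq_mul]
  refine Subtype.ext (Equiv.ext fun x => ?_)
  change (s.1 x.1, x.2 + v.toAdd x.1) = (s.1 x.1, x.2 + v.toAdd (s.1⁻¹ (s.1 x.1)))
  simp

theorem card_support_trA (v : Multiplicative (Fin 6 → ZMod 3)) : #(trA 6 (by decide) v).1.support = 3 * wt6 v.toAdd := by
  rw [show (trA 6 (by decide) v).1.support = ({i | v.toAdd i ≠ 0} : Finset _) ×ˢ univ from Finset.ext fun x => by
    simp [trA, trP, prodCongrRight, Prod.ext_iff], card_product, mul_comm]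
  rfl

theorem isConj_three {a b : alternatingGroup (Fin 6 × ZMod 3)} (ha : a ^ 3 = 1) (hb : b ^ 3 = 1)
    (h : #a.1.support = #b.1.support) : IsConj a b := by
  have h1 : ∀ {a : alternatingGroup (Fin 6 × ZMod 3)}, a ^ 3 = 1 → ∃ n, a.1.cycleType = Multiset.replicate n 3 ∧
      #a.1.support = n * 3 := fun ha => by
    have h1 := cycleType_of_pow_prime_eq_one (p := 3) (congrArg Subtype.val ha)
    exact ⟨_, h1, by rw [← sum_cycleType, h1, Multiset.sum_replicate]; simp⟩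
  have h2 : ∀ {a b : alternatingGroup (Fin 6 × ZMod 3)}, a ^ 3 = 1 → b ^ 3 = 1 → #a.1.support = #b.1.support →
      IsConj a.1 b.1 := fun ha hb h => by
    obtain ⟨n, n1, n2⟩ := h1 ha
    obtain ⟨m, m1, m2⟩ := h1 hb
    exact isConj_of_cycleType_eq (by rw [n1, m1, show n = m by omega])
  by_cases h3 : #a.1.support ≤ 16
  · exact alternatingGroup.isConj_of (h2 ha hb h) (by simpa using h3)
  have h4 : ∀ {a : alternatingGroup (Fin 6 × ZMod 3)}, a ^ 3 = 1 → ¬ #a.1.support ≤ 16 →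
      IsConj (trA 6 (by decide) (ofAdd 1)) a := fun {a} ha h => by
    obtain ⟨n, -, n2⟩ := h1 ha
    have := card_le_univ a.1.support
    obtain ⟨g, hg⟩ := isConj_iff.1 (h2 (a := trA 6 (by decide) (ofAdd 1)) (by decide +kernel) ha (by
      rw [card_support_trA, show wt6 _ = 6 by decide]; simp at this; omega))
    rcases Int.units_eq_one_or (sign g) with e | e
    · exact isConj_iff.2 ⟨⟨g, e⟩, Subtype.ext hg⟩
    · refine isConj_iff.2 ⟨⟨g * prodCongrLeft fun _ => swap 0 1, by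
        rw [mem_alternatingGroup, map_mul, e, sign_prodCongrLeft]; decide⟩, Subtype.ext (Eq.trans ?_ hg)⟩
      ext1 x
      simp [trA, trP, prodCongrRight, prodCongrLeft]
  exact (h4 ha h3).symm.trans (h4 hb (h ▸ h3))

theorem exists_eps3 {K : Type*} [Field K] {ω : Kˣ} (h : orderOf ω = 3) : ∃ ε : Multiplicative (ZMod 3) →* Kˣ,
    Function.Injective ε ∧ (∀ x : Kˣ, x ^ 3 = 1 → ∃ t, ε t = x) ∧ ∀ z : ℤ, ε (ofAdd (z : ZMod 3)) = ω ^ z := by
  have h1 : IsPrimitiveRoot ω 3 := h ▸ IsPrimitiveRoot.orderOf ω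
  let e := AddEquiv.toMultiplicativeLeft h1.zmodEquivZPowers
  refine ⟨(zpowers ω).subtype.comp e.toMonoidHom, (zpowers ω).subtype_injective.comp e.injective, fun x hx => ?_,
    fun z => congrArg (fun x : Additive (zpowers ω) => x.toMul.1) (h1.zmodEquivZPowers_apply_coe_int z)⟩
  have : x ∈ zpowers ω := h1.zpowers_eq ▸ (mem_rootsOfUnity _ _).2 hx
  exact ⟨e.symm ⟨x, this⟩, by simp⟩

theorem rank_conj {I K : Type*} [Fintype I] [DecidableEq I] [Field K] {x y : GL I K} (h : IsConj x y) :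
    (x.1 - 1).rank = (y.1 - 1).rank ∧ x.1.trace = y.1.trace := by
  obtain ⟨g, rfl⟩ := isConj_iff.1 h
  refine ⟨?_, by rw [Units.val_mul, Units.val_mul, trace_mul_cycle, Units.inv_mul, Matrix.one_mul]⟩
  rw [← rank_mul_eq_right_of_isUnit_det g.1 _ (isUnits_det_units g), ← rank_mul_eq_left_of_isUnit_det (g⁻¹).1 _
    (isUnits_det_units _), mul_sub, sub_mul, mul_one, Units.mul_inv]
  rfl

theorem exists_code3 {I K : Type*} [Fintype I] [DecidableEq I] [Field K] [IsAlgClosed K] {n : ℕ} (hI : Fintype.card I = n)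
    (h3 : (3 : K) ≠ 0) (ε : Multiplicative (ZMod 3) →* Kˣ) (e1 : Function.Injective ε)
    (e2 : ∀ x : Kˣ, x ^ 3 = 1 → ∃ t, ε t = x) (σ : Multiplicative (Fin 6 → ZMod 3) →* GL I K) :
    ∃ u : Fin n → Fin 6 → ZMod 3, ∀ v, #{r | u r ⬝ᵥ v ≠ 0} = ((σ (ofAdd v)).1 - 1).rank := by
  classical
  let π : Multiplicative (Fin 6 → ZMod 3) →* End K (I → K) := toLinAlgEquiv'.toMonoidHom.comp ((Units.coeHom _).comp σ)
  have h1 := iSup_wsp_eq_top π (fun a b => (Commute.all a b).map π) (N := 3) (by simpa using h3)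
    fun a => by rw [← map_pow, pow_eq_one_mult, map_one]
  obtain ⟨b, b1, b2, b3⟩ := exists_linearIndependent K {v | ∃ l, v ∈ wsp π l}
  let v₀ := Basis.mk b3 (by
    rw [Subtype.range_coe, b2, ← h1]
    exact iSup_le fun l v hv => Submodule.subset_span ⟨l, hv⟩)
  have := FiniteDimensional.fintypeBasisIndex v₀
  let v := v₀.reindex (Fintype.equivFinOfCardEq (n := n) (by rw [← finrank_eq_card_basis v₀]; simp [hI]))
  have h3 : ∀ i, ∃ l, v i ∈ wsp π l := fun i => by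
    rw [Basis.reindex_apply, Basis.mk_apply]
    exact b1 (Subtype.coe_prop _)
  choose l hl using h3
  let χ (i : Fin n) : Multiplicative (Fin 6 → ZMod 3) →* Kˣ := MonoidHom.toHomUnits
    ⟨⟨l i, weight_one (v.ne_zero i) (hl i) (map_one π)⟩, fun a b => weight_mul (v.ne_zero i) (hl i) (map_mul π a b)⟩
  choose t ht using fun i a => e2 (χ i a) (by rw [← map_pow, pow_eq_one_mult, map_one])
  choose u hu using fun i => exists_dotHom (MonoidHom.mk' (t i) fun a b => e1 (by simp only [map_mul, ht]))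
  refine ⟨u, fun e => ?_⟩
  have h4 : toLin v v (diagonal fun i => l i (ofAdd e) - 1) = toLin' ((σ (ofAdd e)).1 - 1) := v.ext fun i => by
    have : (σ (ofAdd e)).1 *ᵥ v i = l i (ofAdd e) • v i := hl i _
    simp [toLin_self, diagonal_apply, this, sub_smul]
  rw [Matrix.rank, ← toLin'_apply', ← h4, ← rank_eq_finrank_range_toLin, rank_diagonal, Fintype.card_subtype]
  refine congrArg card (filter_congr fun i _ => not_congr ?_)
  rw [sub_eq_zero, show l i (ofAdd e) = ε (ofAdd (u i ⬝ᵥ e)) from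
    congrArg Units.val ((ht i _).symm.trans (congrArg ε (DFunLike.congr_fun (hu i) _))), Units.val_eq_one,
    map_eq_one_iff _ e1, ofAdd_eq_one]

end CfsgLib.AltSec
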