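import Mathlib
import Cfsg.Agent.Lib.AltSec.E8e
import Cfsg.Agent.Lib.KInv.Proj

/-!
Alternating sections of the groups of type `E₈`: the normaliser of a toral group of order `3 ^ 6`.
-/

set_option autoImplicit false

namespace CfsgLib.AltSec

open Subgroup CfsgLib.RGD CfsgLib.Twist CfsgLib.Stein CfsgLib.Semi CfsgLib.Chev CfsgLib.KInv Finset Multiplicative Matrix
open scoped MatrixGroups

theorem mem_of_single {A : Subgroup (Multiplicative (Fin 6 → ZMod 3))} (h : ∀ i, ofAdd (Pi.single i 1) ∈ A)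
    (v : Multiplicative (Fin 6 → ZMod 3)) : v ∈ A := by
  rw [← ofAdd_toAdd v, ← univ_sum_single v.toAdd, ofAdd_sum]
  refine prod_mem fun i _ => ?_
  rw [← ZMod.natCast_zmod_val (v.toAdd i), ← nsmul_one, Pi.single_smul, ofAdd_nsmul]
  exact pow_mem (h i) _

/-- the elements inducing inner automorphisms -/
def indS {G Γ : Type*} [Group G] [Group Γ] (θ : Γ →* G) : Subgroup G where
  carrier := {g | ∃ γ, Ind θ g γ}
  mul_mem' := fun ⟨_, h⟩ ⟨_, h'⟩ => ⟨_, h.mul h'⟩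
  one_mem' := ⟨1, fun _ => by simp⟩
  inv_mem' := fun ⟨_, h⟩ => ⟨_, h.inv⟩

variable {Y : Fin 6 → Fin 8 → ZMod 3} {a b : Fin 240}

theorem AB.pow4 (h : AB Y a b) {w : Equiv.Perm (Fin 240)} (hw : w ∈ Φ8.W) (h1 : ∀ r, uu Y r = 0 → uu Y (w r) = 0) :
    (w ^ 4) a = a := by
  have e := (ip_apply hw a b).trans h.orth
  change w (w (w (w a))) = a
  rcases (h.mem _).1 (h1 a h.ua) with ha | ha | ha | ha <;> rcases (h.mem _).1 (h1 b h.symm.ua) with hb | hb | hb | hb <;>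
    first
    | simp only [ha, hb, Φ8.apply_neg hw, Φ8.neg_neg]; done
    | simp [ha, hb, ip_neg_left, ip_neg_right, ip_self8] at e

variable {K : Type*} [Field K] {G : Type*} [Group G] {S : StSys Φ8 K G} {τ : (Fin 8 → Kˣ) →* G}
  {ε : Multiplicative (ZMod 3) →* Kˣ}

theorem chr_tor (v : Fin 6 → ZMod 3) (r : Fin 240) :
    Φ8.chr (fun j => ε (ofAdd (∑ i, v i * Y i j))) r = ε (ofAdd (uu Y r ⬝ᵥ v)) := by
  rw [← Φ8.map_chr]
  refine congrArg ε (toAdd.injective ?_)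
  simp only [RootSys.chr, toAdd_prod, toAdd_zpow, toAdd_ofAdd, zsmul_eq_mul, dotProduct, uu, mul_sum, sum_mul]
  exact sum_comm.trans (sum_congr rfl fun _ _ => sum_congr rfl fun _ _ => by ring)

theorem ind_one {θ : SL(2, K) →* G} (h1 : ∀ t, θ (slX t) = S.x a t) (h2 : ∀ t, θ (slY t) = S.x (Φ8.neg a) t) {g : G} :
    Ind θ g 1 ↔ ∀ t, Commute g (S.x a t) ∧ Commute g (S.x (Φ8.neg a) t) := by
  refine ⟨fun h t => ⟨mul_inv_eq_iff_eq_mul.1 ?_, mul_inv_eq_iff_eq_mul.1 ?_⟩, fun h x => ?_⟩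
  · simpa [h1] using h (slX t)
  · simpa [h2] using h (slY t)
  have h3 : ∀ t, slX t ∈ (centralizer {g}).comap θ := fun t => mem_centralizer_singleton_iff.2 (h1 t ▸ (h t).1.symm)
  have := sl_induction (M := ((centralizer {g}).comap θ).toSubmonoid) h3 (slW_eq (F := K) ▸ mul_mem (mul_mem (h3 _)
    (mem_centralizer_singleton_iff.2 ((h2 _).symm ▸ (h _).2.symm))) (h3 _)) x
  simpa [mul_inv_eq_iff_eq_mul] using (mem_centralizer_singleton_iff.1 this).symm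

theorem AB.mem_indS (h : AB Y a b) {θ : SL(2, K) →* G} (h1 : ∀ t, θ (slX t) = S.x a t)
    (h2 : ∀ t, θ (slY t) = S.x (Φ8.neg a) t) {γ m : G} (hγ : γ ∈ S.UU {r | uu Y r = 0})
    (hm : ∀ r, uu Y r = 0 → ∀ t, Commute m (S.x r t)) : γ * m ∈ indS θ := by
  refine mul_mem (S.UU_le_iff.2 (fun r hr t => ?_) hγ) ⟨1, (ind_one h1 h2).2 fun t =>
    ⟨hm _ h.ua t, hm _ (by rw [uu_neg, h.ua, neg_zero]) t⟩⟩
  have h3 : ∀ r, ip Φ8 r a = 0 → S.x r t ∈ indS θ := fun r e => ⟨1, (ind_one h1 h2).2 fun u =>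
    ⟨cm_of_ip (M := 3) (by simp [ip_self8]) e.ge (by simp [ip_self8, e]) t u, cm_of_ip (M := 3) (by simp [ip_self8])
      (by simp [ip_neg_right, e]) (by rw [ip_self8, ip_self8, ip_neg_right, e]; decide) t u⟩⟩
  rcases (h.mem r).1 hr with rfl | rfl | rfl | rfl
  exacts [⟨_, h1 t ▸ ind_self _⟩, ⟨_, h2 t ▸ ind_self _⟩, h3 _ h.symm.orth, h3 _ (by simp [ip_neg_left, h.symm.orth])]

variable (hS : Sharp S) (hτ : S.IsTor τ) (hε : Function.Injective ε) {T : Multiplicative (Fin 6 → ZMod 3) →* G}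
  (hT : ∀ v, T v = τ fun j => ε (ofAdd (∑ i, v.toAdd i * Y i j)))
include hS hτ hε hT

theorem uu_apply {n : G} (hn : n ∈ S.N) {w : Equiv.Perm (Fin 240)} (hw : w ∈ Φ8.W) (ha : S.Acts n w)
    {v v' : Multiplicative (Fin 6 → ZMod 3)} (e : n⁻¹ * T v * n = T v') (r : Fin 240) :
    uu Y (w r) ⬝ᵥ v.toAdd = uu Y r ⬝ᵥ v'.toAdd := by
  rw [hT, hT, hτ.N_conj hS.nondeg hn ha] at e
  have := Φ8.chr_apply hw (fun j => ε (ofAdd (∑ i, v.toAdd i * Y i j))) r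
  rw [hτ.inj hS.nondeg e, chr_tor, chr_tor] at this
  exact (ofAdd.injective (hε this)).symm

theorem AB.trace_ne (h : AB Y a b)
    (hN : ∀ v, #{r | uu Y r ⬝ᵥ v ≠ 0} = [0, 156, 114, 162, 156, 168, 162].getD (wt6 v) 0) (h3 : (3 : K) ≠ 0) {n : G}
    (hn : n ∈ S.N) (n1 : n ^ 3 = 1) (n2 : ∀ r, uu Y r = 0 → ∀ t, Commute n (S.x r t))
    (n3 : ∀ v, n⁻¹ * T v * n = T (ofAdd (v.toAdd ∘ ![1, 2, 0, 4, 5, 3]))) : ∃ (w : Equiv.Perm (Fin 240))
    (l : Fin 240 → K), (∀ s, l s * l (Φ8.neg s) = 1) ∧ (∀ s t, n * S.x s t * n⁻¹ = S.x (w s) (l s * t)) ∧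
      ((∑ i, Φ8.rt (w (Φ8.simple i)) i : ℤ) : K) + ∑ s, (if w s = s then l s else 0) ≠ 5 := by
  obtain ⟨w, hw, ha⟩ := S.exists_acts_of_mem_N hn
  have hu := fun v => uu_apply hS hτ hε hT hn hw ha (n3 v)
  obtain ⟨l, l1, l2⟩ := ha
  have e0 : ∀ {r s : Fin 240} {t : K}, S.x r t = S.x s 1 → r = s ∧ t = 1 := fun e =>
    have := hS.nondeg.root_eq_of_x_eq one_ne_zero e.symm
    ⟨this.symm, hS.nondeg.x_injective _ (this ▸ e :)⟩
  have e1 := fun s => e0 (show S.x (w (w (w s))) (l (w (w s)) * (l (w s) * (l s * 1))) = S.x s 1 by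
    rw [← l2, ← l2, ← l2, show n * (n * (n * S.x s 1 * n⁻¹) * n⁻¹) * n⁻¹ = n ^ 3 * S.x s 1 * (n ^ 3)⁻¹ by
      simp [pow_succ, mul_assoc], n1]
    group)
  have e2 := fun r hr => e0 ((l2 r 1).symm.trans (mul_inv_eq_iff_eq_mul.2 (n2 r hr 1)))
  have e3 : ∀ d, uu Y d = 0 → ∀ s, w s = s → l (rf Φ8 d s) = l s := fun d hd s hs => by
    obtain ⟨k, k1, k2⟩ := acts_rf S d one_ne_zero
    have e4 : Commute n (S.n d 1) := ((n2 d hd _).mul_right (n2 _ (by rw [uu_neg, hd, neg_zero]) _)).mul_right (n2 d hd _)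
    have e5 := l2 (rf Φ8 d s) (k s * 1)
    rw [← k2, show n * (S.n d 1 * S.x s 1 * (S.n d 1)⁻¹) * n⁻¹ = n * S.n d 1 * S.x s 1 * (n * S.n d 1)⁻¹ by group, e4.eq,
      show S.n d 1 * n * S.x s 1 * (S.n d 1 * n)⁻¹ = S.n d 1 * (n * S.x s 1 * n⁻¹) * (S.n d 1)⁻¹ by group, l2, hs, k2] at e5
    have e6 := left_ne_zero_of_mul_eq_one (k1 s)
    have e7 := hS.nondeg.root_eq_of_x_eq (by simpa [e6] using left_ne_zero_of_mul_eq_one (l1 s)) e5
    rw [← e7] at e5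
    exact mul_left_cancel₀ e6 (by simpa [mul_comm] using (hS.nondeg.x_injective _ e5).symm)
  refine ⟨w, l, l1, l2, h.trace hN hw (fun s => (e1 s).1) (e2 a h.ua).1 (e2 b h.symm.ua).1 (fun r => funext fun i => ?_) h3
    l1 (fun s hs => ?_) (by simpa using (e2 a h.ua).2) (by simpa using (e2 b h.symm.ua).2)
    fun s hs => ⟨e3 a h.ua s hs, e3 b h.symm.ua s hs⟩⟩
  · have := hu (ofAdd (Pi.single i 1)) r
    fin_cases i <;> simpa [dotProduct, Fin.sum_univ_six] using this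
  · have := (e1 s).2
    rw [hs, hs] at this
    linear_combination this

variable [IsAlgClosed K] (hH : ∀ d, τ d ∈ S.H) {c : Fin 8 → Kˣ}
  (hc : ∀ y ∈ S.grp, Commute (τ c) y ↔ ∀ v, Commute (T v) y)
include hH hc

omit [IsAlgClosed K] hH in
theorem chr_eq_one_iff (r : Fin 240) : Φ8.chr c r = 1 ↔ uu Y r = 0 := by
  have h1 : ∀ d, Commute (τ d) (S.x r 1) ↔ Φ8.chr d r = 1 := fun d => by
    rw [Commute, SemiconjBy, ← mul_inv_eq_iff_eq_mul, hτ.conj, (hS.nondeg.x_injective r).eq_iff, mul_one, Units.val_eq_one]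
  simp only [← h1, hc _ (S.x_mem_grp r 1), hT]
  simp only [h1, chr_tor, map_eq_one_iff _ hε, ofAdd_eq_one]
  exact ⟨fun h => funext fun i => by simpa using h (ofAdd (Pi.single i 1)), fun h v => by simp [h]⟩

theorem AB.dec (h : AB Y a b) {g : G} (hg : g ∈ S.grp) (h1 : ∀ v, ∃ v', g⁻¹ * T v * g = T v') :
    ∃ γ ∈ S.UU {r | uu Y r = 0}, ∃ m ∈ S.N, (∀ r, uu Y r = 0 → ∀ t, Commute m (S.x r t)) ∧ g ^ 4 = γ * m := by
  have h0 := chr_eq_one_iff hS hτ hε hT hc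
  obtain ⟨n, ⟨hn, hn'⟩, h2⟩ := fuse (isTw_id hS) (inv_mem hg)
  have h3 : ∀ v, g⁻¹ * T v * g = n * T v * n⁻¹ := fun v => by
    obtain ⟨v', e⟩ := h1 v
    simpa using h2 _ (hT v ▸ hH _) (by rw [inv_inv, e, hT]; exact hH _)
  obtain ⟨u, hu, k, hk, w, hw, ha, h4, u', hu', e⟩ := hτ.bruhat_centralizer hS.nondeg (mul_mem hg hn') ((hc _
    (mul_mem hg hn')).2 fun v => by
      rw [Commute, SemiconjBy, mul_assoc g n, mul_inv_eq_iff_eq_mul.1 (h3 v).symm]; group)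
  obtain ⟨w', hw', ha'⟩ := S.exists_acts_of_mem_N (inv_mem hn)
  have h5 : ∀ r, uu Y r = 0 → uu Y (w r) = 0 := fun r hr => (h0 _).1 ((h4 r).trans ((h0 r).2 hr))
  have h6 : ∀ r, uu Y r = 0 → uu Y ((w * w') r) = 0 := fun r hr => h5 _ (funext fun i => by
    obtain ⟨v', e⟩ := h1 (ofAdd (Pi.single i 1))
    have := uu_apply hS hτ hε hT (inv_mem hn) hw' ha' (by rw [inv_inv, ← h3, e]) r
    rwa [hr, toAdd_ofAdd, dotProduct_single_one, zero_dotProduct] at this)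
  have h7 := ha.mul ha' hw'
  have h8 : u * (k * u' * k⁻¹) ∈ S.UU {r | uu Y r = 0} := mul_mem (S.UU_mono (fun r hr => (h0 r).1 hr.2) hu)
    (ha.conj_mem_UU (fun r hr => h5 r ((h0 r).1 hr.1.2)) hu')
  rw [show g = u * (k * u' * k⁻¹) * (k * n⁻¹) by rw [← mul_inv_cancel_right g n, e]; group]
  have h9 := mul_mem hk (inv_mem hn)
  generalize u * (k * u' * k⁻¹) = γ, k * n⁻¹ = m at h7 h8 h9
  obtain ⟨l, l1, l2⟩ := AltSec.acts_pow (mul_mem hw hw') h7 4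
  have k1 := h.pow4 (mul_mem hw hw') h6
  have k2 := h.symm.pow4 (mul_mem hw hw') h6
  obtain ⟨x, hx⟩ := IsAlgClosed.exists_pow_nat_eq (l a) two_pos
  obtain ⟨y, hy⟩ := IsAlgClosed.exists_pow_nat_eq (l b) two_pos
  have x0 : x ≠ 0 := fun e => left_ne_zero_of_mul_eq_one (l1 a) (by rw [← hx, e]; simp)
  have y0 : y ≠ 0 := fun e => left_ne_zero_of_mul_eq_one (l1 b) (by rw [← hy, e]; simp)
  have k3 : ∀ d, uu Y d = 0 → ∀ t, S.h d t ∈ S.UU {r | uu Y r = 0} := fun d hd t =>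
    have : uu Y (Φ8.neg d) = 0 := by rw [uu_neg, hd, neg_zero]
    mul_mem (S.n_mem_UU hd this _) (S.n_mem_UU hd this _)
  have k4 := fun {u} => h7.conj_mem_UU (u := u) (Ψ := {r | uu Y r = 0}) (Ψ' := {r | uu Y r = 0}) h6
  refine ⟨γ * (m * γ * m⁻¹) * (m * (m * γ * m⁻¹) * m⁻¹) * (m * (m * (m * γ * m⁻¹) * m⁻¹) * m⁻¹) * (S.h a x * S.h b y),
    mul_mem (mul_mem (mul_mem (mul_mem h8 (k4 h8)) (k4 (k4 h8))) (k4 (k4 (k4 h8)))) (mul_mem (k3 a h.ua x)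
      (k3 b h.symm.ua y)), (S.h a x * S.h b y)⁻¹ * m ^ 4, mul_mem (inv_mem (S.H_le_N (mul_mem (S.h_mem_H a x0)
        (S.h_mem_H b y0)))) (pow_mem h9 4), fun r hr t => ?_, by simp only [pow_succ]; group⟩
  have k5 : m ^ 4 * S.x r t * (m ^ 4)⁻¹ = S.h a x * (S.h b y * S.x r t * (S.h b y)⁻¹) * (S.h a x)⁻¹ := by
    have := eq_inv_of_mul_eq_one_right (l1 a)
    have := eq_inv_of_mul_eq_one_right (l1 b)
    rw [l2, h_conj_cart hS _ _ y0, h_conj_cart hS _ _ x0]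
    rcases (h.mem r).1 hr with rfl | rfl | rfl | rfl <;>
      simp [*, Φ8.apply_neg (pow_mem (mul_mem hw hw') 4), cart, ip_self8, ip_neg_right, h.orth, h.symm.orth, zpow_ofNat]
  rw [Commute, SemiconjBy, mul_assoc, mul_inv_eq_iff_eq_mul.1 k5]
  group

theorem AB.exists_y (h : AB Y a b) (h3 : (3 : K) ≠ 0) (θ : Fin 240 → SL(2, K) →* G)
    (h0 : ∀ r, Φ8.Pos r → Function.Injective (θ r)) (h1 : ∀ r t, θ r (slX t) = S.x r t)
    (h2 : ∀ r t, θ r (slY t) = S.x (Φ8.neg r) t) {H : Type*} [Group H] [Finite H] (j : H →* G) (hj : ∀ x, j x ∈ S.grp)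
    (π : H →* alternatingGroup (Fin 6 × ZMod 3)) {m : ℕ} (hm : ¬ 3 ∣ m) (hk : ∀ x, π x = 1 → x ^ m = 1)
    {σ : Multiplicative (Fin 6 → ZMod 3) →* H} (hσ : ∀ v, T v = j (σ v))
    (hQ : ∀ s, ∃ g ∈ normalizer (σ.range : Set H), π g = blkA s) : ∃ y ∈ normalizer (σ.range : Set H), y ^ 3 = 1 ∧
      π y = blkA (tau9 (ofAdd (1, 1))) ∧ j y ∈ S.N ∧ ∀ r, uu Y r = 0 → ∀ t, Commute (j y) (S.x r t) := by
  have k1 := fun g (hg : g ∈ normalizer (σ.range : Set H)) => h.dec hS hτ hε hT hH hc (hj g) fun v => by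
    obtain ⟨v', e⟩ := (mem_normalizer_iff''.1 hg _).1 ⟨v, rfl⟩
    exact ⟨v', by rw [hσ, hσ, e, map_mul, map_mul, map_inv]⟩
  obtain ⟨f, hf⟩ := exists_proj (h0 a h.pa) (C := indS (θ a)) fun _ h => h
  obtain ⟨g, hg⟩ := exists_proj (h0 b h.pb) (C := indS (θ b)) fun _ h => h
  obtain ⟨y, y1, y2, y3, y4, y5⟩ := exists_cent π hm hk blkA hQ (Z := (indS (θ a) ⊓ indS (θ b)).comap j) (fun g hg => by
      obtain ⟨γ, g1, m, -, g2, e⟩ := k1 g hg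
      rw [mem_comap, map_pow, e]
      exact ⟨h.mem_indS (h1 a) (h2 a) g1 g2, h.symm.mem_indS (h1 b) (h2 b) g1 g2⟩)
    (f.comp ((j.comp (Subgroup.subtype _)).codRestrict _ fun x => x.2.1))
    (g.comp ((j.comp (Subgroup.subtype _)).codRestrict _ fun x => x.2.2)) (psl2_three h3)
  replace y2 := (ind_one (h1 a) (h2 a)).1 ((hf _ 1).1 y2)
  replace y3 := (ind_one (h1 b) (h2 b)).1 ((hg _ 1).1 y3)
  replace y4 : y.1 ^ 3 = 1 := congrArg Subtype.val y4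
  have k2 : ∀ r, uu Y r = 0 → ∀ t, Commute (j y) (S.x r t) := fun r hr t => by
    rcases (h.mem r).1 hr with rfl | rfl | rfl | rfl
    exacts [(y2 t).1, (y2 t).2, (y3 t).1, (y3 t).2]
  refine ⟨y, y1, y4, y5, ?_, k2⟩
  obtain ⟨γ, g1, m, g2, g3, e⟩ := k1 y y1
  rw [← map_pow, pow_succ, y4, one_mul] at e
  have h4 := chr_eq_one_iff hS hτ hε hT hc
  obtain ⟨d, rfl, -⟩ := exists_eq_tor hS hτ hH (c := c) (g := γ) (mem_sup_left (S.UU_mono (fun r => (h4 r).2) g1))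
    fun r hr t => by
      rw [eq_mul_inv_of_mul_eq e.symm]
      exact (k2 r ((h4 r).1 hr) t).mul_left (g3 r ((h4 r).1 hr) t).inv_left
  exact e ▸ mul_mem (S.H_le_N (hH d)) g2

end CfsgLib.AltSec
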