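import Mathlib
import Cfsg.Agent.Lib.AltSec.E8f
import Cfsg.Agent.S4279

/-!
Alternating sections of the groups of type `E₈`.
-/

set_option autoImplicit false

namespace CfsgLib.AltSec

open Subgroup CfsgLib.RGD CfsgLib.Twist CfsgLib.Weyl CfsgLib.Semi CfsgLib.Chev CfsgLib.Lang Cfsg.Lie Finset Multiplicative
  Matrix
open scoped MatrixGroups

theorem sum_three {ι K : Type*} [Fintype ι] [Semiring K] (k : ι → ZMod 3) (g : ZMod 3 → K) :
    ∑ s, g (k s) = #{s | k s = 0} * g 0 + #{s | k s = 1} * g 1 + #{s | k s = -1} * g (-1) := by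
  simp only [card_filter, Nat.cast_sum, sum_mul, ← sum_add_distrib]
  refine sum_congr rfl fun s _ => ?_
  rcases (by decide : ∀ t : ZMod 3, t = 0 ∨ t = 1 ∨ t = -1) (k s) with e | e | e <;>
    simp [e, show (1 : ZMod 3) ≠ -1 by decide, show (-1 : ZMod 3) ≠ 1 by decide]

theorem no_alt18 {K : Type*} [Field K] [DecidableEq K] [IsAlgClosed K] {G : Type*} [Group G] {S : StSys Φ8 K G}
    {τ : (Fin 8 → Kˣ) →* G} {p : ℕ} [hp : Fact p.Prime] [CharP K p] {F : ℕ → G →* G} (hF : Frob S τ p F) (hS : Sharp S)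
    (h3 : p ≠ 3) (θ : Fin 240 → SL(2, K) →* G) (h0 : ∀ r, Φ8.Pos r → Function.Injective (θ r))
    (h1 : ∀ r t, θ r (slX t) = S.x r t) (h2 : ∀ r t, θ r (slY t) = S.x (Φ8.neg r) t) {I : Type*} [Fintype I]
    [DecidableEq I] (hI : Fintype.card I = 248) (ρ : G →* GL I K)
    (hrk : ∀ c, ((ρ (τ c)).1 - 1).rank = #{r | Φ8.chr c r ≠ 1})
    (htr : ∀ n ∈ S.N, ∀ (w : Equiv.Perm (Fin 240)) (l : Fin 240 → K), (∀ s, l s * l (Φ8.neg s) = 1) →
      (∀ s t, n * S.x s t * n⁻¹ = S.x (w s) (l s * t)) →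
      (ρ n).1.trace = (∑ i, Φ8.rt (w (Φ8.simple i)) i : ℤ) + ∑ s, if w s = s then l s else 0)
    {H : Type*} [Group H] [Finite H] (j : H →* G) (hj : ∀ x, j x ∈ S.grp) (hj' : Function.Injective j)
    (π : H →* alternatingGroup (Fin 6 × ZMod 3)) (hπ : Function.Surjective π) (hm : ¬ 3 ∣ Nat.card π.ker) : False := by
  have hk : ∀ x, π x = 1 → x ^ Nat.card π.ker = 1 := fun x h => congrArg Subtype.val (pow_card_eq_one' (x := (⟨x, h⟩ : π.ker)))
  have p3 : ¬ p ∣ 3 := mt (Nat.prime_dvd_prime_iff_eq hp.out Nat.prime_three).1 h3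
  have k3 : (3 : K) ≠ 0 := fun e => p3 ((CharP.cast_eq_zero_iff K p 3).1 (by simpa using e))
  have hτ := hF.isTor
  obtain ⟨σ, s1, s2⟩ := exists_sect3 π hm hk hπ (pow_eq_one_mult 6 3) (trA 6 (by decide))
  have s3 : ∀ v, σ v ^ 3 = 1 := fun v => by rw [← map_pow, pow_eq_one_mult, map_one]
  obtain ⟨ω, hω⟩ := exists_order (K := K) p3
  obtain ⟨ε, e1, e2, e3⟩ := exists_eps3 hω
  have c1 : ∀ c, τ c ^ 3 = 1 → ∀ i, ∃ t, ε t = c i := fun c h i =>
    e2 _ (congrFun (hτ.inj hF.nondeg ((map_pow τ c 3).trans (h.trans (map_one τ).symm))) i)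
  have c2 : ∀ x : H, x ^ 3 = 1 → x ≠ 1 → ((ρ (j x)).1 - 1).rank ∈ [168, 162, 114] ∨ ((ρ (j x)).1 - 1).rank = 156 ∧
      ∃ g ∈ S.grp, ∃ z, (∀ r, |Φ8.ip z r| ≤ 2) ∧ j x = g * τ (fun i => ω ^ z i) * g⁻¹ := fun x hx hx' => by
    obtain ⟨g, hg, c, hc⟩ := hF.toral (hj x) p3 (by rw [← map_pow, hx, map_one])
    choose y hy using c1 c (by rw [← hc]; simpa using conj_pow (a := g⁻¹) (b := j x) (i := 3) |>.trans (by
      rw [← map_pow, hx]; simp))
    obtain rfl : (fun i => ε (y i)) = c := funext hy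
    have h4 := (rank_conj (ρ.map_isConj (isConj_iff.2 ⟨g⁻¹, by simpa using hc⟩))).1.trans (hrk _)
    have h5 := card_filter_add_card_filter_not (s := univ) fun r => Φ8.chr y r = 1
    simp only [← Φ8.map_chr, ne_eq, map_eq_one_iff _ e1] at h4
    rw [card_univ, Fintype.card_fin, ← h4] at h5
    refine (cls3 (y := y) fun e => hx' (hj' ?_)).imp (fun h => ?_) fun ⟨h, z, z1, z2⟩ => ⟨by omega, g, hg, z, z1, ?_⟩
    · simpa [e, show (fun _ => 1) = (1 : Fin 8 → Kˣ) from rfl, mul_assoc, inv_mul_eq_one] using hc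
    · simp only [List.mem_cons, List.not_mem_nil, or_false] at h ⊢
      omega
    · rw [show (fun i => ω ^ z i) = fun i => ε (y i) from funext fun i => by
        rw [← e3, ← Φ8.chr_simple y i, ← ofAdd_toAdd (Φ8.chr y _), z2]
        simp [RootSys.ip, Φ8.rt_simple], ← hc]
      group
  have c3 : ∀ x y : H, x ^ 3 = 1 → y ^ 3 = 1 → #(π x).1.support = #(π y).1.support → IsConj x y := fun x y hx hy h =>
    isConj_lift π hm hk hπ hx hy (isConj_three (by rw [← map_pow, hx, map_one]) (by rw [← map_pow, hy, map_one]) h)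
  obtain ⟨u, hu⟩ := exists_code3 hI k3 ε e1 e2 (ρ.comp (j.comp σ))
  let v₀ (k : ℕ) (i : Fin 6) : ZMod 3 := if i.val < k then 1 else 0
  have v1 : ∀ k ≤ 6, wt6 (v₀ k) = k := by decide
  have c4 : ∀ v, ((ρ (j (σ (ofAdd v)))).1 - 1).rank = ((ρ (j (σ (ofAdd (v₀ (wt6 v)))))).1 - 1).rank := fun v =>
    (rank_conj ((ρ.comp j).map_isConj (c3 _ _ (s3 _) (s3 _) (by
      rw [s1, s1, card_support_trA, card_support_trA, toAdd_ofAdd, toAdd_ofAdd,
        v1 (wt6 v) ((card_le_univ _).trans_eq (Fintype.card_fin 6))])))).1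
  have c5 : ∀ v, wt6 v ≠ 0 → σ (ofAdd v) ≠ 1 := fun v h e => h (by
    have := card_support_trA (ofAdd v)
    rw [← s1, e, map_one, toAdd_ofAdd] at this
    simpa using this)
  have c6 := fun v => (c4 v).trans (num248 u (f := fun k => ((ρ (j (σ (ofAdd (v₀ k))))).1 - 1).rank)
    (fun v => (hu v).trans (c4 v)) (fun k h h' => (c2 _ (s3 _) (c5 _ (by rw [v1 k h']; omega))).elim
      (fun h => by simp only [List.mem_cons] at h ⊢; tauto) fun h => by simp [h.1]) v)
  obtain ⟨g, hg, c, g1, g2⟩ := toral_family hF (fun i => j (σ (ofAdd (Pi.single i 1))))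
    (fun _ _ => (Commute.all _ _).map (j.comp σ)) hω.ge fun i => by
      have : wt6 (Pi.single i 1) = 1 := by revert i; decide
      exact ((c2 _ (s3 _) (c5 _ (by omega))).resolve_left (by rw [c6, this]; decide)).2
  let k := (MulAut.conj g⁻¹).toMonoidHom.comp j
  have k1 : ∀ x, k x = g⁻¹ * j x * g := fun x => by simp [k]
  choose d hd using fun v => mem_of_single (A := τ.range.comap (k.comp σ)) (fun i => (k1 _ ▸ g1 i : k _ ∈ _)) v
  choose t ht using fun v => c1 (d v) (by rw [hd, ← map_pow, pow_eq_one_mult, map_one])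
  choose Y hY using fun i => exists_dotHom (MonoidHom.mk' (t · i) fun a b => e1 (by
    rw [map_mul, ht, ht, ht, ← Pi.mul_apply, hτ.inj hF.nondeg (show τ (d (a * b)) = τ (d a * d b) by
      rw [map_mul, hd, hd, hd, map_mul])]))
  have hT : ∀ v, k.comp σ v = τ fun i => ε (ofAdd (∑ l, v.toAdd l * Y i l)) := fun v => by
    rw [← hd]
    exact congrArg τ (funext fun i => (ht v i).symm.trans (congrArg ε ((DFunLike.congr_fun (hY i) v).trans
      (congrArg ofAdd (dotProduct_comm _ _)))))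
  have hN : ∀ v, #{r | uu (fun l i => Y i l) r ⬝ᵥ v ≠ 0} = [0, 156, 114, 162, 156, 168, 162].getD (wt6 v) 0 := fun v => by
    rw [← c6, (rank_conj (ρ.map_isConj (isConj_iff.2 ⟨g⁻¹, (hT (ofAdd v) :)⟩))).1, hrk]
    exact congrArg card (filter_congr fun r _ => by
      rw [chr_tor (Y := fun l i => Y i l), Ne, Ne, map_eq_one_iff _ e1, ofAdd_eq_one, toAdd_ofAdd])
  obtain ⟨a, b, hab⟩ := exists_AB (cnt_zero hN)
  obtain ⟨y, y1, y2, y3, y4, y5⟩ := hab.exists_y hS hτ e1 hT hF.mem_H (c := c) (fun y hy => (g2 y hy).trans ⟨fun h v =>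
      mem_centralizer_singleton_iff.1 (mem_of_single (A := (centralizer {y}).comap (k.comp σ))
        (fun i => mem_centralizer_singleton_iff.2 (k1 _ ▸ h i :)) v), fun h i => k1 _ ▸ h _⟩) k3 θ h0 h1 h2 k
    (fun x => k1 x ▸ mul_mem (mul_mem (inv_mem hg) (hj x)) hg) π hm hk (fun _ => rfl) fun s => s2 _
      (mem_normalizer_fintype (by rintro _ ⟨v, rfl⟩; exact ⟨_, (blkA_conj s v).symm⟩))
  obtain ⟨w, l, l1, l2, l3⟩ := hab.trace_ne hS hτ e1 hT hN k3 y4 (by rw [← map_pow, y2, map_one]) y5 fun v => by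
    obtain ⟨v', e⟩ := (mem_normalizer_iff''.1 y1 _).1 ⟨v, rfl⟩
    have := blkA_conj (tau9 (ofAdd (1, 1)))⁻¹ v
    rw [map_inv, inv_inv, ← y3, ← s1, ← map_inv, ← map_mul, ← map_mul, ← e, s1, inv_inv,
      show ⇑(tau9 (ofAdd (1, 1))).1 = ![1, 2, 0, 4, 5, 3] by decide +kernel] at this
    rw [← trA_injective _ _ this, k.comp_apply, k.comp_apply, e, map_mul, map_mul, map_inv]
  refine l3 ((htr _ y4 w l l1 l2).symm.trans ((rank_conj ((ρ.comp k).map_isConj (c3 y (σ (ofAdd 1)) y2 (s3 _) (by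
    rw [y3, s1]; decide +kernel)))).2.trans ?_))
  have h4 := hN 1
  have h5 := card_filter_add_card_filter_not (s := univ) fun r => uu (fun l i => Y i l) r ⬝ᵥ 1 = 0
  have h6 := sum_three (K := ℕ) (fun r => uu (fun l i => Y i l) r ⬝ᵥ 1) fun _ => 1
  have h7 := cnt_neg (fun l i => Y i l) (· ⬝ᵥ 1) (fun v => neg_dotProduct _ _) 1
  rw [show wt6 1 = 6 by decide] at h4
  simp only [sum_const, card_univ, Fintype.card_fin, smul_eq_mul, mul_one, Nat.cast_id, ne_eq, List.getD_cons_succ,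
    List.getD_cons_zero] at h4 h5 h6
  have h8 : (ε (ofAdd (-1)) : K) = ε (ofAdd 1) ^ 2 := by rw [← Units.val_pow_eq_pow_val, ← map_pow]; rfl
  have h9 : (ε (ofAdd 1) : K) ^ 2 + ε (ofAdd 1) + 1 = 0 := (mul_eq_zero.1 (show ((ε (ofAdd 1) : K) - 1) * _ = 0 by
    have : (ε (ofAdd 1) : K) ^ 3 = 1 := by rw [← Units.val_pow_eq_pow_val, ← map_pow]; exact congrArg _ (map_one ε)
    linear_combination this)).resolve_left (by
      rw [sub_eq_zero, Units.val_eq_one, map_eq_one_iff _ e1]; decide)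
  rw [show ρ.comp k (σ (ofAdd 1)) = ρ _ from congrArg ρ (hT _), htr _ (S.H_le_N (hF.mem_H _)) 1 _ (fun s => by
    rw [Φ8.chr_neg, Units.mul_inv]) (hτ.conj _)]
  simp only [Equiv.Perm.one_apply, if_true, Φ8.rt_simple, chr_tor (Y := fun l i => Y i l), toAdd_ofAdd]
  rw [sum_three _ fun t => (ε (ofAdd t) : K), h7, show #{r | uu (fun l i => Y i l) r ⬝ᵥ 1 = 0} = 78 by omega,
    show #{r | uu (fun l i => Y i l) r ⬝ᵥ 1 = 1} = 81 by omega, h8]
  simp
  linear_combination 81 * h9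

theorem exists_pairing8 (r : Fin 240) : ∃ s : Fin 240, chevE8.pairing r s = 1 := by
  obtain ⟨w, hw, i, rfl⟩ := Φ8.exists_eq_apply_simple r
  obtain ⟨s, hs⟩ := (by decide +kernel : ∀ i, ∃ s, Φ8.wt i s = 1) i
  have h : ∀ i, Φ8.d i = 1 := by decide +kernel
  refine ⟨w s, ((pairing_eq _ _).trans (sum_range _)).trans (Eq.trans ?_ ((Stein.ip_apply hw _ _).trans
    ((Stein.ip_simple i s).trans (by rw [h, hs, mul_one]))))⟩
  rw [Stein.ip_eq_sum]
  exact sum_congr rfl fun (k : Fin 8) _ => congrArg₂ _ (cor8 _ k) (by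
    rw [h, one_mul]; exact (rootSys_wt rtOKE8 k _).symm)

theorem sl2Hom_neg {D : ChevalleyDatum} [Good D] (h : RtOK D) {K : Type*} [Field K] (r : Fin D.nroots) (t : K) :
    sl2Hom K r.2 (slY t) = (stSys h K).x ((rootSys h).neg r) t := sl2Hom_slY r.2 t

theorem rank_tau {D : ChevalleyDatum} [Good D] (h : RtOK D) {K : Type*} [Field K] [DecidableEq K] (c : Fin D.rank → Kˣ) :
    ((tau D K c).1 - 1).rank = #{r | (rootSys h).chr c r ≠ 1} := by
  rw [tau_val, diagR, ← diagonal_one, diagonal_sub, rank_diagonal, Fintype.card_subtype, card_filter, card_filter,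
    Fintype.sum_sum_type]
  simp only [Sum.elim_inl, sub_self, ne_eq, not_true, if_false, sum_const_zero, zero_add, Sum.elim_inr, sub_eq_zero,
    Units.val_eq_one]
  rfl

theorem bound_E8 {F : Type*} [Field F] [Fintype F] (p : ℕ) [hp : Fact p.Prime] [CharP F p] {r : ℕ}
    (h : Sec (alternatingGroup (Fin r)) (chevE8.group F)) : r ≤ 17 + (if p = 3 then 1 else 0) := by
  classical
  by_contra hr
  split_ifs at hr with h3
  · exact not_sec19_E8 p (by omega) (h.alt_le (by omega))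
  let _ := ZMod.algebra F p
  let f := (IsAlgClosed.lift (M := AlgebraicClosure (ZMod p)) (R := ZMod p) (S := F)).toRingHom
  let ψ := Stein.groupMap chevE8 f
  have hψ : Function.Injective ψ := fun a b e => Subtype.ext (glMap_injective f (congrArg Subtype.val e))
  have : Finite ψ.range := Finite.of_surjective _ ψ.rangeRestrict_surjective
  obtain ⟨X, π, hπ⟩ := (h.alt_le (r := 18) (by omega)).mono_right ψ.rangeRestrict (MonoidHom.rangeRestrict_injective_iff.2 hψ)
  obtain ⟨R, hR, hmin⟩ := (wellFounded_lt (α := Subgroup X)).has_min {R | R.map π = ⊤} ⟨⊤, map_top_of_surjective π hπ⟩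
  have h1 : Function.Surjective (π.comp R.subtype) := fun a => by
    obtain ⟨g, hg, e⟩ := hR.ge (mem_top a)
    exact ⟨⟨g, hg⟩, e⟩
  have h2 := not_dvd_ker _ R _ rfl h1 (fun L hL => by
    rw [← Subgroup.map_map] at hL
    exact map_injective R.subtype_injective (((map_subtype_le L).eq_or_lt.resolve_right (hmin _ hL)).trans (by
      rw [← MonoidHom.range_eq_map, range_subtype]))) fun B _ b1 b2 => sec3_le (F := F) p h3 b1
        (b2.mono_right ((MonoidHom.ofInjective hψ).symm.toMonoidHom.comp (X.subtype.comp R.subtype))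
          ((MonoidHom.ofInjective hψ).symm.injective.comp (Subtype.val_injective.comp Subtype.val_injective)))
  let e := (Fintype.equivFinOfCardEq (α := Fin 6 × ZMod 3) (n := 18) (by simp)).symm.altCongrHom
  exact no_alt18 (frob_chev rtOKE8 (by simp) p (exists_pow_pow_eq (F := ZMod p) p)) (sharp_stSys rtOKE8 _) h3
    (fun r => sl2Hom _ r.2) (fun r hr => (exists_pairing8 r).elim fun s hs =>
      Cfsg.Agent.S4279.sl2Hom_injective rtOKE8 r hr s.2 hs) (fun r => sl2Hom_slX r.2) (sl2Hom_neg rtOKE8)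
    (by simp; rfl) (MonoidHom.id _) (rank_tau rtOKE8)
    (fun n hn w l h1 h2 => by simp only [← cor8]; exact trace_N rtOKE8 hn h1 h2)
    ((chevE8.group _).subtype.comp (ψ.range.subtype.comp (X.subtype.comp R.subtype))) (fun x => (stSys_grp _).ge x.1.1.1.2)
    (Subtype.val_injective.comp (Subtype.val_injective.comp (Subtype.val_injective.comp Subtype.val_injective)))
    (e.toMonoidHom.comp (π.comp R.subtype)) (e.surjective.comp h1) (by rwa [MonoidHom.ker_comp_of_injective _ _ e.injective])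

end CfsgLib.AltSec
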